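import Mathlib
import Cfsg.Prelude.Def_Blocks
import Cfsg.Prelude.Def_BlockRank
import Cfsg.Agent.H81.Rank

set_option autoImplicit false
set_option linter.style.haveILetI false
set_option linter.unusedSectionVars false

/-!
# helper81: `l(B) ≤ k(B)` and the characterisations of defect zero
-/

namespace Cfsg.Agent.H81

open Cfsg Cfsg.Agent.H20
open scoped ComplexConjugate

universe u

variable {G : Type u} [Group G]

/-- Defect zero means that every member of the block has degree divisible by the full power of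
`p`. -/
theorem blockDefect_eq_zero_iff [Finite G] {p : ℕ} (B : Set (IrrCharacter G)) (hne : B.Nonempty) :
    blockDefect p B = 0 ↔
      ∀ χ ∈ B, (Nat.card G).factorization p ≤ (charDegree (χ : G → ℂ)).factorization p := by
  unfold blockDefect
  rw [Nat.sub_eq_zero_iff_le]
  constructor
  · intro h χ hχ
    exact h.trans (Nat.sInf_le ⟨χ, hχ, rfl⟩)
  · intro h
    apply le_csInf (hne.image _)
    rintro _ ⟨χ, hχ, rfl⟩
    exact h χ hχ

theorem factorization_le_iff_not_dvd_div [Finite G] {p : ℕ} (hp : p.Prime) (χ : IrrCharacter G) :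
    (Nat.card G).factorization p ≤ (charDegree (χ : G → ℂ)).factorization p ↔
      ¬ p ∣ Nat.card G / charDegree (χ : G → ℂ) := by
  have hdpos := (irr_charDegree χ).2
  have hd := irr_charDegree_dvd χ
  constructor
  · intro h
    apply not_dvd_div_of_pow_dvd hp χ
    exact (pow_dvd_pow p h).trans (Nat.ordProj_dvd _ p)
  · intro h
    by_contra hlt
    push Not at hlt
    apply h
    obtain ⟨c, hc⟩ := hd
    have hc0 : c ≠ 0 := by
      rintro rfl
      rw [mul_zero] at hc
      exact (Nat.card_pos (α := G)).ne' hc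
    rw [hc, Nat.mul_div_cancel_left _ hdpos]
    have h1 : (Nat.card G).factorization p =
        (charDegree (χ : G → ℂ)).factorization p + c.factorization p := by
      rw [hc, Nat.factorization_mul hdpos.ne' hc0]; rfl
    have h2 : 0 < c.factorization p := by omega
    exact Nat.dvd_of_factorization_pos h2.ne'

/-- `l(B) ≤ k(B)`, and the two characterisations of blocks of defect zero. -/
theorem rank_le_and_defect_zero [Finite G] {p : ℕ} [Fact p.Prime] {M : Ideal AlgInt}
    (hM : IsPModular p M) (χ₀ : IrrCharacter G) :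
    blockRank p (blockOf M (χ₀ : G → ℂ)) ≤ Nat.card (blockOf M (χ₀ : G → ℂ)) ∧
    (blockDefect p (blockOf M (χ₀ : G → ℂ)) = 0 ↔
      (Nat.card (blockOf M (χ₀ : G → ℂ)) = 1 ∧ blockRank p (blockOf M (χ₀ : G → ℂ)) = 1)) ∧
    (blockDefect p (blockOf M (χ₀ : G → ℂ)) = 0 ↔
      Nat.card (blockOf M (χ₀ : G → ℂ)) = blockRank p (blockOf M (χ₀ : G → ℂ))) := by
  classical
  haveI : Fintype G := Fintype.ofFinite G
  have hp : p.Prime := Fact.out
  have hne : (blockOf M (χ₀ : G → ℂ)).Nonempty := ⟨χ₀, mem_blockOf_self hM χ₀⟩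
  have hle := regSpan_le_blockSpan (p := p) hM χ₀
  have hrank : blockRank p (blockOf M (χ₀ : G → ℂ)) ≤ Nat.card (blockOf M (χ₀ : G → ℂ)) := by
    rw [blockRank_eq_finrank, ← finrank_blockSpan]
    exact Submodule.finrank_mono hle
  -- defect zero implies a singleton block of rank one
  have h1 : blockDefect p (blockOf M (χ₀ : G → ℂ)) = 0 →
      (Nat.card (blockOf M (χ₀ : G → ℂ)) = 1 ∧ blockRank p (blockOf M (χ₀ : G → ℂ)) = 1) := by
    intro hdef
    have h2 := (blockDefect_eq_zero_iff _ hne).mp hdef χ₀ (mem_blockOf_self hM χ₀)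
    have h3 := (factorization_le_iff_not_dvd_div hp χ₀).mp h2
    have h4 := blockOf_eq_singleton_of_defect_zero hM χ₀ h3
    rw [h4]
    refine ⟨by simp, ?_⟩
    unfold blockRank
    rw [Set.image_singleton]
    apply finrank_span_singleton
    intro h0
    have h5 := congrFun h0 1
    rw [pRegularPart_of_not_dvd p _ (by rw [orderOf_one]; exact hp.one_lt.ne' ∘ Nat.dvd_one.mp)]
      at h5
    exact irr_one_ne_zero χ₀ h5
  -- equality of rank and cardinality implies defect zero
  have h2 : Nat.card (blockOf M (χ₀ : G → ℂ)) = blockRank p (blockOf M (χ₀ : G → ℂ)) →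
      blockDefect p (blockOf M (χ₀ : G → ℂ)) = 0 := by
    intro heq
    have heq' : Module.finrank ℂ (regSpan p (blockOf M (χ₀ : G → ℂ))) =
        Module.finrank ℂ (blockSpan (blockOf M (χ₀ : G → ℂ))) := by
      rw [finrank_blockSpan, heq, blockRank_eq_finrank]
    have hEq := Submodule.eq_of_le_of_finrank_eq hle heq'
    rw [blockDefect_eq_zero_iff _ hne]
    intro χ hχ
    have hmem : (χ : G → ℂ) ∈ regSpan p (blockOf M (χ₀ : G → ℂ)) := by
      rw [hEq]
      exact Submodule.subset_span ⟨⟨χ, hχ⟩, rfl⟩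
    have hvan := vanish_of_mem_regSpan p _ _ hmem
    have h3 := pow_dvd_charDegree_of_vanish χ hvan
    rw [factorization_le_iff_not_dvd_div hp χ]
    exact not_dvd_div_of_pow_dvd hp χ h3
  refine ⟨hrank, ⟨h1, fun h => h2 (by rw [h.1, h.2])⟩, ⟨fun h => ?_, h2⟩⟩
  obtain ⟨ha, hb⟩ := h1 h
  rw [ha, hb]

end Cfsg.Agent.H81
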