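import Mathlib

set_option autoImplicit false
set_option linter.style.haveILetI false
set_option linter.unusedSectionVars false
set_option linter.unusedVariables false

/-!
# helper81: symmetric algebras with a two-dimensional centre

A finite-dimensional algebra `A` over an algebraically closed field with a nondegenerate
symmetric associative form, a central idempotent `ε` and a central element `z = ε z ≠ 0` with
`z * z = 0` such that every central element times `ε` lies in the span of `ε` and `z`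
(the "block" `ε A` has a two-dimensional centre).  Then there is `s` with
`dim (ε A) ≤ 2 s²` and `dim (z A) = s²` (the block is a matrix algebra over `k[x]/(x²)`).
-/

namespace Cfsg.Agent.H81.SymAlg

open Module

variable {k A : Type*} [Field k] [IsAlgClosed k] [Ring A] [Algebra k A] [FiniteDimensional k A]

/-- Wedderburn–Artin data for a finite-dimensional algebra over an algebraically closed field. -/
theorem exists_phi :
    ∃ (n : ℕ) (d : Fin n → ℕ) (_ : ∀ i, NeZero (d i))
      (φ : A →ₐ[k] (Π i, Matrix (Fin (d i)) (Fin (d i)) k)) (m : ℕ),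
      Function.Surjective φ ∧ (∀ x, φ x = 0 ↔ x ∈ Ring.jacobson A) ∧
        (Ring.jacobson A) ^ m = ⊥ := by
  haveI : IsArtinianRing A := IsArtinianRing.of_finite k A
  have h1 : IsNilpotent (Ring.jacobson A) := IsSemiprimaryRing.isNilpotent
  haveI : IsSemisimpleRing (A ⧸ Ring.jacobson A) := IsSemiprimaryRing.isSemisimpleRing
  obtain ⟨n, d, hd, ⟨e⟩⟩ :=
    IsSemisimpleRing.exists_algEquiv_pi_matrix_of_isAlgClosed k (A ⧸ Ring.jacobson A)
  obtain ⟨m, hm⟩ := h1
  refine ⟨n, d, hd, e.toAlgHom.comp (Ideal.Quotient.mkₐ k (Ring.jacobson A)), m, ?_, ?_, hm⟩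
  · exact e.surjective.comp (Ideal.Quotient.mkₐ_surjective k _)
  · intro x
    show e (Ideal.Quotient.mk _ x) = 0 ↔ _
    rw [map_eq_zero_iff e e.injective, Ideal.Quotient.eq_zero_iff_mem]

/-- The dimension count. -/
theorem finrank_bounds {s : ℕ} (ε z : A) (hεi : ε * ε = ε) (hzε : z * ε = z)
    (φ₀ : A →ₐ[k] Matrix (Fin s) (Fin s) k) (hsurj : Function.Surjective φ₀) (hφε : φ₀ ε = 1)
    (h4a : ∀ x, z * x = 0 ↔ φ₀ x = 0)
    (h7e : ∀ x, ε * x = x → φ₀ x = 0 → ∃ c, x = z * c) :
    finrank k (LinearMap.range (LinearMap.mulLeft k ε)) ≤ 2 * s ^ 2 ∧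
      finrank k (LinearMap.range (LinearMap.mulLeft k z)) = s ^ 2 := by
  obtain ⟨Rε, hRε⟩ : ∃ R : Submodule k A, R = LinearMap.range (LinearMap.mulLeft k ε) := ⟨_, rfl⟩
  rw [← hRε]
  have hmemR : ∀ x : A, ε * x ∈ Rε := fun x => by rw [hRε]; exact ⟨x, rfl⟩
  have hRmem : ∀ x ∈ Rε, ε * x = x := by
    intro x hx
    rw [hRε] at hx
    obtain ⟨w, hw⟩ := hx
    have hw' : ε * w = x := hw
    rw [← hw', ← mul_assoc, hεi]
  obtain ⟨f, hf⟩ : ∃ f : Rε →ₗ[k] Matrix (Fin s) (Fin s) k,
      f = φ₀.toLinearMap.comp Rε.subtype := ⟨_, rfl⟩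
  obtain ⟨g, hg⟩ : ∃ g : Rε →ₗ[k] A, g = (LinearMap.mulLeft k z).comp Rε.subtype := ⟨_, rfl⟩
  have hfx : ∀ x : Rε, f x = φ₀ x.1 := fun x => by rw [hf]; rfl
  have hgx : ∀ x : Rε, g x = z * x.1 := fun x => by rw [hg]; rfl
  have hker : LinearMap.ker f = LinearMap.ker g := by
    ext x
    rw [LinearMap.mem_ker, LinearMap.mem_ker, hfx, hgx, h4a]
  have hfsurj : LinearMap.range f = ⊤ := by
    rw [LinearMap.range_eq_top]
    intro N
    obtain ⟨x, hx⟩ := hsurj N
    refine ⟨⟨ε * x, hmemR x⟩, ?_⟩
    rw [hfx]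
    show φ₀ (ε * x) = N
    rw [map_mul, hφε, one_mul, hx]
  have hgrange : LinearMap.range g = LinearMap.range (LinearMap.mulLeft k z) := by
    ext y
    constructor
    · rintro ⟨x, rfl⟩
      exact ⟨x.1, by rw [hgx]; rfl⟩
    · rintro ⟨x, rfl⟩
      refine ⟨⟨ε * x, hmemR x⟩, ?_⟩
      rw [hgx]
      show z * (ε * x) = z * x
      rw [← mul_assoc, hzε]
  have h1 := LinearMap.finrank_range_add_finrank_ker f
  have h2 := LinearMap.finrank_range_add_finrank_ker g
  have h3 : finrank k (LinearMap.range f) = s ^ 2 := by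
    rw [hfsurj, finrank_top, finrank_matrix]
    simp
    ring
  have h4 : finrank k (LinearMap.ker f) ≤
      finrank k (LinearMap.range (LinearMap.mulLeft k z)) := by
    have hle : (LinearMap.ker f).map Rε.subtype ≤ LinearMap.range (LinearMap.mulLeft k z) := by
      rintro y ⟨x, hx, rfl⟩
      rw [SetLike.mem_coe, LinearMap.mem_ker, hfx] at hx
      have hx1 : ε * x.1 = x.1 := hRmem x.1 x.2
      obtain ⟨c, hc⟩ := h7e x.1 hx1 hx
      exact ⟨c, hc.symm⟩
    calc finrank k (LinearMap.ker f) = finrank k ((LinearMap.ker f).map Rε.subtype) :=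
          (Submodule.finrank_map_subtype_eq Rε (LinearMap.ker f)).symm
      _ ≤ _ := Submodule.finrank_mono hle
  rw [hgrange] at h2
  rw [hker] at h1 h4
  constructor
  · omega
  · omega

/-- The local analysis: the radical of the block is `z A`. -/
theorem local_part {s m : ℕ} [NeZero s]
    (lam : A →ₗ[k] k) (hsymm : ∀ x y, lam (x * y) = lam (y * x))
    (hnd : ∀ x, (∀ y, lam (x * y) = 0) → x = 0)
    (ε z : A) (hεc : ∀ x, ε * x = x * ε) (hεi : ε * ε = ε)
    (hzc : ∀ x, z * x = x * z) (hεz : ε * z = z) (hzz : z * z = 0)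
    (hZ : ∀ c, (∀ x, c * x = x * c) → ∃ α β : k, c * ε = α • ε + β • z)
    (φ₀ : A →ₐ[k] Matrix (Fin s) (Fin s) k) (hsurj : Function.Surjective φ₀)
    (hφε : φ₀ ε = 1) (h4a : ∀ x, z * x = 0 ↔ φ₀ x = 0)
    (J : Ideal A) [J.IsTwoSided] (hJm : J ^ m = ⊥)
    (hJ : ∀ x, ε * x = x → φ₀ x = 0 → x ∈ J) (hJφ : ∀ x ∈ J, φ₀ x = 0)
    (e : A) (he : e * e = e) (hεe : ε * e = e) (hφe : φ₀ e = Matrix.single 0 0 1) :
    ∀ x, ε * x = x → φ₀ x = 0 → ∃ c, x = z * c := by
  classical
  have heε : e * ε = e := by rw [← hεc, hεe]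
  have hφz : φ₀ z = 0 := (h4a z).mp hzz
  have he' : ∀ X, e * (e * X) = e * X := fun X => by rw [← mul_assoc, he]
  have hεe' : ∀ X, ε * (e * X) = e * X := fun X => by rw [← mul_assoc, hεe]
  have heε' : ∀ X, e * (ε * X) = e * X := fun X => by rw [← mul_assoc, heε]
  have hεε' : ∀ X, ε * (ε * X) = ε * X := fun X => by rw [← mul_assoc, hεi]
  have hzJ : ∀ j ∈ J, z * j = 0 := fun j hj => (h4a j).mpr (hJφ j hj)
  -- the elements `a`, `b`
  choose a ha using fun i : Fin s => hsurj (Matrix.single i 0 1)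
  choose b hb using fun i : Fin s => hsurj (Matrix.single 0 i 1)
  obtain ⟨u, hu⟩ : ∃ u : A, u = ∑ i, a i * e * b i := ⟨_, rfl⟩
  have hφu : φ₀ u = 1 := by
    rw [hu, map_sum]
    simp only [map_mul, ha, hb, hφe, Matrix.single_mul_single_same, mul_one]
    ext p q
    rw [Matrix.sum_apply]
    simp only [Matrix.single_apply, Matrix.one_apply]
    by_cases hpq : p = q
    · subst hpq
      simp
    · simp only [hpq, if_false]
      apply Finset.sum_eq_zero
      intro i _
      rw [if_neg]
      rintro ⟨rfl, rfl⟩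
      exact hpq rfl
  have hεu : ε * u = u := by
    rw [hu, Finset.mul_sum]
    refine Finset.sum_congr rfl fun i _ => ?_
    rw [← mul_assoc, ← mul_assoc, hεc (a i), mul_assoc (a i) ε e, hεe]
  obtain ⟨n', hn'⟩ : ∃ n' : A, n' = ε - u := ⟨_, rfl⟩
  have hεn' : ε * n' = n' := by rw [hn', mul_sub, hεi, hεu]
  have hn'J : n' ∈ J := hJ n' hεn' (by rw [hn', map_sub, hφε, hφu, sub_self])
  have hn'm : n' ^ m = 0 := by
    have := Ideal.pow_mem_pow hn'J m
    rwa [hJm, Ideal.mem_bot] at this
  obtain ⟨v, hv⟩ : ∃ v : A, v = ∑ r ∈ Finset.range m, n' ^ r := ⟨_, rfl⟩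
  have hvu : v * u = ε := by
    have h1 : u = (1 - n') * ε := by
      rw [sub_mul, one_mul, ← hεc, hεn', hn']
      abel
    rw [h1, ← mul_assoc, hv, geom_sum_mul_neg, hn'm, sub_zero, one_mul]
  obtain ⟨a', ha'⟩ : ∃ a' : Fin s → A, a' = fun i => v * a i := ⟨_, rfl⟩
  have hsum : ∑ i, a' i * e * b i = ε := by
    rw [← hvu, hu, Finset.mul_sum]
    refine Finset.sum_congr rfl fun i _ => ?_
    rw [ha']
    simp only [mul_assoc]
  -- decomposition of elements of `e A e`
  have hdec : ∀ x, e * x * e = x → ∃ (α : k) (j : A), x = α • e + j ∧ j ∈ J ∧ e * j * e = j := by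
    intro x hx
    refine ⟨(φ₀ x) 0 0, x - (φ₀ x) 0 0 • e, by abel, ?_, ?_⟩
    · apply hJ
      · rw [mul_sub, mul_smul_comm, hεe, ← hx]
        simp only [mul_assoc, hεe']
      · rw [map_sub, map_smul, hφe]
        have h1 : φ₀ x = Matrix.single 0 0 1 * φ₀ x * Matrix.single 0 0 1 := by
          rw [← hφe, ← map_mul, ← map_mul, hx]
        rw [sub_eq_zero, Matrix.smul_single, smul_eq_mul, mul_one]
        conv_lhs => rw [h1, Matrix.single_mul_mul_single, one_mul, mul_one]
    · rw [mul_sub, sub_mul, hx, mul_smul_comm, smul_mul_assoc, he, he]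
  -- centre of `e A e`
  have hZc : ∀ y, e * y * e = y → (∀ x, e * x * e = x → x * y = y * x) →
      ∃ α β : k, y = α • e + β • (z * e) := by
    intro y hy hcomm
    have hye : y * e = y := by rw [← hy, mul_assoc, he]
    have hey : e * y = y := by rw [← hy, ← mul_assoc, ← mul_assoc, he]
    have hyε : y * ε = y := by rw [← hye, mul_assoc, heε]
    have hεy : ε * y = y := by rw [← hey, ← mul_assoc, hεe]
    have hye' : ∀ X, y * (e * X) = y * X := fun X => by rw [← mul_assoc, hye]
    have hey' : ∀ X, e * (y * X) = y * X := fun X => by rw [← mul_assoc, hey]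
    obtain ⟨yh, hyh⟩ : ∃ yh : A, yh = ∑ i, a' i * y * b i := ⟨_, rfl⟩
    have hεyh : ε * yh = yh := by
      rw [hyh, Finset.mul_sum]
      refine Finset.sum_congr rfl fun i _ => ?_
      rw [← mul_assoc, ← mul_assoc, hεc (a' i), mul_assoc (a' i) ε y, hεy]
    have hcen : ∀ c, yh * c = c * yh := by
      intro c
      have key : ∀ i, y * (b i * c) = ∑ j, e * (b i * c * a' j) * y * b j := by
        intro i
        have h1 : y * (b i * c) * ε = y * (b i * c) := by
          rw [mul_assoc, ← hεc, ← mul_assoc y ε, hyε]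
        rw [← h1, ← hsum, Finset.mul_sum]
        refine Finset.sum_congr rfl fun j _ => ?_
        have hx : e * (e * (b i * c * a' j) * e) * e = e * (b i * c * a' j) * e := by
          simp only [mul_assoc, he, he']
        have h2 := hcomm (e * (b i * c * a' j) * e) hx
        calc y * (b i * c) * (a' j * e * b j)
            = y * (e * (b i * c * a' j) * e) * b j := by
              simp only [mul_assoc, hye']
          _ = (e * (b i * c * a' j) * e) * y * b j := by rw [← h2]
          _ = e * (b i * c * a' j) * y * b j := by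
              rw [mul_assoc (e * (b i * c * a' j)) e y, hey]
      calc yh * c = ∑ i, a' i * (y * (b i * c)) := by
            rw [hyh, Finset.sum_mul]
            refine Finset.sum_congr rfl fun i _ => ?_
            simp only [mul_assoc]
        _ = ∑ i, ∑ j, a' i * e * b i * (c * (a' j * y * b j)) := by
            refine Finset.sum_congr rfl fun i _ => ?_
            rw [key, Finset.mul_sum]
            refine Finset.sum_congr rfl fun j _ => ?_
            simp only [mul_assoc]
        _ = (∑ i, a' i * e * b i) * (c * yh) := by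
            rw [Finset.sum_mul, hyh]
            refine Finset.sum_congr rfl fun i _ => ?_
            rw [Finset.mul_sum, Finset.mul_sum]
        _ = c * yh := by
            rw [hsum, ← mul_assoc, hεc c, mul_assoc, hεyh]
    obtain ⟨α, β, hαβ⟩ := hZ yh hcen
    have hyhε : yh * ε = yh := by rw [← hεc, hεyh]
    rw [hyhε] at hαβ
    have heyhe : e * yh * e = y := by
      have h1 : ∀ i, e * (a' i * y * b i) * e = y * (e * a' i * e * b i * e) := by
        intro i
        have hx : e * (e * a' i * e) * e = e * a' i * e := by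
          simp only [mul_assoc, he, he']
        have h2 := hcomm (e * a' i * e) hx
        calc e * (a' i * y * b i) * e = (e * a' i * e) * y * (b i * e) := by
              simp only [mul_assoc, hey']
          _ = y * (e * a' i * e) * (b i * e) := by rw [h2]
          _ = y * (e * a' i * e * b i * e) := by simp only [mul_assoc]
      rw [hyh, Finset.mul_sum, Finset.sum_mul]
      rw [Finset.sum_congr rfl (fun i _ => h1 i), ← Finset.mul_sum]
      have h3 : ∑ i, e * a' i * e * b i * e = e * (∑ i, a' i * e * b i) * e := by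
        rw [Finset.mul_sum, Finset.sum_mul]
        refine Finset.sum_congr rfl fun i _ => ?_
        simp only [mul_assoc]
      rw [h3, hsum, heε, he, hye]
    refine ⟨α, β, ?_⟩
    rw [← heyhe, hαβ, mul_add, add_mul, mul_smul_comm, smul_mul_assoc, mul_smul_comm,
      smul_mul_assoc, heε, he, ← hzc e, mul_assoc, he]
  -- the radical of `e A e`
  have hJd : ∀ n i, i + n = m → 1 ≤ i → ∀ y, e * y * e = y → y ∈ J ^ i →
      ∃ β : k, y = β • (z * e) := by
    intro n
    induction n with
    | zero =>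
      intro i hi _ y _ hyJ
      rw [add_zero] at hi
      rw [hi, hJm, Ideal.mem_bot] at hyJ
      exact ⟨0, by rw [hyJ, zero_smul]⟩
    | succ n ih =>
      intro i hi h1 y hy hyJ
      have hyJ1 : y ∈ J := Ideal.pow_le_self (by omega) hyJ
      have hye : y * e = y := by rw [← hy, mul_assoc, he]
      have hey : e * y = y := by rw [← hy, ← mul_assoc, ← mul_assoc, he]
      have hprop : ∀ j1 j2, e * j1 * e = j1 → j1 ∈ J → j2 ∈ J → y * j1 * j2 = 0 := by
        intro j1 j2 hj1 hj1J hj2J
        have h2 : y * j1 ∈ J ^ (i + 1) := by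
          rw [Submodule.pow_succ]
          exact Ideal.mul_mem_mul hyJ hj1J
        have hj1e : j1 * e = j1 := by rw [← hj1, mul_assoc, he]
        have h3 : e * (y * j1) * e = y * j1 := by
          rw [← mul_assoc, hey, mul_assoc, hj1e]
        obtain ⟨β, hβ⟩ := ih (i + 1) (by omega) (by omega) (y * j1) h3 h2
        rw [hβ, smul_mul_assoc, hzc e, mul_assoc, hzJ j2 hj2J, mul_zero, smul_zero]
      have hcomm : ∀ x, e * x * e = x → x * y = y * x := by
        intro x hx
        obtain ⟨α, j, hxj, hjJ, hje⟩ := hdec x hx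
        have hje1 : j * e = j := by rw [← hje, mul_assoc, he]
        have hej1 : e * j = j := by rw [← hje, ← mul_assoc, ← mul_assoc, he]
        have hd : y * j - j * y = 0 := by
          apply hnd
          intro c
          have hde : (y * j - j * y) * e = y * j - j * y := by
            rw [sub_mul, mul_assoc, hje1, mul_assoc, hye]
          have hed : e * (y * j - j * y) = y * j - j * y := by
            rw [mul_sub, ← mul_assoc, hey, ← mul_assoc, hej1]
          have h5 : lam ((y * j - j * y) * c) = lam ((y * j - j * y) * (e * c * e)) := by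
            calc lam ((y * j - j * y) * c) = lam (e * ((y * j - j * y) * c)) := by
                  rw [← mul_assoc, hed]
              _ = lam ((y * j - j * y) * c * e) := hsymm _ _
              _ = lam ((y * j - j * y) * (e * c * e)) := by
                  conv_lhs => rw [← hde]
                  simp only [mul_assoc]
          rw [h5]
          obtain ⟨α', j', hw, hj'J, hj'e⟩ := hdec (e * c * e) (by simp only [mul_assoc, he, he'])
          rw [hw, mul_add, mul_smul_comm, hde, map_add, map_smul, map_sub, hsymm y j, sub_self,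
            smul_zero, zero_add, sub_mul, map_sub, hprop j j' hje hjJ hj'J, map_zero, zero_sub,
            mul_assoc, hsymm j (y * j'), hprop j' j hj'e hj'J hjJ, map_zero, neg_zero]
        have hd' : y * j = j * y := sub_eq_zero.mp hd
        rw [hxj, add_mul, mul_add, smul_mul_assoc, mul_smul_comm, hey, hye, hd']
      obtain ⟨α, β, hαβ⟩ := hZc y hy hcomm
      have hφy : φ₀ y = 0 := hJφ y hyJ1
      rw [hαβ, map_add, map_smul, map_smul, map_mul, hφz, zero_mul, smul_zero, add_zero,
        hφe] at hφy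
      have hα : α = 0 := by
        have := congrFun (congrFun hφy 0) 0
        simpa using this
      refine ⟨β, ?_⟩
      rw [hαβ, hα, zero_smul, zero_add]
  -- the main claim
  intro x hεx hφx
  rcases Nat.eq_zero_or_pos m with hm0 | hmpos
  · have : (1 : A) ∈ J ^ m := by
      rw [hm0, Submodule.pow_zero, Ideal.one_eq_top]; exact Submodule.mem_top
    rw [hJm, Ideal.mem_bot] at this
    refine ⟨0, ?_⟩
    rw [mul_zero, ← mul_one x, this, mul_zero]
  have hxJ : x ∈ J := hJ x hεx hφx
  have hxε : x * ε = x := by rw [← hεc, hεx]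
  have hq : ∀ i l, ∃ β : k, e * b l * (x * a' i * e) = β • (z * e) := by
    intro i l
    apply hJd (m - 1) 1 (by omega) le_rfl
    · simp only [mul_assoc, he, he']
    · rw [Submodule.pow_one]
      apply Ideal.mul_mem_left
      apply Ideal.mul_mem_right
      apply Ideal.mul_mem_right
      exact hxJ
  choose β hβ using hq
  refine ⟨∑ i, (∑ l, β i l • (a' l * e)) * b i, ?_⟩
  have h1 : ∀ i, x * a' i * e = z * ∑ l, β i l • (a' l * e) := by
    intro i
    have h2 : x * a' i * e = ε * (x * a' i * e) := by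
      rw [← mul_assoc, ← mul_assoc, hεx]
    rw [h2, ← hsum, Finset.sum_mul, Finset.mul_sum]
    refine Finset.sum_congr rfl fun l _ => ?_
    rw [mul_assoc (a' l) e (b l), mul_assoc (a' l), hβ, mul_smul_comm,
      mul_smul_comm, ← mul_assoc, ← mul_assoc, hzc (a' l)]
  calc x = x * ε := hxε.symm
    _ = ∑ i, x * a' i * e * b i := by
        rw [← hsum, Finset.mul_sum]
        refine Finset.sum_congr rfl fun i _ => ?_
        simp only [mul_assoc]
    _ = z * ∑ i, (∑ l, β i l • (a' l * e)) * b i := by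
        rw [Finset.mul_sum]
        refine Finset.sum_congr rfl fun i _ => ?_
        rw [h1, mul_assoc]

/-- **Main theorem.**  A block `ε A` of a finite-dimensional symmetric algebra over an
algebraically closed field whose centre is spanned by `ε` and a nonzero square-zero element `z`
has dimension at most `2 s²`, where `s² = dim (z A)`. -/
theorem symAlg_main
    (lam : A →ₗ[k] k) (hsymm : ∀ x y, lam (x * y) = lam (y * x))
    (hnd : ∀ x, (∀ y, lam (x * y) = 0) → x = 0)
    (ε z : A) (hεc : ∀ x, ε * x = x * ε) (hεi : ε * ε = ε)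
    (hzc : ∀ x, z * x = x * z) (hεz : ε * z = z) (hzz : z * z = 0) (hz0 : z ≠ 0)
    (hZ : ∀ c, (∀ x, c * x = x * c) → ∃ α β : k, c * ε = α • ε + β • z) :
    ∃ s : ℕ, finrank k (LinearMap.range (LinearMap.mulLeft k ε)) ≤ 2 * s ^ 2 ∧
      finrank k (LinearMap.range (LinearMap.mulLeft k z)) = s ^ 2 := by
  classical
  obtain ⟨n, d, hd, φ, m, hφsurj, hφJ, hJm⟩ := exists_phi (k := k) (A := A)
  have hzε : z * ε = z := by rw [← hεc, hεz]
  -- central elements map to scalar matrices
  have hscal : ∀ c : A, (∀ x, c * x = x * c) → ∀ i, ∃ r : k, φ c i = Matrix.scalar _ r := by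
    intro c hc i
    have hmem : φ c i ∈ Set.range (Matrix.scalar (Fin (d i))) := by
      apply Matrix.mem_range_scalar_of_commute_single
      intro p q _
      obtain ⟨x, hx⟩ := hφsurj (Pi.single i (Matrix.single p q 1))
      have h1 := congrFun (congrArg φ (hc x)) i
      rw [map_mul, map_mul, Pi.mul_apply, Pi.mul_apply, hx, Pi.single_eq_same] at h1
      exact h1.symm
    obtain ⟨r, hr⟩ := hmem
    exact ⟨r, hr.symm⟩
  -- `φ z = 0`
  have hφz : φ z = 0 := by
    funext i
    obtain ⟨r, hr⟩ := hscal z hzc i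
    have h2 : φ z i * φ z i = 0 := by
      have := congrFun (congrArg φ hzz) i
      rwa [map_mul, Pi.mul_apply, map_zero] at this
    rw [hr, ← map_mul] at h2
    have h3 : r * r = 0 := by
      have := congrFun (congrFun h2 ⟨0, Nat.pos_of_ne_zero (hd i).out⟩)
        ⟨0, Nat.pos_of_ne_zero (hd i).out⟩
      simpa using this
    have h4 : r = 0 := by simpa using h3
    rw [hr, h4, map_zero]
    rfl
  -- `φ ε ≠ 0`
  have hε0 : ε ≠ 0 := fun h => hz0 (by rw [← hεz, h, zero_mul])
  have hεJ : φ ε ≠ 0 := by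
    intro h
    have hJ : ε ∈ Ring.jacobson A := (hφJ ε).mp h
    have h1 : ε ^ m ∈ (Ring.jacobson A) ^ m := Ideal.pow_mem_pow hJ m
    rw [hJm, Ideal.mem_bot] at h1
    rcases Nat.eq_zero_or_pos m with h0 | h0
    · rw [h0, pow_zero] at h1
      exact hε0 (by rw [← mul_one ε, h1, mul_zero])
    · have h2 : ε ^ m = ε := by
        have hidem : IsIdempotentElem ε := hεi
        have hm : m = (m - 1) + 1 := by omega
        rw [hm]
        exact hidem.pow_succ_eq (m - 1)
      rw [h2] at h1
      exact hε0 h1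
  have hεcomp : ∀ i, φ ε i = 0 ∨ φ ε i = 1 := by
    intro i
    obtain ⟨r, hr⟩ := hscal ε hεc i
    have h2 : φ ε i * φ ε i = φ ε i := by
      have := congrFun (congrArg φ hεi) i
      rwa [map_mul, Pi.mul_apply] at this
    rw [hr, ← map_mul] at h2
    have h3 : r * r = r := by
      have := congrFun (congrFun h2 ⟨0, Nat.pos_of_ne_zero (hd i).out⟩)
        ⟨0, Nat.pos_of_ne_zero (hd i).out⟩
      simpa using this
    have h4 : r = 0 ∨ r = 1 := by
      have : r * (r - 1) = 0 := by rw [mul_sub, h3, mul_one, sub_self]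
      rcases mul_eq_zero.mp this with h | h
      · exact Or.inl h
      · exact Or.inr (sub_eq_zero.mp h)
    rcases h4 with h | h
    · left; rw [hr, h, map_zero]
    · right; rw [hr, h, map_one]
  obtain ⟨i₀, hi₀⟩ : ∃ i, φ ε i = 1 := by
    by_contra hcon
    push Not at hcon
    exact hεJ (funext fun i => (hεcomp i).resolve_right (hcon i))
  -- the trace functional of a factor in the block is a multiple of `lam (z * ·)`
  have htr : ∀ i, φ ε i = 1 → ∃ β : k, β ≠ 0 ∧ ∀ x, (φ x i).trace = β * lam (z * x) := by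
    intro i hi
    obtain ⟨Λ, hΛ⟩ : ∃ Λ : A →ₗ[k] Module.Dual k A, Λ = (LinearMap.mul k A).compr₂ lam :=
      ⟨_, rfl⟩
    have hΛx : ∀ w x, Λ w x = lam (w * x) := fun w x => by rw [hΛ]; rfl
    have hinj : Function.Injective Λ := by
      rw [← LinearMap.ker_eq_bot, LinearMap.ker_eq_bot']
      intro w hw
      apply hnd
      intro y
      rw [← hΛx, hw]
      rfl
    have hsurj : Function.Surjective Λ :=
      (LinearMap.injective_iff_surjective_of_finrank_eq_finrank
        Subspace.dual_finrank_eq.symm).mp hinj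
    obtain ⟨t, ht⟩ : ∃ t : Module.Dual k A, ∀ x, t x = (φ x i).trace :=
      ⟨(Matrix.traceLinearMap (Fin (d i)) k k).comp
        ((LinearMap.proj i).comp φ.toLinearMap), fun x => rfl⟩
    obtain ⟨w, hw⟩ := hsurj t
    have hwx : ∀ x, lam (w * x) = (φ x i).trace := fun x => by rw [← hΛx, hw, ht]
    have hwc : ∀ x, w * x = x * w := by
      intro x
      rw [← sub_eq_zero]
      apply hnd
      intro y
      rw [sub_mul, map_sub, mul_assoc, hwx, mul_assoc, hsymm, mul_assoc, hwx, map_mul, map_mul,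
        Pi.mul_apply, Pi.mul_apply, Matrix.trace_mul_comm, sub_self]
    have hwε : w * ε = w := by
      rw [← sub_eq_zero]
      apply hnd
      intro y
      rw [sub_mul, map_sub, mul_assoc, hwx, hwx, map_mul, Pi.mul_apply, hi, one_mul, sub_self]
    obtain ⟨α, β, hαβ⟩ := hZ w hwc
    rw [hwε] at hαβ
    have hwz : w * z = 0 := by
      apply hnd
      intro y
      rw [mul_assoc, hwx, map_mul, hφz]
      simp
    have hα : α = 0 := by
      rw [hαβ, add_mul, smul_mul_assoc, smul_mul_assoc, hzz, smul_zero, add_zero, hεz] at hwz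
      by_contra hne
      exact hz0 ((smul_eq_zero.mp hwz).resolve_left hne)
    rw [hα, zero_smul, zero_add] at hαβ
    refine ⟨β, ?_, ?_⟩
    · intro hβ
      obtain ⟨x, hx⟩ := hφsurj (Pi.single i (Matrix.single ⟨0, Nat.pos_of_ne_zero (hd i).out⟩
        ⟨0, Nat.pos_of_ne_zero (hd i).out⟩ 1))
      have h1 := hwx x
      rw [hαβ, hβ, zero_smul, zero_mul, map_zero, hx, Pi.single_eq_same,
        Matrix.trace_single_eq_same] at h1
      exact zero_ne_one h1
    · intro x
      rw [← hwx, hαβ, smul_mul_assoc, map_smul, smul_eq_mul]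
  -- uniqueness of the factor
  have huniq : ∀ i, i ≠ i₀ → φ ε i = 0 := by
    intro i hne
    rcases hεcomp i with h | h
    · exact h
    · exfalso
      obtain ⟨β, hβ, hβx⟩ := htr i h
      obtain ⟨β₀, hβ₀, hβ₀x⟩ := htr i₀ hi₀
      obtain ⟨x, hx⟩ := hφsurj (Pi.single i (Matrix.single ⟨0, Nat.pos_of_ne_zero (hd i).out⟩
        ⟨0, Nat.pos_of_ne_zero (hd i).out⟩ 1))
      have h1 := hβx x
      have h2 := hβ₀x x
      rw [hx, Pi.single_eq_same, Matrix.trace_single_eq_same] at h1
      rw [hx, Pi.single_eq_of_ne (Ne.symm hne), Matrix.trace_zero] at h2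
      have h3 : lam (z * x) = 0 := by
        rcases mul_eq_zero.mp h2.symm with h | h
        · exact absurd h hβ₀
        · exact h
      rw [h3, mul_zero] at h1
      exact one_ne_zero h1
  -- the local homomorphism
  obtain ⟨s, hs⟩ : ∃ s : ℕ, s = d i₀ := ⟨_, rfl⟩
  subst hs
  haveI : NeZero (d i₀) := hd i₀
  obtain ⟨φ₀, hφ₀⟩ : ∃ φ₀ : A →ₐ[k] Matrix (Fin (d i₀)) (Fin (d i₀)) k,
      ∀ x, φ₀ x = φ x i₀ := ⟨(Pi.evalAlgHom k _ i₀).comp φ, fun x => rfl⟩
  have hsurj₀ : Function.Surjective φ₀ := by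
    intro N
    obtain ⟨x, hx⟩ := hφsurj (Pi.single i₀ N)
    exact ⟨x, by rw [hφ₀, hx, Pi.single_eq_same]⟩
  have hφε : φ₀ ε = 1 := by rw [hφ₀, hi₀]
  obtain ⟨β, hβ, hβx⟩ := htr i₀ hi₀
  have h4a : ∀ x, z * x = 0 ↔ φ₀ x = 0 := by
    intro x
    constructor
    · intro h
      ext p q
      obtain ⟨y, hy⟩ := hsurj₀ (Matrix.single q p 1)
      have h1 := hβx (x * y)
      rw [← mul_assoc, h, zero_mul, map_zero, mul_zero, map_mul, Pi.mul_apply, ← hφ₀, ← hφ₀, hy,
        Matrix.trace_mul_single] at h1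
      simpa using h1
    · intro h
      apply hnd
      intro y
      have h1 := hβx (x * y)
      rw [map_mul, Pi.mul_apply, ← hφ₀, h, zero_mul, Matrix.trace_zero] at h1
      rw [mul_assoc]
      rcases mul_eq_zero.mp h1.symm with h' | h'
      · exact absurd h' hβ
      · exact h'
  have hJ : ∀ x, ε * x = x → φ₀ x = 0 → x ∈ Ring.jacobson A := by
    intro x hx h0
    rw [← hφJ]
    funext i
    by_cases hi : i = i₀
    · subst hi
      rw [← hφ₀, h0]
      rfl
    · rw [← hx, map_mul, Pi.mul_apply, huniq i hi, zero_mul]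
      rfl
  have hJφ : ∀ x ∈ Ring.jacobson A, φ₀ x = 0 := by
    intro x hx
    rw [hφ₀, (hφJ x).mpr hx]
    rfl
  -- the idempotent
  obtain ⟨E, hE⟩ : ∃ E : Π i, Matrix (Fin (d i)) (Fin (d i)) k,
      E = Pi.single i₀ (Matrix.single 0 0 1) := ⟨_, rfl⟩
  have hEE : E * E = E := by
    rw [hE, ← Pi.single_mul, Matrix.single_mul_single_same, mul_one]
  obtain ⟨e₁, he₁, hφe₁⟩ := exists_isIdempotentElem_eq_of_ker_isNilpotent φ.toRingHom
    (by
      intro x hx
      have hxJ : x ∈ Ring.jacobson A := (hφJ x).mp hx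
      refine ⟨m, ?_⟩
      have := Ideal.pow_mem_pow hxJ m
      rwa [hJm, Ideal.mem_bot] at this)
    E
    (by obtain ⟨x, hx⟩ := hφsurj E; exact ⟨x, hx⟩)
    hEE
  have hφe₁' : φ e₁ = Pi.single i₀ (Matrix.single 0 0 1) := by rw [← hE]; exact hφe₁
  have he : (ε * e₁) * (ε * e₁) = ε * e₁ := by
    rw [mul_assoc, ← mul_assoc e₁, ← hεc e₁, mul_assoc, he₁.eq, ← mul_assoc, hεi]
  have hεe : ε * (ε * e₁) = ε * e₁ := by rw [← mul_assoc, hεi]
  have hφe : φ₀ (ε * e₁) = Matrix.single 0 0 1 := by
    rw [map_mul, hφε, one_mul, hφ₀, hφe₁', Pi.single_eq_same]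
  have h7e := local_part lam hsymm hnd ε z hεc hεi hzc hεz hzz hZ φ₀ hsurj₀ hφε h4a
    (Ring.jacobson A) hJm hJ hJφ (ε * e₁) he hεe hφe
  exact ⟨d i₀, finrank_bounds ε z hεi hzε φ₀ hsurj₀ hφε h4a h7e⟩

end Cfsg.Agent.H81.SymAlg
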