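import Mathlib

set_option autoImplicit false
set_option linter.style.haveILetI false
set_option linter.unusedSectionVars false
set_option linter.unusedVariables false

/-!
# helper81: reduction of group algebras modulo a valuation ring

For a valuation subring `O` of a field `K` with residue field `k`, the group algebra `O[G]`
maps to `K[G]` (`inc`) and to `k[G]` (`red`).

* `lam`: the symmetrizing form `x ↦ x.coeff 1` on a group algebra, `lam_symm`, `lam_nondeg`.
* `finrank_idem_compl`, `finrank_idem_eq`: dimensions of the ideals generated by idempotents.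
* `finrank_le_of_lift`: a subspace of `k[G]` all of whose elements lift to elements of `O[G]`
  lying in a `K`-subspace `W` has dimension at most `dim W`.
* `exists_primitive`: every nonzero element of `K[G]` has a scalar multiple in `O[G]` with
  nonzero reduction.
* `isAlgClosed_residue`: the residue field is algebraically closed if `K` is.
-/

namespace Cfsg.Agent.H81.ValRed

open Module

section Generic

variable {k : Type*} [Field k] {G : Type*} [Group G] [Fintype G]

/-- The element of the group algebra with prescribed coefficients. -/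
noncomputable def ofFun {R : Type*} [Semiring R] (f : G → R) : MonoidAlgebra R G :=
  .ofCoeff (Finsupp.equivFunOnFinite.symm f)

@[simp]
theorem coeff_ofFun {R : Type*} [Semiring R] (f : G → R) (g : G) : (ofFun f).coeff g = f g := rfl

theorem coeff_mul_fin (x y : MonoidAlgebra k G) (g : G) :
    (x * y).coeff g = ∑ h, x.coeff h * y.coeff (h⁻¹ * g) := by
  classical
  rw [MonoidAlgebra.coeff_mul_apply_left, Finsupp.sum_fintype]
  intro h
  rw [zero_mul]

/-- The symmetrizing form of a group algebra. -/
noncomputable def lam (k : Type*) [Field k] (G : Type*) [Group G] : MonoidAlgebra k G →ₗ[k] k :=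
  (Finsupp.lapply 1).comp (MonoidAlgebra.coeffLinearEquiv k).toLinearMap

theorem lam_apply (x : MonoidAlgebra k G) : lam k G x = x.coeff 1 := rfl

theorem lam_symm (x y : MonoidAlgebra k G) : lam k G (x * y) = lam k G (y * x) := by
  rw [lam_apply, lam_apply, coeff_mul_fin, coeff_mul_fin, ← Equiv.sum_comp (Equiv.inv G)]
  refine Finset.sum_congr rfl fun h _ => ?_
  simp only [Equiv.inv_apply, mul_one, inv_inv]
  rw [mul_comm]

theorem lam_nondeg (x : MonoidAlgebra k G) (h : ∀ y, lam k G (x * y) = 0) : x = 0 := by
  apply MonoidAlgebra.coeff_injective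
  ext g
  have := h (MonoidAlgebra.single g⁻¹ 1)
  rw [lam_apply, MonoidAlgebra.coeff_mul_single_apply] at this
  simpa using this

instance finite_monoidAlgebra : Module.Finite k (MonoidAlgebra k G) :=
  Module.Finite.of_basis (MonoidAlgebra.basis G k)

theorem finrank_monoidAlgebra : finrank k (MonoidAlgebra k G) = Fintype.card G :=
  Module.finrank_eq_card_basis (MonoidAlgebra.basis G k)

theorem finrank_idem_compl {A : Type*} [Ring A] [Algebra k A] [FiniteDimensional k A] (e : A)
    (he : e * e = e) :
    finrank k (LinearMap.range (LinearMap.mulLeft k e)) +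
      finrank k (LinearMap.range (LinearMap.mulLeft k (1 - e))) = finrank k A := by
  apply Submodule.finrank_add_eq_of_isCompl
  constructor
  · rw [Submodule.disjoint_def]
    rintro x ⟨a, rfl⟩ ⟨b, hb⟩
    have hb' : (1 - e) * b = e * a := hb
    show e * a = 0
    calc e * a = e * (e * a) := by rw [← mul_assoc, he]
      _ = e * ((1 - e) * b) := by rw [hb']
      _ = 0 := by rw [← mul_assoc, mul_sub, mul_one, he, sub_self, zero_mul]
  · rw [codisjoint_iff, eq_top_iff]
    intro x _
    have : x = e * x + (1 - e) * x := by rw [sub_mul, one_mul]; abel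
    rw [this]
    exact Submodule.add_mem_sup ⟨x, rfl⟩ ⟨x, rfl⟩

theorem finrank_idem_eq {K : Type*} [Field K] [CharZero K] (e : MonoidAlgebra K G)
    (he : e * e = e) :
    (finrank K (LinearMap.range (LinearMap.mulLeft K e)) : K) =
      (Fintype.card G : K) * e.coeff 1 := by
  classical
  have hproj : LinearMap.IsProj (LinearMap.range (LinearMap.mulLeft K e))
      (LinearMap.mulLeft K e) := by
    refine ⟨fun x => ⟨x, rfl⟩, ?_⟩
    rintro x ⟨a, rfl⟩
    show e * (e * a) = e * a
    rw [← mul_assoc, he]
  rw [← hproj.trace, LinearMap.trace_eq_matrix_trace K (MonoidAlgebra.basis G K), Matrix.trace]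
  have h1 : ∀ g : G, Matrix.diag ((LinearMap.toMatrix (MonoidAlgebra.basis G K)
      (MonoidAlgebra.basis G K)) (LinearMap.mulLeft K e)) g = e.coeff 1 := by
    intro g
    rw [Matrix.diag_apply, LinearMap.toMatrix_apply, MonoidAlgebra.basis_apply]
    show (e * MonoidAlgebra.single g 1).coeff g = _
    rw [MonoidAlgebra.coeff_mul_single_apply, mul_inv_cancel, mul_one]
  rw [Finset.sum_congr rfl (fun g _ => h1 g), Finset.sum_const, Finset.card_univ, nsmul_eq_mul]

end Generic

section Val

variable {K : Type*} [Field K] (O : ValuationSubring K) {G : Type*} [Group G] [Fintype G]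

/-- Reduction modulo the maximal ideal. -/
noncomputable def red : MonoidAlgebra O G →+* MonoidAlgebra (IsLocalRing.ResidueField O) G :=
  MonoidAlgebra.mapRingHom G (IsLocalRing.residue O)

/-- Inclusion into the group algebra of the field. -/
noncomputable def inc : MonoidAlgebra O G →+* MonoidAlgebra K G :=
  MonoidAlgebra.mapRingHom G O.subtype

theorem coeff_red (x : MonoidAlgebra O G) (g : G) :
    (red O x).coeff g = IsLocalRing.residue O (x.coeff g) :=
  MonoidAlgebra.coeff_mapRingHom _ _ _

theorem coeff_inc (x : MonoidAlgebra O G) (g : G) : (inc O x).coeff g = (x.coeff g : K) :=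
  MonoidAlgebra.coeff_mapRingHom _ _ _

theorem inc_injective : Function.Injective (inc O (G := G)) := by
  intro x y h
  apply MonoidAlgebra.coeff_injective
  ext g
  have := congrArg (fun z => z.coeff g) h
  simp only [coeff_inc] at this
  exact this

theorem red_surjective : Function.Surjective (red O (G := G)) := by
  intro y
  choose f hf using fun g => IsLocalRing.residue_surjective (R := O) (y.coeff g)
  refine ⟨ofFun f, ?_⟩
  apply MonoidAlgebra.coeff_injective
  ext g
  rw [coeff_red, coeff_ofFun, hf]

theorem exists_inc_eq (x : MonoidAlgebra K G) (hx : ∀ g, x.coeff g ∈ O) :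
    ∃ y : MonoidAlgebra O G, inc O y = x := by
  refine ⟨ofFun fun g => ⟨x.coeff g, hx g⟩, ?_⟩
  apply MonoidAlgebra.coeff_injective
  ext g
  rw [coeff_inc, coeff_ofFun]

theorem red_smul (a : O) (x : MonoidAlgebra O G) :
    red O (a • x) = IsLocalRing.residue O a • red O x := by
  apply MonoidAlgebra.coeff_injective
  ext g
  rw [coeff_red, MonoidAlgebra.coeff_smul_apply, MonoidAlgebra.coeff_smul_apply, coeff_red,
    smul_eq_mul, smul_eq_mul, map_mul]

theorem inc_smul (a : O) (x : MonoidAlgebra O G) : inc O (a • x) = (a : K) • inc O x := by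
  apply MonoidAlgebra.coeff_injective
  ext g
  rw [coeff_inc, MonoidAlgebra.coeff_smul_apply, MonoidAlgebra.coeff_smul_apply, coeff_inc,
    smul_eq_mul, smul_eq_mul]
  rfl

/-- A subspace of `k[G]` all of whose elements lift to `O[G] ∩ W` has dimension `≤ dim W`. -/
theorem finrank_le_of_lift (W : Submodule K (MonoidAlgebra K G))
    (S : Submodule (IsLocalRing.ResidueField O) (MonoidAlgebra (IsLocalRing.ResidueField O) G))
    (h : ∀ y ∈ S, ∃ x, inc O x ∈ W ∧ red O x = y) :
    finrank (IsLocalRing.ResidueField O) S ≤ finrank K W := by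
  classical
  obtain ⟨b⟩ : Nonempty (Basis (Fin (finrank (IsLocalRing.ResidueField O) S))
      (IsLocalRing.ResidueField O) S) := ⟨Module.finBasis _ S⟩
  choose x hxW hxy using fun i => h (b i) (b i).2
  have hli : LinearIndependent K (fun i => (⟨inc O (x i), hxW i⟩ : W)) := by
    rw [Fintype.linearIndependent_iff]
    intro c hc
    by_contra hne
    push Not at hne
    obtain ⟨i₁, hi₁⟩ := hne
    obtain ⟨i₀, -, hmax⟩ := Finset.exists_max_image Finset.univ
      (fun i => O.valuation (c i)) ⟨i₁, Finset.mem_univ _⟩
    have hc0 : c i₀ ≠ 0 := by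
      intro h0
      have := hmax i₁ (Finset.mem_univ _)
      rw [h0, map_zero] at this
      exact hi₁ ((map_eq_zero _).mp (le_antisymm this zero_le'))
    have hv0 : O.valuation (c i₀) ≠ 0 := (map_ne_zero _).mpr hc0
    have hmem : ∀ i, c i / c i₀ ∈ O := by
      intro i
      rw [← ValuationSubring.valuation_le_one_iff, map_div₀]
      exact div_le_one_of_le₀ (hmax i (Finset.mem_univ _)) zero_le'
    obtain ⟨w, hw⟩ : ∃ w : MonoidAlgebra O G, w = ∑ i, (⟨c i / c i₀, hmem i⟩ : O) • x i :=
      ⟨_, rfl⟩
    have hc' : ∑ i, c i • inc O (x i) = 0 := by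
      have := congrArg Subtype.val hc
      simpa using this
    have hincw : inc O w = 0 := by
      rw [hw, map_sum]
      have h1 : ∀ i, inc O ((⟨c i / c i₀, hmem i⟩ : O) • x i) = (c i₀)⁻¹ • (c i • inc O (x i)) := by
        intro i
        rw [inc_smul, smul_smul]
        congr 1
        show c i / c i₀ = (c i₀)⁻¹ * c i
        rw [div_eq_mul_inv, mul_comm]
      rw [Finset.sum_congr rfl (fun i _ => h1 i), ← Finset.smul_sum, hc', smul_zero]
    have hw0 : w = 0 := inc_injective O (by rw [hincw, map_zero])
    have hred : ∑ i, IsLocalRing.residue O ⟨c i / c i₀, hmem i⟩ •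
        ((b i : S) : MonoidAlgebra (IsLocalRing.ResidueField O) G) = 0 := by
      have := congrArg (red O) hw0
      rw [hw, map_sum, map_zero] at this
      rw [← this]
      refine Finset.sum_congr rfl fun i _ => ?_
      rw [red_smul, hxy]
    have hbli : LinearIndependent (IsLocalRing.ResidueField O)
        (fun i => ((b i : S) : MonoidAlgebra (IsLocalRing.ResidueField O) G)) :=
      b.linearIndependent.map' S.subtype (Submodule.ker_subtype S)
    have h2 := Fintype.linearIndependent_iff.mp hbli _ hred i₀
    have h3 : (⟨c i₀ / c i₀, hmem i₀⟩ : O) = 1 := Subtype.ext (div_self hc0)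
    rw [h3, map_one] at h2
    exact one_ne_zero h2
  have := hli.fintype_card_le_finrank
  simpa using this

/-- Every nonzero element of `K[G]` has a multiple in `O[G]` with nonzero reduction. -/
theorem exists_primitive (x : MonoidAlgebra K G) (hx : x ≠ 0) :
    ∃ (c : K) (y : MonoidAlgebra O G), c ≠ 0 ∧ inc O y = c • x ∧ red O y ≠ 0 := by
  classical
  have hex : ∃ g, x.coeff g ≠ 0 := by
    by_contra hcon
    push Not at hcon
    exact hx (MonoidAlgebra.coeff_injective (by ext g; rw [hcon g]; rfl))
  obtain ⟨g₁, hg₁⟩ := hex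
  obtain ⟨g₀, -, hmax⟩ := Finset.exists_max_image Finset.univ
    (fun g => O.valuation (x.coeff g)) ⟨g₁, Finset.mem_univ _⟩
  have hc0 : x.coeff g₀ ≠ 0 := by
    intro h0
    have := hmax g₁ (Finset.mem_univ _)
    rw [h0, map_zero] at this
    exact hg₁ ((map_eq_zero _).mp (le_antisymm this zero_le'))
  have hmem : ∀ g, (x.coeff g₀)⁻¹ * x.coeff g ∈ O := by
    intro g
    rw [← ValuationSubring.valuation_le_one_iff, map_mul, map_inv₀, inv_mul_le_iff₀
      (zero_lt_iff.mpr ((map_ne_zero _).mpr hc0)), mul_one]
    exact hmax g (Finset.mem_univ _)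
  refine ⟨(x.coeff g₀)⁻¹, ofFun fun g => ⟨(x.coeff g₀)⁻¹ * x.coeff g, hmem g⟩,
    inv_ne_zero hc0, ?_, ?_⟩
  · apply MonoidAlgebra.coeff_injective
    ext g
    rw [coeff_inc, coeff_ofFun, MonoidAlgebra.coeff_smul_apply, smul_eq_mul]
  · intro h0
    have := congrArg (fun z => z.coeff g₀) h0
    simp only [coeff_red, coeff_ofFun] at this
    have h1 : (⟨(x.coeff g₀)⁻¹ * x.coeff g₀, hmem g₀⟩ : O) = 1 :=
      Subtype.ext (inv_mul_cancel₀ hc0)
    rw [h1, map_one] at this
    exact one_ne_zero this

/-- The residue field of a valuation subring of an algebraically closed field is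
algebraically closed. -/
theorem isAlgClosed_residue [IsAlgClosed K] : IsAlgClosed (IsLocalRing.ResidueField O) := by
  apply IsAlgClosed.of_exists_root
  intro p hp hirr
  obtain ⟨q, hq, hqdeg, hqm⟩ := Polynomial.lifts_and_natDegree_eq_and_monic
    (Polynomial.map_surjective (IsLocalRing.residue O) IsLocalRing.residue_surjective p
      |> fun ⟨q, hq⟩ => (Polynomial.mem_lifts _).mpr ⟨q, hq⟩) hp
  have hdeg : (q.map O.subtype).degree ≠ 0 := by
    rw [Polynomial.degree_map_eq_of_injective O.subtype_injective]
    intro h0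
    have h1 : q.natDegree = 0 := Polynomial.natDegree_eq_zero_iff_degree_le_zero.mpr h0.le
    rw [hqdeg] at h1
    exact hirr.natDegree_pos.ne' h1
  obtain ⟨α, hα⟩ := IsAlgClosed.exists_root (q.map O.subtype) hdeg
  have hint : IsIntegral O α := ⟨q, hqm, by
    rw [Polynomial.IsRoot, Polynomial.eval_map] at hα
    exact hα⟩
  obtain ⟨a, ha⟩ := IsIntegrallyClosed.isIntegral_iff.mp hint
  refine ⟨IsLocalRing.residue O a, ?_⟩
  rw [← hq, Polynomial.eval_map, Polynomial.eval₂_at_apply]
  have h0 : q.eval a = 0 := by
    apply O.subtype_injective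
    rw [map_zero, ← Polynomial.eval₂_at_apply]
    rw [Polynomial.IsRoot, Polynomial.eval_map] at hα
    rw [← ha] at hα
    exact hα
  rw [h0, map_zero]

end Val

end Cfsg.Agent.H81.ValRed
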