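import Mathlib
import Cfsg.Prelude.Def_Blocks
import Cfsg.Agent.H81.SymAlg
import Cfsg.Agent.H81.ValRed
import Cfsg.Agent.H20.BlockIdem
import Cfsg.Agent.H20.SecondMain
import Cfsg.Agent.H20.DefectOrder
import Cfsg.Agent.H81.BlockDim
import Cfsg.Agent.H81.DefZero
import Cfsg.Agent.H81.WBO
import Cfsg.Agent.H80.Block

/-!
# helper81: Brandt's theorem, blocks with two irreducible characters

If a block consists of exactly two irreducible characters then they have the same degree.
The proof reduces the block idempotent modulo a valuation ring of the complex numbers lying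
above the local ring at `M`, and applies the symmetric algebra bound `SymAlg.symAlg_main`.
-/

set_option autoImplicit false
set_option linter.style.haveILetI false
set_option linter.unusedSectionVars false

namespace Cfsg.Agent.H81.Brandt

open Cfsg Cfsg.Agent.H20 Cfsg.Agent.H4 Module
open Cfsg.Agent.H81.ValRed
open scoped ComplexConjugate

universe u

variable {G : Type u} [Group G] [Fintype G]

/-- A valuation ring of `ℂ` dominating the local ring at `M`. -/
theorem exists_valuationSubring {p : ℕ} {M : Ideal AlgInt} (hM : IsPModular p M) :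
    ∃ O : ValuationSubring ℂ, (∀ z, MemLocalRing M z → z ∈ O) ∧
      (∀ z, MemLocalIdeal M z → O.valuation z < 1) := by
  have hmax : M.IsMaximal := hM.2.1
  let j : AlgInt.toSubring →+* AlgInt :=
    { toFun := fun x => ⟨x.1, x.2⟩
      map_one' := rfl
      map_mul' := fun _ _ => rfl
      map_zero' := rfl
      map_add' := fun _ _ => rfl }
  have hI : Ideal.comap j M ≠ ⊤ := by
    intro h
    have h1 : (1 : AlgInt.toSubring) ∈ Ideal.comap j M := by rw [h]; trivial
    rw [Ideal.mem_comap, map_one] at h1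
    exact hmax.ne_top ((Ideal.eq_top_iff_one M).mpr h1)
  obtain ⟨O, hA, hsub⟩ := Ideal.image_subset_nonunits_valuationSubring (Ideal.comap j M) hI
  have ha : ∀ a : AlgInt, (a : ℂ) ∈ O := fun a => hA (show (a : ℂ) ∈ AlgInt.toSubring from a.2)
  have hale : ∀ a : AlgInt, O.valuation (a : ℂ) ≤ 1 := fun a =>
    (O.valuation_le_one_iff _).mpr (ha a)
  have hlt : ∀ a : AlgInt, a ∈ M → O.valuation (a : ℂ) < 1 := by
    intro a haM
    rw [← ValuationSubring.mem_nonunits_iff]
    apply hsub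
    refine ⟨⟨a.1, a.2⟩, ?_, rfl⟩
    show j ⟨a.1, a.2⟩ ∈ M
    exact haM
  have hone : ∀ b : AlgInt, b ∉ M → O.valuation (b : ℂ) = 1 := by
    intro b hb
    obtain ⟨y, i, hi, hyi⟩ := hmax.exists_inv hb
    have h1 : (y : ℂ) * (b : ℂ) = 1 - (i : ℂ) := by
      have := congrArg (fun t : AlgInt => (t : ℂ)) hyi
      simp only [Subalgebra.coe_add, Subalgebra.coe_mul, Subalgebra.coe_one] at this
      linear_combination this
    have h2 : O.valuation ((y : ℂ) * (b : ℂ)) = 1 := by
      rw [h1]; exact O.valuation.map_one_sub_of_lt (hlt i hi)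
    rw [map_mul] at h2
    rcases lt_or_eq_of_le (hale b) with hb1 | hb1
    · exfalso
      have h3 : O.valuation (y : ℂ) * O.valuation (b : ℂ) ≤ 1 * O.valuation (b : ℂ) :=
        mul_le_mul' (hale y) le_rfl
      rw [one_mul, h2] at h3
      exact absurd hb1 (not_lt.mpr h3)
    · exact hb1
  refine ⟨O, ?_, ?_⟩
  · rintro z ⟨a, b, hb, rfl⟩
    rw [← O.valuation_le_one_iff, map_div₀, hone b hb, div_one]
    exact hale a
  · rintro z ⟨a, b, haM, hb, rfl⟩
    rw [map_div₀, hone b hb, div_one]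
    exact hlt a haM

/-- Characters in the same block have central characters congruent modulo the maximal ideal of
the valuation ring, on central elements with coefficients in the valuation ring. -/
theorem valuation_omega_sub_lt {M : Ideal AlgInt} (O : ValuationSubring ℂ)
    (hO2 : ∀ z, MemLocalIdeal M z → O.valuation z < 1)
    (χ ψ : IrrCharacter G) (hblock : SameBlock M (χ : G → ℂ) (ψ : G → ℂ))
    {z : MonoidAlgebra ℂ G} (hz : IsCF z) (hzO : ∀ g, z.coeff g ∈ O) :
    O.valuation (omega (χ : G → ℂ) z - omega (ψ : G → ℂ) z) < 1 := by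
  let N : AddSubgroup ℂ :=
    { carrier := {x | O.valuation x < 1}
      zero_mem' := by simp
      add_mem' := fun {a b} ha hb => lt_of_le_of_lt (O.valuation.map_add a b) (max_lt ha hb)
      neg_mem' := fun {a} ha => by simpa using ha }
  have hχ := irr_isClassFunction χ
  have hψ := irr_isClassFunction ψ
  show omega (χ : G → ℂ) z - omega (ψ : G → ℂ) z ∈ N
  unfold omega
  rw [Finset.sum_div, Finset.sum_div, ← Finset.sum_sub_distrib]
  apply sum_mem_of_conj_closed N
    (fun g => z.coeff g * (χ : G → ℂ) g / (χ : G → ℂ) 1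
      - z.coeff g * (ψ : G → ℂ) g / (ψ : G → ℂ) 1)
  · intro g x
    show z.coeff (x * g * x⁻¹) * (χ : G → ℂ) (x * g * x⁻¹) / (χ : G → ℂ) 1
      - z.coeff (x * g * x⁻¹) * (ψ : G → ℂ) (x * g * x⁻¹) / (ψ : G → ℂ) 1 = _
    rw [hz, hχ, hψ]
  · intro g
    have h1 := hO2 _ (hblock g)
    have h2 : O.valuation (z.coeff g *
        (centralChar (χ : G → ℂ) g - centralChar (ψ : G → ℂ) g)) < 1 := by
      rw [map_mul]
      have h3 : O.valuation (z.coeff g) *
          O.valuation (centralChar (χ : G → ℂ) g - centralChar (ψ : G → ℂ) g)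
          ≤ 1 * O.valuation (centralChar (χ : G → ℂ) g - centralChar (ψ : G → ℂ) g) :=
        mul_le_mul' ((O.valuation_le_one_iff _).mpr (hzO g)) le_rfl
      rw [one_mul] at h3
      exact lt_of_le_of_lt h3 h1
    unfold centralChar at h2
    show O.valuation _ < 1
    convert h2 using 2
    ring
  · intro g _ x; exact Finset.mem_univ _

/-- A central element is determined by its central character values. -/
theorem eq_of_omega_eq {z w : MonoidAlgebra ℂ G} (hz : IsCF z) (hw : IsCF w)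
    (h : ∀ χ : IrrCharacter G, omega (χ : G → ℂ) z = omega (χ : G → ℂ) w) : z = w := by
  apply MonoidAlgebra.coeff_injective
  ext g
  rw [coeff_eq_finsum_irr hz, coeff_eq_finsum_irr hw]
  congr 1
  apply finsum_congr
  intro χ
  rw [h]

/-- The product of a central element with the idempotent of a pair of characters. -/
theorem key_decomp (χ₁ χ₂ : IrrCharacter G) (hne : χ₁ ≠ χ₂) {C : MonoidAlgebra ℂ G}
    (hC : IsCF C) :
    C * blockElt {χ₁, χ₂} = omega (χ₂ : G → ℂ) C • blockElt {χ₁, χ₂} +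
      (omega (χ₁ : G → ℂ) C - omega (χ₂ : G → ℂ) C) • blockElt {χ₁} := by
  classical
  apply eq_of_omega_eq (isCF_mul hC (isCF_blockElt _))
    (isCF_add (isCF_smul _ (isCF_blockElt _)) (isCF_smul _ (isCF_blockElt _)))
  intro ψ
  rw [omega_mul ψ hC, omega_add, omega_smul, omega_smul, omega_blockElt, omega_blockElt]
  by_cases h1 : ψ = χ₁
  · subst h1
    simp
  · by_cases h2 : ψ = χ₂
    · subst h2
      simp [h1]
    · simp [h1, h2]

/-- The dimension of the ideal generated by a sum of character idempotents. -/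
theorem finrank_blockElt (A : Set (IrrCharacter G)) :
    (finrank ℂ (LinearMap.range (LinearMap.mulLeft ℂ (blockElt A))) : ℂ) =
      ∑ᶠ χ ∈ A, ((charDegree (χ : G → ℂ) : ℂ)) ^ 2 := by
  rw [finrank_idem_eq _ (Cfsg.Agent.H81.blockElt_mul_self A), coeff_blockElt]
  unfold blockCoeff
  have hG : (Fintype.card G : ℂ) ≠ 0 := by
    exact_mod_cast Fintype.card_ne_zero
  rw [← mul_assoc, Nat.card_eq_fintype_card, mul_inv_cancel₀ hG, one_mul]
  apply finsum_mem_congr rfl
  intro χ _
  rw [(Cfsg.Agent.H81.irr_charDegree χ).1]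
  simp [sq]

/-- **Key inequality.**  If a block consists of two characters then the degree of the second
is at most the degree of the first. -/
theorem degree_le {p : ℕ} {M : Ideal AlgInt} (hM : IsPModular p M) (χ₁ χ₂ : IrrCharacter G)
    (hne : χ₁ ≠ χ₂) (hB : blockOf M (χ₁ : G → ℂ) = {χ₁, χ₂}) :
    charDegree (χ₂ : G → ℂ) ≤ charDegree (χ₁ : G → ℂ) := by
  classical
  have hMp := isPrime_of_isPModular hM
  obtain ⟨O, hO1, hO2⟩ := exists_valuationSubring hM
  haveI : IsAlgClosed (IsLocalRing.ResidueField O) := isAlgClosed_residue O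
  obtain ⟨E, hE⟩ : ∃ E : MonoidAlgebra ℂ G, E = blockElt ({χ₁, χ₂} : Set (IrrCharacter G)) :=
    ⟨_, rfl⟩
  obtain ⟨e₁, he₁⟩ : ∃ e₁ : MonoidAlgebra ℂ G, e₁ = blockElt ({χ₁} : Set (IrrCharacter G)) :=
    ⟨_, rfl⟩
  have hECF : IsCF E := hE ▸ isCF_blockElt _
  have he₁CF : IsCF e₁ := he₁ ▸ isCF_blockElt _
  have hEE : E * E = E := by rw [hE]; exact Cfsg.Agent.H81.blockElt_mul_self _
  have he₁e₁ : e₁ * e₁ = e₁ := by rw [he₁]; exact Cfsg.Agent.H81.blockElt_mul_self _
  have hdec : ∀ {C : MonoidAlgebra ℂ G}, IsCF C → C * E = omega (χ₂ : G → ℂ) C • E +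
      (omega (χ₁ : G → ℂ) C - omega (χ₂ : G → ℂ) C) • e₁ := by
    intro C hC; rw [hE, he₁]; exact key_decomp χ₁ χ₂ hne hC
  have hω₁e₁ : omega (χ₁ : G → ℂ) e₁ = 1 := by rw [he₁, omega_blockElt]; simp
  have hω₂e₁ : omega (χ₂ : G → ℂ) e₁ = 0 := by rw [he₁, omega_blockElt]; simp [hne.symm]
  have he₁E : e₁ * E = e₁ := by
    have := hdec he₁CF
    rw [hω₁e₁, hω₂e₁] at this
    simpa using this
  have hEe₁ : E * e₁ = e₁ := by rw [isCF_mul_comm hECF, he₁E]
  have he₁0 : e₁ ≠ 0 := by
    intro h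
    rw [h, omega_zero] at hω₁e₁
    exact zero_ne_one hω₁e₁
  have hEO : ∀ g, E.coeff g ∈ O := by
    intro g
    rw [hE, coeff_blockElt, ← hB]
    exact hO1 _ (blockCoeff_memLocalRing hMp χ₁ g)
  obtain ⟨EO, hEO'⟩ := exists_inc_eq O E hEO
  obtain ⟨c₁, Z, hc₁, hZinc, hZred⟩ := exists_primitive O e₁ he₁0
  have hZCF : IsCF (inc O Z) := by rw [hZinc]; exact isCF_smul _ he₁CF
  have hZO : ∀ g, (inc O Z).coeff g ∈ O := fun g => by rw [coeff_inc]; exact (Z.coeff g).2
  have h2mem : χ₂ ∈ blockOf M (χ₁ : G → ℂ) := by rw [hB]; simp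
  have hvc : O.valuation c₁ < 1 := by
    have := valuation_omega_sub_lt O hO2 χ₁ χ₂ h2mem hZCF hZO
    rw [hZinc, omega_smul, omega_smul, hω₁e₁, hω₂e₁] at this
    simpa using this
  have hc₁O : c₁ ∈ O := (O.valuation_le_one_iff _).mp (le_of_lt hvc)
  obtain ⟨ε, hε⟩ : ∃ ε, ε = red O EO := ⟨_, rfl⟩
  obtain ⟨z, hz⟩ : ∃ z, z = red O Z := ⟨_, rfl⟩
  have hεc : ∀ x, ε * x = x * ε := by
    intro x
    obtain ⟨X, rfl⟩ := red_surjective O x
    rw [hε, ← map_mul, ← map_mul]
    congr 1
    apply inc_injective O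
    rw [map_mul, map_mul, hEO']
    exact isCF_mul_comm hECF _
  have hεi : ε * ε = ε := by
    rw [hε, ← map_mul]
    congr 1
    apply inc_injective O
    rw [map_mul, hEO', hEE]
  have hzc : ∀ x, z * x = x * z := by
    intro x
    obtain ⟨X, rfl⟩ := red_surjective O x
    rw [hz, ← map_mul, ← map_mul]
    congr 1
    apply inc_injective O
    rw [map_mul, map_mul]
    exact isCF_mul_comm hZCF _
  have hεz : ε * z = z := by
    rw [hε, hz, ← map_mul]
    congr 1
    apply inc_injective O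
    rw [map_mul, hEO', hZinc, mul_smul_comm, hEe₁]
  have hzz : z * z = 0 := by
    have h1 : Z * Z = (⟨c₁, hc₁O⟩ : O) • Z := by
      apply inc_injective O
      rw [map_mul, inc_smul, hZinc, smul_mul_assoc, mul_smul_comm, he₁e₁]
    rw [hz, ← map_mul, h1, red_smul]
    have : IsLocalRing.residue O (⟨c₁, hc₁O⟩ : O) = 0 := by
      rw [IsLocalRing.residue_eq_zero_iff, ValuationSubring.valuation_lt_one_iff]
      exact hvc
    rw [this, zero_smul]
  have hz0 : z ≠ 0 := hz ▸ hZred
  have hZ : ∀ c : MonoidAlgebra (IsLocalRing.ResidueField O) G, (∀ x, c * x = x * c) →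
      ∃ α β : IsLocalRing.ResidueField O, c * ε = α • ε + β • z := by
    intro c hc
    have hcc : ∀ g h : G, c.coeff (h * g * h⁻¹) = c.coeff g := by
      intro g h
      have h1 := congrArg (fun t => t.coeff (h * g)) (hc (MonoidAlgebra.single h 1))
      simp only [MonoidAlgebra.coeff_mul_single_apply, MonoidAlgebra.coeff_single_mul_apply,
        mul_one, one_mul] at h1
      rw [h1]; congr 1; group
    obtain ⟨F, hF⟩ : ∃ F : IsLocalRing.ResidueField O → O,
        ∀ a, IsLocalRing.residue O (F a) = a :=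
      ⟨Function.surjInv IsLocalRing.residue_surjective, Function.surjInv_eq _⟩
    obtain ⟨CO, hCO⟩ : ∃ CO : MonoidAlgebra O G, CO = ofFun (fun g => F (c.coeff g)) :=
      ⟨_, rfl⟩
    have hred : red O CO = c := by
      apply MonoidAlgebra.coeff_injective; ext g
      rw [coeff_red, hCO, coeff_ofFun, hF]
    have hCF : IsCF (inc O CO) := by
      intro g h
      rw [coeff_inc, coeff_inc, hCO, coeff_ofFun, coeff_ofFun, hcc]
    have hCcoef : ∀ g, (inc O CO).coeff g ∈ O := fun g => by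
      rw [coeff_inc]; exact (CO.coeff g).2
    have hω₂ : omega (χ₂ : G → ℂ) (inc O CO) ∈ O :=
      omega_mem_of_coeff _ (irr_isClassFunction χ₂) O.toSubring.toAddSubgroup hCF
        (fun g => O.mul_mem _ _ (hCcoef g) (hO1 _ (centralChar_memLocalRing hMp χ₂ g)))
    have hd := hdec hCF
    obtain ⟨ω₂, hω₂def⟩ : ∃ ω₂, ω₂ = omega (χ₂ : G → ℂ) (inc O CO) := ⟨_, rfl⟩
    obtain ⟨δ, hδ⟩ : ∃ δ, δ = omega (χ₁ : G → ℂ) (inc O CO) - omega (χ₂ : G → ℂ) (inc O CO) :=
      ⟨_, rfl⟩
    rw [← hδ, ← hω₂def] at hd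
    rw [← hω₂def] at hω₂
    obtain ⟨g₀, hg₀⟩ : ∃ g₀, IsLocalRing.residue O (Z.coeff g₀) ≠ 0 := by
      by_contra hcon
      push Not at hcon
      apply hZred
      apply MonoidAlgebra.coeff_injective; ext g
      rw [coeff_red, hcon]; rfl
    have hvg₀ : O.valuation ((Z.coeff g₀ : O) : ℂ) = 1 := by
      rcases O.valuation_lt_one_or_eq_one (Z.coeff g₀) with h | h
      · exfalso; apply hg₀
        rw [IsLocalRing.residue_eq_zero_iff, ValuationSubring.valuation_lt_one_iff]
        exact h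
      · exact h
    have hγ : δ * c₁⁻¹ ∈ O := by
      have h1 : (δ • e₁).coeff g₀ ∈ O := by
        have h2 : δ • e₁ = inc O (CO * EO) - ω₂ • E := by
          rw [map_mul, hEO', hd]; abel
        rw [h2, MonoidAlgebra.coeff_sub, Finsupp.sub_apply, MonoidAlgebra.coeff_smul_apply,
          smul_eq_mul]
        exact sub_mem (by rw [coeff_inc]; exact ((CO * EO).coeff g₀).2)
          (O.mul_mem _ _ hω₂ (hEO g₀))
      have h3 : (δ • e₁).coeff g₀ = δ * c₁⁻¹ * ((Z.coeff g₀ : O) : ℂ) := by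
        have h4 : δ • e₁ = (δ * c₁⁻¹) • inc O Z := by
          rw [hZinc, smul_smul, inv_mul_cancel_right₀ hc₁]
        rw [h4, MonoidAlgebra.coeff_smul_apply, coeff_inc, smul_eq_mul]
      rw [h3] at h1
      rw [← O.valuation_le_one_iff] at h1 ⊢
      rwa [map_mul, hvg₀, mul_one] at h1
    have hfin : CO * EO = (⟨ω₂, hω₂⟩ : O) • EO + (⟨δ * c₁⁻¹, hγ⟩ : O) • Z := by
      apply inc_injective O
      rw [map_mul, map_add, inc_smul, inc_smul, hEO', hZinc, hd, smul_smul]
      congr 2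
      exact (inv_mul_cancel_right₀ hc₁ δ).symm
    refine ⟨IsLocalRing.residue O ⟨ω₂, hω₂⟩, IsLocalRing.residue O ⟨δ * c₁⁻¹, hγ⟩, ?_⟩
    rw [← hred, hε, hz, ← map_mul, hfin, map_add, red_smul, red_smul]
  obtain ⟨s, hs1, hs2⟩ := Cfsg.Agent.H81.SymAlg.symAlg_main
    (lam (IsLocalRing.ResidueField O) G) lam_symm lam_nondeg ε z hεc hεi hzc hεz hzz hz0 hZ
  have hA : finrank (IsLocalRing.ResidueField O)
      (LinearMap.range (LinearMap.mulLeft (IsLocalRing.ResidueField O) z))
      ≤ finrank ℂ (LinearMap.range (LinearMap.mulLeft ℂ e₁)) := by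
    apply finrank_le_of_lift O
    rintro y ⟨y', rfl⟩
    obtain ⟨Y, rfl⟩ := red_surjective O y'
    refine ⟨Z * Y, ⟨c₁ • inc O Y, ?_⟩, ?_⟩
    · rw [LinearMap.mulLeft_apply, map_mul, hZinc, smul_mul_assoc, mul_smul_comm]
    · rw [map_mul, LinearMap.mulLeft_apply, hz]
  have hC : finrank (IsLocalRing.ResidueField O)
      (LinearMap.range (LinearMap.mulLeft (IsLocalRing.ResidueField O) (1 - ε)))
      ≤ finrank ℂ (LinearMap.range (LinearMap.mulLeft ℂ (1 - E))) := by
    apply finrank_le_of_lift O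
    rintro y ⟨y', rfl⟩
    obtain ⟨Y, rfl⟩ := red_surjective O y'
    refine ⟨(1 - EO) * Y, ⟨inc O Y, ?_⟩, ?_⟩
    · rw [LinearMap.mulLeft_apply, map_mul, map_sub, map_one, hEO']
    · rw [map_mul, map_sub, map_one, LinearMap.mulLeft_apply, hε]
  have h1 := finrank_idem_compl (k := IsLocalRing.ResidueField O) ε hεi
  have h2 := finrank_idem_compl (k := ℂ) E hEE
  rw [finrank_monoidAlgebra] at h1 h2
  have h3 : finrank ℂ (LinearMap.range (LinearMap.mulLeft ℂ e₁))
      = charDegree (χ₁ : G → ℂ) ^ 2 := by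
    have := finrank_blockElt ({χ₁} : Set (IrrCharacter G))
    rw [finsum_mem_singleton, ← he₁] at this
    exact_mod_cast this
  have h4 : finrank ℂ (LinearMap.range (LinearMap.mulLeft ℂ E))
      = charDegree (χ₁ : G → ℂ) ^ 2 + charDegree (χ₂ : G → ℂ) ^ 2 := by
    have := finrank_blockElt ({χ₁, χ₂} : Set (IrrCharacter G))
    rw [finsum_mem_pair hne, ← hE] at this
    exact_mod_cast this
  have h5 : charDegree (χ₂ : G → ℂ) ^ 2 ≤ charDegree (χ₁ : G → ℂ) ^ 2 := by
    generalize charDegree (χ₂ : G → ℂ) ^ 2 = a2 at *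
    generalize charDegree (χ₁ : G → ℂ) ^ 2 = a1 at *
    generalize s ^ 2 = s2 at *
    omega
  exact (Nat.pow_le_pow_iff_left (by norm_num)).mp h5

/-- **Brandt.**  The two characters of a block with exactly two irreducible characters have the
same degree. -/
theorem degree_eq {p : ℕ} {M : Ideal AlgInt} (hM : IsPModular p M) (χ₁ χ₂ : IrrCharacter G)
    (hne : χ₁ ≠ χ₂) (hB : blockOf M (χ₁ : G → ℂ) = {χ₁, χ₂}) :
    charDegree (χ₁ : G → ℂ) = charDegree (χ₂ : G → ℂ) := by
  have hMp := isPrime_of_isPModular hM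
  apply le_antisymm
  · have h2 : χ₂ ∈ blockOf M (χ₁ : G → ℂ) := by rw [hB]; simp
    have hB' : blockOf M (χ₂ : G → ℂ) = {χ₂, χ₁} := by
      rw [Cfsg.Agent.H80.blockOf_eq_of_mem hMp h2, hB, Set.pair_comm]
    exact degree_le hM χ₂ χ₁ hne.symm hB'
  · exact degree_le hM χ₁ χ₂ hne hB

end Cfsg.Agent.H81.Brandt
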