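import Mathlib
import Cfsg.Prelude.Def_Blocks
import Cfsg.Agent.H81.Brandt
import Cfsg.Agent.H20.FirstMain
import Cfsg.Agent.H20.PElement
import Cfsg.Agent.Lib.Defect2.Main

/-!
# helper81: blocks with two characters and defect groups of order two

* `card_defect_of_pair`: a block with exactly two irreducible characters has a defect group of
  order `2` (Brandt).
* `card_block_of_defect_two`: a block with a defect group of order `2` has exactly two
  irreducible characters (Brauer).
-/

set_option autoImplicit false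
set_option linter.style.haveILetI false
set_option linter.unusedSectionVars false

namespace Cfsg.Agent.H81.Brandt

open Cfsg Cfsg.Agent.H20 Cfsg.Agent.H4
open scoped ComplexConjugate

universe u

variable {G : Type u} [Group G]

theorem card_defect_of_pair [Fintype G] {p : ℕ} [Fact p.Prime] {M : Ideal AlgInt}
    (hM : IsPModular p M) (χ₁ χ₂ : IrrCharacter G) (hne : χ₁ ≠ χ₂)
    (hB : blockOf M (χ₁ : G → ℂ) = {χ₁, χ₂})
    (D : Subgroup G) (hD : IsDefectGroup p M (blockOf M (χ₁ : G → ℂ)) D) : Nat.card D = 2 := by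
  have hp : p.Prime := Fact.out
  have hdeg := degree_eq hM χ₁ χ₂ hne hB
  obtain ⟨f, hf⟩ : ∃ f, f = charDegree (χ₁ : G → ℂ) := ⟨_, rfl⟩
  have hfpos : 0 < f := hf ▸ (Cfsg.Agent.H81.irr_charDegree χ₁).2
  have hfdvd : f ∣ Nat.card G := hf ▸ Cfsg.Agent.H81.irr_charDegree_dvd χ₁
  have himg : (fun χ : IrrCharacter G => (charDegree (χ : G → ℂ)).factorization p) '' {χ₁, χ₂}
      = {f.factorization p} := by
    rw [Set.image_pair]
    show {(charDegree (χ₁ : G → ℂ)).factorization p,
      (charDegree (χ₂ : G → ℂ)).factorization p} = _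
    rw [← hdeg, ← hf, Set.pair_eq_singleton]
  have hdef : blockDefect p (blockOf M (χ₁ : G → ℂ))
      = (Nat.card G).factorization p - f.factorization p := by
    unfold blockDefect
    rw [hB, himg, csInf_singleton]
  have hsum := Cfsg.Agent.H81.sq_sum_factorization hM (blockOf M (χ₁ : G → ℂ)) ⟨χ₁, rfl⟩
  rw [hdef, hB, finsum_mem_pair hne, ← hdeg, ← hf] at hsum
  have hle : f.factorization p ≤ (Nat.card G).factorization p :=
    (Nat.factorization_le_iff_dvd hfpos.ne' Nat.card_pos.ne').mpr hfdvd p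
  have h2 : (f ^ 2 + f ^ 2).factorization p = (2 : ℕ).factorization p + 2 * f.factorization p := by
    have : f ^ 2 + f ^ 2 = 2 * f ^ 2 := by ring
    rw [this, Nat.factorization_mul (by norm_num) (pow_ne_zero 2 hfpos.ne'),
      Nat.factorization_pow]
    simp
  rw [h2] at hsum
  have hcard := card_defectGroup hM χ₁ D hD
  rw [hdef] at hcard
  by_cases hp2 : p = 2
  · subst hp2
    have h22 : (2 : ℕ).factorization 2 = 1 := Nat.Prime.factorization_self Nat.prime_two
    rw [h22] at hsum
    have h3 : (Nat.card G).factorization 2 - f.factorization 2 = 1 := by omega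
    rw [hcard, h3, pow_one]
  · exfalso
    have h20 : (2 : ℕ).factorization p = 0 := by
      apply Nat.factorization_eq_zero_of_not_dvd
      intro h
      exact hp2 ((Nat.prime_dvd_prime_iff_eq hp Nat.prime_two).mp h)
    rw [h20] at hsum
    have heq : (Nat.card G).factorization p = f.factorization p := by omega
    have hnd : ¬ p ∣ Nat.card G / charDegree (χ₁ : G → ℂ) := by
      rw [← hf]
      intro hdiv
      obtain ⟨m, hm⟩ := hfdvd
      rw [hm, Nat.mul_div_cancel_left _ hfpos] at hdiv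
      have hm0 : m ≠ 0 := by
        rintro rfl
        rw [mul_zero] at hm
        exact Nat.card_pos.ne' hm
      have h4 : (f * m).factorization p = f.factorization p + m.factorization p := by
        rw [Nat.factorization_mul hfpos.ne' hm0]; rfl
      rw [hm, h4] at heq
      have hmp : 0 < m.factorization p := hp.factorization_pos_of_dvd hm0 hdiv
      omega
    have h5 := Cfsg.Agent.H81.blockOf_eq_singleton_of_defect_zero hM χ₁ hnd
    rw [hB] at h5
    have h2mem : χ₂ ∈ ({χ₁, χ₂} : Set (IrrCharacter G)) := by simp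
    rw [h5] at h2mem
    exact hne (Set.mem_singleton_iff.mp h2mem).symm

/-- A block of a group with a central involution `z` contains a character with `z` in its
kernel (weak block orthogonality). -/
theorem exists_theta {C : Type u} [Group C] [Fintype C] {M : Ideal AlgInt}
    (hM : IsPModular 2 M) (z : C) (hz : orderOf z = 2) (hzc : z ∈ Subgroup.center C)
    (ξ : IrrCharacter C) :
    ∃ θ ∈ blockOf M (ξ : C → ℂ), (θ : C → ℂ) z = (θ : C → ℂ) 1 := by
  classical
  by_contra hcon
  push Not at hcon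
  have hMp := isPrime_of_isPModular hM
  have hsign : ∀ θ : IrrCharacter C,
      (θ : C → ℂ) z = (θ : C → ℂ) 1 ∨ (θ : C → ℂ) z = - (θ : C → ℂ) 1 := by
    intro θ
    have h1 := irr_central_pow θ hzc 2
    have hzz : z ^ 2 = 1 := by rw [← hz]; exact pow_orderOf_eq_one z
    rw [hzz] at h1
    have h0 := irr_one_ne_zero θ
    have h2 : ((θ : C → ℂ) z - (θ : C → ℂ) 1) * ((θ : C → ℂ) z + (θ : C → ℂ) 1) = 0 := by
      field_simp at h1
      linear_combination -h1
    rcases mul_eq_zero.mp h2 with h | h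
    · left; exact sub_eq_zero.mp h
    · right; exact eq_neg_of_add_eq_zero_left h
  have hwbo := Cfsg.Agent.H81.wbo_one hM ξ (1 : C) z (by rw [orderOf_one]; norm_num)
    (by rw [hz])
  have hterm : ∀ θ ∈ blockOf M (ξ : C → ℂ), (θ : C → ℂ) 1 * conj ((θ : C → ℂ) z)
      = - ((charDegree (θ : C → ℂ) : ℂ)) ^ 2 := by
    intro θ hθ
    have h1 : (θ : C → ℂ) z = - (θ : C → ℂ) 1 := (hsign θ).resolve_left (hcon θ hθ)
    rw [h1, (Cfsg.Agent.H81.irr_charDegree θ).1]
    simp [sq]
  rw [finsum_mem_congr rfl hterm] at hwbo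
  letI := fintypeIrr C
  rw [finsum_mem_irr] at hwbo
  have hnat : (∑ χ : IrrCharacter C,
      if χ ∈ blockOf M (ξ : C → ℂ) then charDegree (χ : C → ℂ) ^ 2 else 0 : ℕ) = 0 := by
    have h1 : ((∑ χ : IrrCharacter C,
        if χ ∈ blockOf M (ξ : C → ℂ) then charDegree (χ : C → ℂ) ^ 2 else 0 : ℕ) : ℂ) = 0 := by
      have h2 : ((∑ χ : IrrCharacter C,
          if χ ∈ blockOf M (ξ : C → ℂ) then charDegree (χ : C → ℂ) ^ 2 else 0 : ℕ) : ℂ)
          = - ∑ χ : IrrCharacter C, (if χ ∈ blockOf M (ξ : C → ℂ) then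
            -((charDegree (χ : C → ℂ) : ℂ)) ^ 2 else 0) := by
        push_cast
        rw [← Finset.sum_neg_distrib]
        apply Finset.sum_congr rfl
        intro χ _
        split_ifs <;> simp
      rw [h2, hwbo, neg_zero]
    exact_mod_cast h1
  rw [Finset.sum_eq_zero_iff] at hnat
  have h6 := hnat ξ (Finset.mem_univ _)
  rw [if_pos (Cfsg.Agent.H80.mem_blockOf_self hMp ξ)] at h6
  have hpos := (Cfsg.Agent.H81.irr_charDegree ξ).2
  have h7 := pow_eq_zero_iff (two_ne_zero) |>.mp h6
  omega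

theorem card_block_of_defect_two [Finite G] {M : Ideal AlgInt} (hM : IsPModular 2 M)
    (χ₀ : IrrCharacter G) (D : Subgroup G)
    (hD : IsDefectGroup 2 M (blockOf M (χ₀ : G → ℂ)) D) (hcard : Nat.card D = 2) :
    Nat.card (blockOf M (χ₀ : G → ℂ)) = 2 := by
  classical
  letI : Fintype G := Fintype.ofFinite G
  haveI : Fact (Nat.Prime 2) := ⟨Nat.prime_two⟩
  obtain ⟨x, hxD, hx1⟩ : ∃ x ∈ D, x ≠ 1 := by
    by_contra hcon
    push Not at hcon
    have h1 : D = ⊥ := (Subgroup.eq_bot_iff_forall D).mpr hcon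
    rw [h1, Subgroup.card_bot] at hcard
    omega
  have hx : orderOf x = 2 := by
    have h1 : orderOf x ∣ 2 := by
      rw [← hcard]
      exact Subgroup.orderOf_dvd_natCard D hxD
    rcases (Nat.dvd_prime Nat.prime_two).mp h1 with h | h
    · exact absurd (orderOf_eq_one_iff.mp h) hx1
    · exact h
  have hDx : Subgroup.zpowers x = D := by
    apply Subgroup.eq_of_le_of_card_ge (Subgroup.zpowers_le.mpr hxD)
    rw [Nat.card_zpowers, hx, hcard]
  subst hDx
  have hPG : IsPGroup 2 (Subgroup.zpowers x) := IsPGroup.of_card (n := 1) (by rw [hcard]; rfl)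
  obtain ⟨ξ₀, -, hind⟩ := Cfsg.Agent.H20.first_main_exists hM (Subgroup.zpowers x) hPG χ₀ hD
  have key : ∀ K : Subgroup G,
      K = Subgroup.normalizer ((Subgroup.zpowers x : Subgroup G) : Set G) →
      ∃ ξ : IrrCharacter K, IsInducedBlock M K (blockOf M (ξ : K → ℂ))
        (blockOf M (χ₀ : G → ℂ)) := by
    rintro K rfl
    exact ⟨ξ₀, hind⟩
  obtain ⟨ξ, hξ⟩ := key _ (Cfsg.Agent.Lib.Defect2.centralizer_eq_normalizer hx)
  letI : Fintype (Subgroup.centralizer ({x} : Set G)) := Fintype.ofFinite _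
  obtain ⟨θ, hθ, hθx⟩ := exists_theta hM (Cfsg.Agent.Lib.Defect2.xC x)
    (by rw [Cfsg.Agent.Lib.Defect2.orderOf_xC, hx]) (Cfsg.Agent.Lib.Defect2.xC_mem_center x) ξ
  obtain ⟨χ₁, χ₂, hne, hBeq, -, -⟩ :=
    Cfsg.Agent.Lib.Defect2.defect_two x hM hx _ ⟨χ₀, rfl⟩ hD _ hξ θ hθ hθx
  rw [hBeq, Nat.card_coe_set_eq, Set.ncard_pair hne]

end Cfsg.Agent.H81.Brandt
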