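/-
helper81 library (S4481): the assembly of the principal 2-block of a group with dihedral Sylow
2-subgroup from the pieces stated in `Cfsg.Agent.H81.DihBDefs`.
-/
import Mathlib
import Cfsg.Prelude.Def_Blocks
import Cfsg.Agent.H81.DihBDefs
import Cfsg.Agent.H84.DihGlueC

set_option autoImplicit false
set_option linter.style.haveILetI false
set_option linter.unusedVariables false
set_option linter.unusedSectionVars false

namespace Cfsg.Agent.H81.DihB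

open Cfsg Cfsg.Agent.H84.Dih Cfsg.Agent.H84.DihGlue

universe u

theorem sum_decomp {ι : Type*} [Fintype ι] [DecidableEq ι] {N : ℕ} (i₀ i₁ i₂ i₃ : ι)
    (j : Fin N → ι) (hj : Function.Injective j) (h10 : i₁ ≠ i₀) (h20 : i₂ ≠ i₀) (h30 : i₃ ≠ i₀)
    (h12 : i₁ ≠ i₂) (h13 : i₁ ≠ i₃) (h23 : i₂ ≠ i₃)
    (hjne : ∀ t, j t ≠ i₀ ∧ j t ≠ i₁ ∧ j t ≠ i₂ ∧ j t ≠ i₃)
    (hall : ∀ i, i = i₀ ∨ i = i₁ ∨ i = i₂ ∨ i = i₃ ∨ ∃ t, i = j t)
    {A : Type*} [AddCommMonoid A] (f : ι → A) :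
    ∑ i, f i = f i₀ + (f i₁ + (f i₂ + (f i₃ + ∑ t, f (j t)))) := by
  have huniv : (Finset.univ : Finset ι) =
      insert i₀ (insert i₁ (insert i₂ (insert i₃ (Finset.univ.image j)))) := by
    ext i
    simp only [Finset.mem_univ, Finset.mem_insert, Finset.mem_image, true_and, true_iff]
    rcases hall i with h | h | h | h | ⟨t, h⟩
    · exact Or.inl h
    · exact Or.inr (Or.inl h)
    · exact Or.inr (Or.inr (Or.inl h))
    · exact Or.inr (Or.inr (Or.inr (Or.inl h)))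
    · exact Or.inr (Or.inr (Or.inr (Or.inr ⟨t, h.symm⟩)))
  have n3 : i₃ ∉ Finset.univ.image j := by
    simp only [Finset.mem_image, Finset.mem_univ, true_and, not_exists]
    intro t ht; exact (hjne t).2.2.2 ht
  have n2 : i₂ ∉ insert i₃ (Finset.univ.image j) := by
    simp only [Finset.mem_insert, Finset.mem_image, Finset.mem_univ, true_and, not_or,
      not_exists]
    exact ⟨h23, fun t ht => (hjne t).2.2.1 ht⟩
  have n1 : i₁ ∉ insert i₂ (insert i₃ (Finset.univ.image j)) := by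
    simp only [Finset.mem_insert, Finset.mem_image, Finset.mem_univ, true_and, not_or,
      not_exists]
    exact ⟨h12, h13, fun t ht => (hjne t).2.1 ht⟩
  have n0 : i₀ ∉ insert i₁ (insert i₂ (insert i₃ (Finset.univ.image j))) := by
    simp only [Finset.mem_insert, Finset.mem_image, Finset.mem_univ, true_and, not_or,
      not_exists]
    exact ⟨h10.symm, h20.symm, h30.symm, fun t ht => (hjne t).1 ht⟩
  rw [huniv, Finset.sum_insert n0, Finset.sum_insert n1, Finset.sum_insert n2,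
    Finset.sum_insert n3, Finset.sum_image (fun a _ b _ hab => hj hab)]

theorem card_decomp {ι : Type*} [Fintype ι] [DecidableEq ι] {N : ℕ} (i₀ i₁ i₂ i₃ : ι)
    (j : Fin N → ι) (hj : Function.Injective j) (h10 : i₁ ≠ i₀) (h20 : i₂ ≠ i₀) (h30 : i₃ ≠ i₀)
    (h12 : i₁ ≠ i₂) (h13 : i₁ ≠ i₃) (h23 : i₂ ≠ i₃)
    (hjne : ∀ t, j t ≠ i₀ ∧ j t ≠ i₁ ∧ j t ≠ i₂ ∧ j t ≠ i₃)
    (hall : ∀ i, i = i₀ ∨ i = i₁ ∨ i = i₂ ∨ i = i₃ ∨ ∃ t, i = j t) :
    Fintype.card ι = 4 + N := by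
  have h1 := sum_decomp i₀ i₁ i₂ i₃ j hj h10 h20 h30 h12 h13 h23 hjne hall (fun _ => (1 : ℕ))
  rw [Finset.sum_const, Finset.sum_const, Finset.card_univ, Finset.card_univ, Fintype.card_fin,
    smul_eq_mul, smul_eq_mul, mul_one, mul_one] at h1
  omega


/-- The set-up: the lattice data of the principal block. -/
theorem setup (hHyp : StmtHyp.{u})
    {G : Type u} [Group G] [Finite G] (M : Ideal Cfsg.AlgInt) (hM : Cfsg.IsPModular 2 M) (n : ℕ)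
    (hn : 3 ≤ n) (P : Sylow 2 G)
    (hP : Nonempty ((P : Subgroup G) ≃* DihedralGroup (2 ^ (n - 1)))) (σ : G)
    (hσ : σ ∈ (P : Subgroup G)) (hσo : orderOf σ = 2 ^ (n - 1)) (ζ : ℂ)
    (hζ : IsPrimitiveRoot ζ (2 ^ (n - 1))) [Fintype ↥(principalBlock M G)] :
    ∃ (τ : G) (X : Subgroup G) (a : ↥(principalBlock M G) → ℕ → ℕ),
      Hyp n P σ τ ∧ Core n P σ X ∧
      Lat (2 ^ (n - 1)) (2 ^ (n - 2)) (fun i : ↥(principalBlock M G) => charDegree (i.1 : G → ℂ))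
        (fun i k => (a i k : ℤ) - (a i 0 : ℤ))
        ⟨Cfsg.Agent.H80.trivChar G, Cfsg.Agent.H80.trivChar_mem_principalBlock hM.2.1.isPrime⟩ ∧
      (∀ (i : ↥(principalBlock M G)) (l : ℕ), 0 < l → l < 2 ^ (n - 1) →
        (i.1 : G → ℂ) (σ ^ l) = ∑ k ∈ Finset.range (2 ^ (n - 1)),
          (((a i k : ℤ) - (a i 0 : ℤ) : ℤ) : ℂ) * ζ ^ (k * l)) ∧
      (∀ (i : ↥(principalBlock M G)) (k : ℕ), k < 2 ^ (n - 1) →
        ((2 ^ (n - 1) : ℕ) : ℂ) * (a i k : ℂ) =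
          ∑ l ∈ Finset.range (2 ^ (n - 1)), (i.1 : G → ℂ) (σ ^ l) * (ζ ^ (k * l))⁻¹) := by
  classical
  obtain ⟨τ, h⟩ := hHyp n hn P hP σ hσ hσo
  obtain ⟨X, hle, hnorm, hodd, hcard⟩ := Cfsg.Agent.H60.Dih.exists_core₁ h
  have hX : Core n P σ X := Cfsg.Agent.H24.Dih.core_of h X hle hnorm hodd hcard
  have hmpos : 0 < 2 ^ (n - 1) := by positivity
  have hmC : ((2 ^ (n - 1) : ℕ) : ℂ) ≠ 0 := by exact_mod_cast hmpos.ne'
  have hmh : 2 ^ (n - 1) = 2 * 2 ^ (n - 2) := by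
    have : n - 1 = (n - 2) + 1 := by omega
    rw [this, pow_succ]; ring
  have hh2 : 2 ≤ 2 ^ (n - 2) := by
    have : n - 2 = (n - 3) + 1 := by omega
    rw [this, pow_succ]
    have : 1 ≤ 2 ^ (n - 3) := Nat.one_le_two_pow
    omega
  have hhe : Even (2 ^ (n - 2)) := by
    have : n - 2 = (n - 3) + 1 := by omega
    rw [this, pow_succ]
    exact even_two.mul_left _
  have hσN : σ ^ (2 ^ (n - 1)) = 1 := by rw [← h.hσo]; exact pow_orderOf_eq_one σ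
  have hex : ∀ i : ↥(principalBlock M G), ∃ m : ℕ → ℕ,
      (∀ j : ℕ, (i.1 : G → ℂ) (σ ^ j) =
        ∑ k ∈ Finset.range (2 ^ (n - 1)), (m k : ℂ) * ζ ^ (k * j)) :=
    fun i => by
      obtain ⟨m, hm, -⟩ := Cfsg.Agent.H16.RepMult.exists_mult
        (Cfsg.Agent.H4.isCharacter_of_isIrrCharacter i.1.2) σ (2 ^ (n - 1)) hmpos hσN ζ hζ
      exact ⟨m, hm⟩
  choose a ha using hex
  have hdeg : ∀ i : ↥(principalBlock M G),
      (i.1 : G → ℂ) 1 = (charDegree (i.1 : G → ℂ) : ℂ) :=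
    fun i => Cfsg.Agent.H4.isCharacter_one_eq (Cfsg.Agent.H4.isCharacter_of_isIrrCharacter i.1.2)
  obtain ⟨F1, F2⟩ := dih_orth h hX hM
  have hconv : ∀ f : IrrCharacter G → ℂ,
      ∑ᶠ χ ∈ principalBlock M G, f χ = ∑ i : ↥(principalBlock M G), f i.1 := by
    intro f
    rw [← finsum_set_coe_eq_finsum_mem, finsum_eq_sum_of_fintype]
  have hw0 : ∀ i : ↥(principalBlock M G),
      (i.1 : G → ℂ) (σ ^ 0) = (charDegree (i.1 : G → ℂ) : ℂ) := fun i => by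
    rw [pow_zero]; exact hdeg i
  obtain ⟨hG, hDeg, hW, hInv⟩ := Cfsg.Agent.H18.Dih.fourier_gram (2 ^ (n - 1)) hmpos ζ hζ
    (fun i : ↥(principalBlock M G) => charDegree (i.1 : G → ℂ)) a
    (fun (i : ↥(principalBlock M G)) (l : ℕ) => (i.1 : G → ℂ) (σ ^ l)) ha hw0
    (by
      intro l l' hl hlm hl' hlm'
      rw [← hconv (fun χ => (χ : G → ℂ) (σ ^ l') * (χ : G → ℂ) (σ ^ l)), F1 l l' hl hlm hl' hlm']
      push_cast
      rfl)
    (fun l hl hlm => by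
      have h2 := F2 l hl hlm
      rw [hconv (fun χ => (χ : G → ℂ) 1 * (χ : G → ℂ) (σ ^ l))] at h2
      rw [← h2]
      exact Finset.sum_congr rfl (fun i _ => by rw [hdeg i]))
  set i₀ : ↥(principalBlock M G) :=
    ⟨Cfsg.Agent.H80.trivChar G, Cfsg.Agent.H80.trivChar_mem_principalBlock hM.2.1.isPrime⟩
    with hi₀
  have h0 : ∀ l : ℕ, (i₀.1 : G → ℂ) (σ ^ l) = 1 := fun l => rfl
  have hd0 : charDegree (i₀.1 : G → ℂ) = 1 := by
    have : (charDegree (i₀.1 : G → ℂ) : ℂ) = 1 := by rw [← hw0, h0]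
    exact_mod_cast this
  have ha00 : a i₀ 0 = 1 := by
    have h2 := hInv i₀ 0 hmpos
    have h3 : ∑ l ∈ Finset.range (2 ^ (n - 1)), (i₀.1 : G → ℂ) (σ ^ l) * (ζ ^ (0 * l))⁻¹ =
        ((2 ^ (n - 1) : ℕ) : ℂ) := by
      rw [← root_sum_zero (2 ^ (n - 1)) ζ]
      exact Finset.sum_congr rfl (fun l _ => by rw [h0, one_mul])
    rw [h3] at h2
    have h4 : (a i₀ 0 : ℂ) = 1 := by
      apply mul_left_cancel₀ hmC
      rw [h2, mul_one]
    exact_mod_cast h4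
  have ha0k : ∀ k : ℕ, 0 < k → k < 2 ^ (n - 1) → a i₀ k = 0 := by
    intro k hk hkm
    have h2 := hInv i₀ k hkm
    have h3 : ∑ l ∈ Finset.range (2 ^ (n - 1)), (i₀.1 : G → ℂ) (σ ^ l) * (ζ ^ (k * l))⁻¹ = 0 := by
      rw [← root_sum (2 ^ (n - 1)) ζ hζ k hk hkm]
      exact Finset.sum_congr rfl (fun l _ => by rw [h0, one_mul])
    rw [h3] at h2
    have h4 : (a i₀ k : ℂ) = 0 := by
      rcases mul_eq_zero.mp h2 with h5 | h5
      · exact absurd h5 hmC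
      · exact h5
    exact_mod_cast h4
  refine ⟨τ, X, a, h, hX, ⟨hmh, hh2, hhe, fun i => Cfsg.Agent.H4.irr_charDegree_pos i.1, hG, hDeg,
    hd0, ?_⟩, hW, hInv⟩
  intro k hk hkm
  show (a i₀ k : ℤ) - (a i₀ 0 : ℤ) = -1
  rw [ha0k k hk hkm, ha00]
  norm_num


theorem main_of_pieces (hHyp : StmtHyp.{u}) (hCols : StmtColsOdd.{u}) (hNZ : StmtNoZero.{u})
    (hA : StmtLatA.{u}) (hC : StmtLatC.{u}) (hD : StmtLatD.{u}) (hF : StmtFour)
    (hR : StmtRel.{u})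
    {G : Type u} [Group G] [Finite G] (M : Ideal Cfsg.AlgInt) (hM : Cfsg.IsPModular 2 M) (n : ℕ) (hn : 3 ≤ n) (P : Sylow 2 G) (hP : Nonempty ((P : Subgroup G) ≃* DihedralGroup (2 ^ (n - 1)))) (σ : G) (hσ : σ ∈ (P : Subgroup G)) (hσo : orderOf σ = 2 ^ (n - 1)) (ζ : ℂ) (hζ : IsPrimitiveRoot ζ (2 ^ (n - 1))) :
    Nat.card (Cfsg.principalBlock M G) = 3 + 2 ^ (n - 2) ∧ ∃ (χ₁ χ₂ χ₃ : Cfsg.IrrCharacter G) (χ' : Fin (2 ^ (n - 2) - 1) → Cfsg.IrrCharacter G) (δ₁ δ₂ δ₃ : ℤ), (δ₁ = 1 ∨ δ₁ = -1) ∧ (δ₂ = 1 ∨ δ₂ = -1) ∧ (δ₃ = 1 ∨ δ₃ = -1) ∧ Function.Injective χ' ∧ (χ₁ : G → ℂ) ≠ (fun _ => 1) ∧ (χ₂ : G → ℂ) ≠ (fun _ => 1) ∧ (χ₃ : G → ℂ) ≠ (fun _ => 1) ∧ χ₁ ≠ χ₂ ∧ χ₁ ≠ χ₃ ∧ χ₂ ≠ χ₃ ∧ (∀ j, χ' j ≠ χ₁ ∧ χ' j ≠ χ₂ ∧ χ' j ≠ χ₃ ∧ (χ' j : G → ℂ) ≠ (fun _ => 1)) ∧ Cfsg.principalBlock M G = {χ : Cfsg.IrrCharacter G | (χ : G → ℂ) = (fun _ => 1) ∨ χ = χ₁ ∨ χ = χ₂ ∨ χ = χ₃ ∨ ∃ j, χ = χ' j}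 ∧ (∀ l : ℕ, 0 < l → l < 2 ^ (n - 1) → (χ₁ : G → ℂ) (σ ^ l) = δ₁ ∧ (χ₂ : G → ℂ) (σ ^ l) = δ₂ * (-1) ^ (l + 1) ∧ (χ₃ : G → ℂ) (σ ^ l) = δ₃ * (-1) ^ (l + 1) ∧ ∀ j : Fin (2 ^ (n - 2) - 1), (χ' j : G → ℂ) (σ ^ l) = δ₁ * (ζ ^ (((j : ℕ) + 1) * l) + (ζ ^ (((j : ℕ) + 1) * l))⁻¹)) ∧ ∀ ρ : G, Odd (orderOf ρ) → ∀ j : Fin (2 ^ (n - 2) - 1), 1 + δ₁ * (χ₁ : G → ℂ) ρ = -δ₂ * (χ₂ : G → ℂ) ρ - δ₃ * (χ₃ : G → ℂ) ρ ∧ 1 + δ₁ * (χ₁ : G → ℂ) ρ = δ₁ * (χ' j : G → ℂ) ρ := by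
  classical
  haveI : Finite (IrrCharacter G) := Cfsg.Agent.H80.irr_finite G
  letI : Fintype ↥(principalBlock M G) := Fintype.ofFinite _
  obtain ⟨τ, X, a, h, hX, hLat, hW, hInv⟩ := setup hHyp M hM n hn P hP σ hσ hσo ζ hζ
  have hmpos : 0 < 2 ^ (n - 1) := by positivity
  have hhpos : 0 < 2 ^ (n - 2) := by positivity
  have hmh : 2 ^ (n - 1) = 2 * 2 ^ (n - 2) := hLat.hm
  have hh2 : 2 ≤ 2 ^ (n - 2) := hLat.hh
  have hhm : 2 ^ (n - 2) < 2 ^ (n - 1) := by omega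
  set i₀ : ↥(principalBlock M G) :=
    ⟨Cfsg.Agent.H80.trivChar G, Cfsg.Agent.H80.trivChar_mem_principalBlock hM.2.1.isPrime⟩
    with hi₀
  set u : ↥(principalBlock M G) → ℕ → ℤ := fun i k => (a i k : ℤ) - (a i 0 : ℤ) with hu
  obtain ⟨hgen, hsym⟩ := hA _ _ _ u i₀ hLat
  obtain ⟨i₁', δ₁', j', hcom⟩ := hC _ _ _ u i₀ hLat hgen hsym
  obtain ⟨i₁, i₂, i₃, j, δ₁, ε₂, ε₃, hδ₁, hε₂, hε₃, hjinj, h10, h20, h30, h12, h13, h23, hjne,
    hfin⟩ := hD _ _ _ u i₀ hLat hsym i₁' δ₁' j' hcom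
  have hfour := fun (i : ↥(principalBlock M G)) (l : ℕ) (hl : 0 < l) (hlm : l < 2 ^ (n - 1)) =>
    hF (2 ^ (n - 1)) (2 ^ (n - 2)) ζ hmh hh2 hζ (u i) (sub_self _) l hl hlm
  -- the values
  have hv1 : ∀ l, 0 < l → l < 2 ^ (n - 1) → (i₁.1 : G → ℂ) (σ ^ l) = (δ₁ : ℂ) := by
    intro l hl hlm
    rw [hW i₁ l hl hlm]
    exact (hfour i₁ l hl hlm).1 δ₁ (fun k hk hkm => (hfin k hk hkm).1)
  have hv2 : ∀ l, 0 < l → l < 2 ^ (n - 1) →
      (i₂.1 : G → ℂ) (σ ^ l) = -(ε₂ : ℂ) * (-1) ^ (l + 1) := by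
    intro l hl hlm
    rw [hW i₂ l hl hlm]
    exact (hfour i₂ l hl hlm).2.1 ε₂ (fun k hk hkm => (hfin k hk hkm).2.1)
  have hv3 : ∀ l, 0 < l → l < 2 ^ (n - 1) →
      (i₃.1 : G → ℂ) (σ ^ l) = -(ε₃ : ℂ) * (-1) ^ (l + 1) := by
    intro l hl hlm
    rw [hW i₃ l hl hlm]
    exact (hfour i₃ l hl hlm).2.1 ε₃ (fun k hk hkm => (hfin k hk hkm).2.2.1)
  have hvj : ∀ (t : Fin (2 ^ (n - 2) - 1)) (l : ℕ), 0 < l → l < 2 ^ (n - 1) →
      ((j t).1 : G → ℂ) (σ ^ l) =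
        (δ₁ : ℂ) * (ζ ^ (((t : ℕ) + 1) * l) + (ζ ^ (((t : ℕ) + 1) * l))⁻¹) := by
    intro t l hl hlm
    rw [hW (j t) l hl hlm]
    exact (hfour (j t) l hl hlm).2.2.1 δ₁ t (by have := t.2; omega)
      (fun k hk hkm => (hfin k hk hkm).2.2.2.1 t)
  -- no other characters
  have hall : ∀ i : ↥(principalBlock M G), i = i₀ ∨ i = i₁ ∨ i = i₂ ∨ i = i₃ ∨ ∃ t, i = j t := by
    intro i
    by_contra hcon
    push Not at hcon
    obtain ⟨c0, c1, c2, c3, cj⟩ := hcon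
    have hz : (i.1 : G → ℂ) (σ ^ (2 ^ (n - 2))) = 0 := by
      rw [hW i (2 ^ (n - 2)) hhpos hhm]
      exact (hfour i (2 ^ (n - 2)) hhpos hhm).2.2.2
        (fun k hk hkm => (hfin k hk hkm).2.2.2.2 i c0 c1 c2 c3 cj)
    exact hNZ n P σ τ h M hM i.1 i.2 hz
  -- the relations on elements of odd order
  have hconv : ∀ f : IrrCharacter G → ℂ,
      ∑ᶠ χ ∈ principalBlock M G, f χ = ∑ i : ↥(principalBlock M G), f i.1 := by
    intro f
    rw [← finsum_set_coe_eq_finsum_mem, finsum_eq_sum_of_fintype]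
  have hrel : ∀ ρ : G, Odd (orderOf ρ) → ∀ k, 0 < k → k < 2 ^ (n - 1) →
      -1 + (((u i₁ k : ℤ) : ℂ) * (i₁.1 : G → ℂ) ρ + (((u i₂ k : ℤ) : ℂ) * (i₂.1 : G → ℂ) ρ +
        (((u i₃ k : ℤ) : ℂ) * (i₃.1 : G → ℂ) ρ +
          ∑ t, ((u (j t) k : ℤ) : ℂ) * ((j t).1 : G → ℂ) ρ))) = 0 := by
    intro ρ hρ k hk hkm
    have h1 := hR (2 ^ (n - 1)) ζ hmpos hζ a (fun i l => (i.1 : G → ℂ) (σ ^ l))
      (fun i => (i.1 : G → ℂ) ρ) hInv (fun l hl hlm => by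
        have h2 := hCols n P σ τ X h hX M hM ρ hρ l hl hlm
        rw [hconv (fun χ => (χ : G → ℂ) ρ * (χ : G → ℂ) (σ ^ l))] at h2
        exact h2) k hk hkm
    have h3 := sum_decomp i₀ i₁ i₂ i₃ j hjinj h10 h20 h30 h12 h13 h23 hjne hall
      (fun i => ((u i k : ℤ) : ℂ) * (i.1 : G → ℂ) ρ)
    rw [← h1, h3]
    have h4 : ((u i₀ k : ℤ) : ℂ) * (i₀.1 : G → ℂ) ρ = -1 := by
      rw [hLat.hu0 k hk hkm]
      show ((-1 : ℤ) : ℂ) * 1 = -1
      push_cast; ring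
    rw [h4]
  refine ⟨?_, i₁.1, i₂.1, i₃.1, fun t => (j t).1, δ₁, -ε₂, -ε₃, hδ₁, ?_, ?_, ?_, ?_, ?_, ?_, ?_,
    ?_, ?_, ?_, ?_, ?_, ?_⟩
  · -- cardinality
    rw [Nat.card_eq_fintype_card,
      card_decomp i₀ i₁ i₂ i₃ j hjinj h10 h20 h30 h12 h13 h23 hjne hall]
    generalize 2 ^ (n - 2) = H at hh2
    omega
  · rcases hε₂ with rfl | rfl
    · right; rfl
    · left; rfl
  · rcases hε₃ with rfl | rfl
    · right; rfl
    · left; rfl
  · intro t t' htt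
    exact hjinj (Subtype.ext htt)
  · intro hc
    exact h10 (Subtype.ext (Subtype.ext hc))
  · intro hc
    exact h20 (Subtype.ext (Subtype.ext hc))
  · intro hc
    exact h30 (Subtype.ext (Subtype.ext hc))
  · intro hc
    exact h12 (Subtype.ext hc)
  · intro hc
    exact h13 (Subtype.ext hc)
  · intro hc
    exact h23 (Subtype.ext hc)
  · intro t
    refine ⟨fun hc => (hjne t).2.1 (Subtype.ext hc), fun hc => (hjne t).2.2.1 (Subtype.ext hc),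
      fun hc => (hjne t).2.2.2 (Subtype.ext hc), fun hc => (hjne t).1 (Subtype.ext (Subtype.ext hc))⟩
  · -- the block as a set
    ext χ
    constructor
    · intro hχ
      rcases hall ⟨χ, hχ⟩ with hc | hc | hc | hc | ⟨t, hc⟩
      · left
        have : χ = Cfsg.Agent.H80.trivChar G := congrArg Subtype.val hc
        rw [this]; rfl
      · right; left; exact congrArg Subtype.val hc
      · right; right; left; exact congrArg Subtype.val hc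
      · right; right; right; left; exact congrArg Subtype.val hc
      · right; right; right; right; exact ⟨t, congrArg Subtype.val hc⟩
    · rintro (hc | hc | hc | hc | ⟨t, hc⟩)
      · have : χ = Cfsg.Agent.H80.trivChar G := Subtype.ext hc
        rw [this]; exact i₀.2
      · rw [hc]; exact i₁.2
      · rw [hc]; exact i₂.2
      · rw [hc]; exact i₃.2
      · rw [hc]; exact (j t).2
  · -- the values
    intro l hl hlm
    refine ⟨hv1 l hl hlm, ?_, ?_, fun t => hvj t l hl hlm⟩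
    · rw [hv2 l hl hlm]; push_cast; ring
    · rw [hv3 l hl hlm]; push_cast; ring
  · -- the relations
    intro ρ hρ t
    have ht : (t : ℕ) + 1 < 2 ^ (n - 2) := by have := t.2; omega
    constructor
    · have h1 := hrel ρ hρ (2 ^ (n - 2)) hhpos hhm
      have e1 := (hfin (2 ^ (n - 2)) hhpos hhm).1
      have e2 := (hfin (2 ^ (n - 2)) hhpos hhm).2.1
      have e3 := (hfin (2 ^ (n - 2)) hhpos hhm).2.2.1
      have e4 : ∀ s : Fin (2 ^ (n - 2) - 1), u (j s) (2 ^ (n - 2)) = 0 := by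
        intro s
        rw [(hfin (2 ^ (n - 2)) hhpos hhm).2.2.2.1 s]
        have hs : (s : ℕ) + 1 < 2 ^ (n - 2) := by have := s.2; omega
        rw [if_neg]
        rintro (hc | hc) <;> omega
      rw [if_pos rfl] at e2 e3
      rw [e1, e2, e3, Finset.sum_eq_zero (fun s _ => by rw [e4 s]; push_cast; ring)] at h1
      push_cast at h1 ⊢
      linear_combination -h1
    · have hk0 : 0 < (t : ℕ) + 1 := Nat.succ_pos _
      have hkm : (t : ℕ) + 1 < 2 ^ (n - 1) := by omega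
      have h1 := hrel ρ hρ ((t : ℕ) + 1) hk0 hkm
      have e1 := (hfin ((t : ℕ) + 1) hk0 hkm).1
      have e2 := (hfin ((t : ℕ) + 1) hk0 hkm).2.1
      have e3 := (hfin ((t : ℕ) + 1) hk0 hkm).2.2.1
      have e4 : ∀ s : Fin (2 ^ (n - 2) - 1),
          u (j s) ((t : ℕ) + 1) = if s = t then δ₁ else 0 := by
        intro s
        rw [(hfin ((t : ℕ) + 1) hk0 hkm).2.2.2.1 s]
        have hs : (s : ℕ) + 1 < 2 ^ (n - 2) := by have := s.2; omega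
        by_cases hst : s = t
        · rw [if_pos hst, if_pos (Or.inl (by rw [hst]))]
        · rw [if_neg hst, if_neg]
          rintro (hc | hc)
          · exact hst (Fin.ext (by omega))
          · omega
      rw [if_neg (by omega)] at e2 e3
      have e5 : ∑ s, ((u (j s) ((t : ℕ) + 1) : ℤ) : ℂ) * ((j s).1 : G → ℂ) ρ =
          (δ₁ : ℂ) * ((j t).1 : G → ℂ) ρ := by
        rw [Finset.sum_eq_single t]
        · rw [e4 t, if_pos rfl]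
        · intro s _ hst
          rw [e4 s, if_neg hst]; push_cast; ring
        · intro hc; exact absurd (Finset.mem_univ t) hc
      rw [e1, e2, e3, e5] at h1
      push_cast at h1 ⊢
      linear_combination -h1

end Cfsg.Agent.H81.DihB
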