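import Mathlib
import Cfsg.Prelude.Def_Blocks
import Cfsg.Agent.H16.GCMain
import Cfsg.Agent.H81.DadeWr

set_option autoImplicit false
set_option linter.unusedSectionVars false
set_option linter.style.haveILetI false

/-!
# Character lemmas for groups of central type, and induction from the kernel of a
semidirect product
-/

namespace Cfsg.Agent.H81.Gag

open Cfsg Cfsg.Agent.H4 Cfsg.Agent.H82 Cfsg.Agent.H16 Cfsg.Agent.H81.Dade
open scoped ComplexConjugate

universe u

section Cen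

variable {G : Type*} [Group G] [Finite G]

/-- An element on which `χ` has maximal absolute value lies in the centre of `χ`. -/
theorem mem_irrCen_of_normSq (χ : IrrCharacter G) {g : G}
    (h : Complex.normSq (χ.1 g) = Complex.normSq (χ.1 1)) : g ∈ irrCen χ := by
  obtain ⟨n, ρ, hirr, hχ, hn, h1, -⟩ := irr_rep χ
  have hnorm : ‖ρ.character g‖ = (Module.finrank ℂ (Fin n → ℂ) : ℝ) := by
    rw [hχ]
    have h2 : ‖χ.1 g‖ ^ 2 = (n : ℝ) ^ 2 := by
      rw [← Complex.normSq_eq_norm_sq, h, h1, Complex.normSq_natCast]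
      ring
    have h3 : ‖χ.1 g‖ = (n : ℝ) := by
      have hnn : (0 : ℝ) ≤ n := Nat.cast_nonneg n
      nlinarith [norm_nonneg (χ.1 g), sq_nonneg (‖χ.1 g‖ - n), sq_nonneg (‖χ.1 g‖ + n)]
    rw [h3]
    simp
  obtain ⟨ω, hω⟩ := (character_norm_eq_iff ρ g).mp hnorm
  rw [mem_irrCen]
  intro a
  rw [mem_irrKer_iff_rep χ ρ hχ]
  have hcomm : ρ g * ρ a = ρ a * ρ g := by
    rw [hω]
    ext v
    simp
  have h4 : ρ (g * a * g⁻¹ * a⁻¹) = ρ (a * g * g⁻¹ * a⁻¹) := by
    rw [map_mul, map_mul, map_mul, hcomm, ← map_mul, ← map_mul, ← map_mul]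
  rw [h4]
  have : a * g * g⁻¹ * a⁻¹ = 1 := by group
  rw [this, map_one]

/-- If `χ(1)² = [G : Z(χ)]` then `χ` vanishes off `Z(χ)`. -/
theorem vanish_off_irrCen_of_sq_eq (χ : IrrCharacter G)
    (h : charDegree χ.1 ^ 2 = (irrCen χ).index) {g : G} (hg : g ∉ irrCen χ) : χ.1 g = 0 := by
  classical
  have hFG : Fintype G := Fintype.ofFinite G
  have hsum := irr_norm_sq χ
  have hreal : ∑ g : G, Complex.normSq (χ.1 g) = (Nat.card G : ℝ) := by
    have h1 : ((∑ g : G, Complex.normSq (χ.1 g) : ℝ) : ℂ) = (Nat.card G : ℂ) := by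
      rw [← hsum]
      push_cast
      refine Finset.sum_congr rfl fun g _ => ?_
      rw [Complex.mul_conj]
    exact_mod_cast h1
  have hval : ∀ z ∈ Finset.univ.filter (· ∈ irrCen χ),
      Complex.normSq (χ.1 z) = (charDegree χ.1 : ℝ) ^ 2 := by
    intro z hz
    have hzc : z ∈ irrCen χ := by simpa using hz
    have h1 := irrCen_norm_sq χ hzc
    rw [Complex.mul_conj] at h1
    exact_mod_cast h1
  have hcard : (Finset.univ.filter (· ∈ irrCen χ)).card = Nat.card (irrCen χ) := by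
    rw [Nat.card_eq_fintype_card, Fintype.card_subtype]
  have hin : ∑ g ∈ Finset.univ.filter (· ∈ irrCen χ), Complex.normSq (χ.1 g) =
      (Nat.card G : ℝ) := by
    rw [Finset.sum_congr rfl hval, Finset.sum_const, nsmul_eq_mul, hcard]
    have h2 : Nat.card (irrCen χ) * charDegree χ.1 ^ 2 = Nat.card G := by
      rw [h, Subgroup.card_mul_index]
    exact_mod_cast h2
  have hsplit := Finset.sum_filter_add_sum_filter_not Finset.univ (· ∈ irrCen χ)
    (fun g => Complex.normSq (χ.1 g))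
  rw [hreal, hin] at hsplit
  have hout : ∑ g ∈ Finset.univ.filter (fun g => ¬ g ∈ irrCen χ), Complex.normSq (χ.1 g) = 0 := by
    linarith
  have h0 := (Finset.sum_eq_zero_iff_of_nonneg (fun g _ => Complex.normSq_nonneg (χ.1 g))).mp hout
    g (by simpa using hg)
  exact Complex.normSq_eq_zero.mp h0

theorem irrKer_eq_bot_of_faithful (χ : IrrCharacter G)
    (hf : ∀ h : G, χ.1 h = χ.1 1 → h = 1) : irrKer χ = ⊥ := by
  ext g
  rw [mem_irrKer, Subgroup.mem_bot]
  exact ⟨hf g, fun h => by rw [h]⟩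

theorem irrCen_eq_center_of_faithful (χ : IrrCharacter G)
    (hf : ∀ h : G, χ.1 h = χ.1 1 → h = 1) : irrCen χ = Subgroup.center G := by
  ext z
  rw [mem_irrCen, Subgroup.mem_center_iff]
  simp only [irrKer_eq_bot_of_faithful χ hf, Subgroup.mem_bot]
  constructor
  · intro h g
    have := h g
    rw [mul_inv_eq_one, mul_inv_eq_iff_eq_mul] at this
    exact this.symm
  · intro h g
    rw [mul_inv_eq_one, mul_inv_eq_iff_eq_mul]
    exact (h g).symm

end Cen

section Sdp

variable {N Q : Type u} [Group N] [Group Q]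

noncomputable instance sdpFintype [Fintype N] [Fintype Q] (φ : Q →* MulAut N) :
    Fintype (N ⋊[φ] Q) :=
  Fintype.ofEquiv _ SemidirectProduct.equivProd.symm

theorem sum_sdp [Fintype N] [Fintype Q] (φ : Q →* MulAut N) (F : N ⋊[φ] Q → ℂ) :
    ∑ x : N ⋊[φ] Q, F x = ∑ b : N, ∑ q : Q, F ⟨b, q⟩ := by
  rw [← Fintype.sum_prod_type']
  exact Fintype.sum_equiv SemidirectProduct.equivProd _ _ (fun x => rfl)

theorem conj_inl_gen (φ : Q →* MulAut N) (b : N) (q : Q) (n : N) :
    (⟨b, q⟩ : N ⋊[φ] Q)⁻¹ * SemidirectProduct.inl n * ⟨b, q⟩ =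
      SemidirectProduct.inl (φ q⁻¹ (b⁻¹ * n * b)) := by
  apply SemidirectProduct.ext
  · simp [map_mul]
  · simp

theorem not_mem_range_inl_gen (φ : Q →* MulAut N) {w : N ⋊[φ] Q} (hw : w.right ≠ 1)
    (x : N ⋊[φ] Q) :
    x⁻¹ * w * x ∉ (SemidirectProduct.inl : N →* N ⋊[φ] Q).range := by
  rintro ⟨f, hf⟩
  have h := congrArg SemidirectProduct.right hf
  simp only [SemidirectProduct.right_inl, SemidirectProduct.mul_right,
    SemidirectProduct.inv_right] at h
  apply hw
  have h2 : w.right = x.right * 1 * x.right⁻¹ := by rw [h]; group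
  simpa using h2

/-- Restriction to the kernel of a function induced from the kernel. -/
theorem ind_inl_inl_gen [Fintype N] [Fintype Q] (φ : Q →* MulAut N) (ψ : N → ℂ)
    (hψ : IsClassFunction N ψ) (n : N) :
    ind (SemidirectProduct.inl : N →* N ⋊[φ] Q) ψ (SemidirectProduct.inl n) =
      ∑ q : Q, ψ (φ q n) := by
  have hN : (Nat.card N : ℂ) ≠ 0 := (neZero_card_complex N).out
  rw [ind_apply, sum_sdp]
  have h1 : ∀ (b : N) (q : Q),
      ext (SemidirectProduct.inl : N →* N ⋊[φ] Q) ψ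
        ((⟨b, q⟩ : N ⋊[φ] Q)⁻¹ * SemidirectProduct.inl n * ⟨b, q⟩) = ψ (φ q⁻¹ n) := by
    intro b q
    rw [conj_inl_gen, ext_apply SemidirectProduct.inl_injective, map_mul, map_mul, map_inv]
    have := hψ (φ q⁻¹ n) ((φ q⁻¹ b)⁻¹)
    rwa [inv_inv] at this
  simp only [h1]
  rw [Finset.sum_const, Finset.card_univ, nsmul_eq_mul, ← Nat.card_eq_fintype_card, ← mul_assoc,
    inv_mul_cancel₀ hN, one_mul]
  exact Fintype.sum_equiv (Equiv.inv Q) _ _ (fun q => rfl)

/-- A function induced from the kernel vanishes off the kernel. -/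
theorem ind_inl_of_right_ne_one [Fintype N] [Fintype Q] (φ : Q →* MulAut N) (ψ : N → ℂ)
    {w : N ⋊[φ] Q} (hw : w.right ≠ 1) :
    ind (SemidirectProduct.inl : N →* N ⋊[φ] Q) ψ w = 0 := by
  rw [ind_apply]
  have : ∀ x : N ⋊[φ] Q, ext (SemidirectProduct.inl : N →* N ⋊[φ] Q) ψ (x⁻¹ * w * x) = 0 :=
    fun x => ext_of_not_mem _ _ (not_mem_range_inl_gen φ hw x)
  simp only [this, Finset.sum_const_zero, mul_zero]

/-- The norm of a function induced from the kernel. -/
theorem classInner_ind_inl [Fintype N] [Fintype Q] (φ : Q →* MulAut N) (ψ : N → ℂ)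
    (hψ : IsClassFunction N ψ) :
    classInner (ind (SemidirectProduct.inl : N →* N ⋊[φ] Q) ψ)
      (ind (SemidirectProduct.inl : N →* N ⋊[φ] Q) ψ) =
      ∑ q : Q, classInner ψ (fun n => ψ (φ q n)) := by
  rw [classInner_ind SemidirectProduct.inl_injective _ _
    (ind_isClassFunction SemidirectProduct.inl_injective _)]
  have h1 : (fun n : N => ind (SemidirectProduct.inl : N →* N ⋊[φ] Q) ψ
      (SemidirectProduct.inl n)) = ∑ q : Q, (fun n => ψ (φ q n)) := by
    funext n
    rw [ind_inl_inl_gen φ ψ hψ, Finset.sum_apply]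
  rw [h1, classInner_sum_right]

end Sdp

end Cfsg.Agent.H81.Gag
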