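import Mathlib
import Cfsg.Prelude.Def_Blocks
import Cfsg.Agent.H81.GagChar
import Cfsg.Agent.H81.DadeMain
import Cfsg.Agent.H80.DualSum

set_option autoImplicit false
set_option linter.unusedSectionVars false
set_option linter.style.haveILetI false

/-!
# Gagola's theorem: every finite solvable group embeds in `H/Z(H)` for a group `H` of central
type
-/

namespace Cfsg.Agent.H81.Gag

open Cfsg Cfsg.Agent.H4 Cfsg.Agent.H82 Cfsg.Agent.H16 Cfsg.Agent.H81.Dade
open scoped ComplexConjugate

universe u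

section Build

variable (Q : Type u) [Group Q]

/-- The roots of unity of order `#Q`. -/
abbrev UU := ↥(rootsOfUnity (Nat.card Q) ℂ)

noncomputable instance uuFintype [Finite Q] : Fintype (UU Q) := Fintype.ofFinite _

variable {Q}

/-- The pairing of the dual of `Q` with `Q`, with values in the roots of unity. -/
def pair [Finite Q] (ν : Q →* ℂˣ) (q : Q) : UU Q :=
  ⟨ν q, by rw [mem_rootsOfUnity, ← map_pow, pow_card_eq_one', map_one]⟩

theorem pair_coe [Finite Q] (ν : Q →* ℂˣ) (q : Q) : ((pair ν q : UU Q) : ℂˣ) = ν q := rfl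

theorem pair_mul_right [Finite Q] (ν : Q →* ℂˣ) (q q' : Q) :
    pair ν (q * q') = pair ν q * pair ν q' := by
  apply Subtype.ext
  simp [pair_coe]

theorem pair_mul_left [Finite Q] (ν ν' : Q →* ℂˣ) (q : Q) :
    pair (ν * ν') q = pair ν q * pair ν' q := by
  apply Subtype.ext
  simp [pair_coe]

theorem pair_one_right [Finite Q] (ν : Q →* ℂˣ) : pair ν (1 : Q) = 1 := by
  apply Subtype.ext
  simp [pair_coe]

theorem pair_one_left [Finite Q] (q : Q) : pair (1 : Q →* ℂˣ) q = 1 := by
  apply Subtype.ext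
  simp [pair_coe]

/-- The shear automorphism of `U × D`. -/
noncomputable def shear [Finite Q] (q : Q) : (UU Q × (Q →* ℂˣ)) ≃* (UU Q × (Q →* ℂˣ)) where
  toFun a := (a.1 * pair a.2 q, a.2)
  invFun a := (a.1 * (pair a.2 q)⁻¹, a.2)
  left_inv a := by simp
  right_inv a := by simp
  map_mul' a b := by
    apply Prod.ext
    · simp only [Prod.fst_mul, Prod.snd_mul, pair_mul_left]
      exact mul_mul_mul_comm _ _ _ _
    · rfl

theorem shear_apply [Finite Q] (q : Q) (a : UU Q × (Q →* ℂˣ)) :
    shear q a = (a.1 * pair a.2 q, a.2) := rfl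

variable (H : Type u) [Group H]

/-- The base group `(Q → H) × (U × D)`. -/
abbrev NB (Q H : Type u) [Group Q] [Group H] := (Q → H) × (UU Q × (Q →* ℂˣ))

/-- The action of `q` on the base group: shift on the first factor, shear on the second. -/
noncomputable def PhiEquiv [Finite Q] (q : Q) : NB Q H ≃* NB Q H where
  toFun n := (shift H q n.1, shear q n.2)
  invFun n := ((shift H q).symm n.1, (shear q).symm n.2)
  left_inv n := by simp
  right_inv n := by simp
  map_mul' a b := by
    apply Prod.ext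
    · simp
    · simp

/-- The action of `Q` on the base group. -/
noncomputable def Phi [Finite Q] : Q →* MulAut (NB Q H) where
  toFun q := PhiEquiv H q
  map_one' := by
    apply MulEquiv.ext
    intro n
    apply Prod.ext
    · funext x
      change n.1 (x * 1) = n.1 x
      rw [mul_one]
    · change (n.2.1 * pair n.2.2 1, n.2.2) = n.2
      rw [pair_one_right, mul_one]
  map_mul' q q' := by
    apply MulEquiv.ext
    intro n
    apply Prod.ext
    · funext x
      change n.1 (x * (q * q')) = n.1 (x * q * q')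
      rw [mul_assoc]
    · change (n.2.1 * pair n.2.2 (q * q'), n.2.2) =
        (n.2.1 * pair n.2.2 q' * pair n.2.2 q, n.2.2)
      rw [pair_mul_right, mul_assoc, mul_comm (pair n.2.2 q)]

variable {H}

theorem Phi_apply [Finite Q] (q : Q) (n : NB Q H) :
    Phi H q n = (shift H q n.1, (n.2.1 * pair n.2.2 q, n.2.2)) := rfl

/-- The big group. -/
abbrev XX (Q H : Type u) [Group Q] [Group H] [Finite Q] := NB Q H ⋊[Phi (Q := Q) H] Q

variable [Fintype Q] [DecidableEq Q] [Fintype H]

/-- The character of the base group. -/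
noncomputable def Th (χ : IrrCharacter H) : NB Q H → ℂ :=
  fun n => tens (fun _ : Q => χ.1) n.1 * (((n.2.1 : UU Q) : ℂˣ) : ℂ)

theorem Th_apply (χ : IrrCharacter H) (n : NB Q H) :
    Th χ n = tens (fun _ : Q => χ.1) n.1 * (((n.2.1 : UU Q) : ℂˣ) : ℂ) := rfl

theorem isCharacter_Th [Fintype (Q →* ℂˣ)] (χ : IrrCharacter H) :
    IsCharacter (NB Q H) (Th (Q := Q) χ) := by
  have h0 : IsCharacter (Q → H) (tens (fun _ : Q => χ.1)) :=
    isCharacter_tens (fun _ : Q => χ.1) (fun _ => isCharacter_of_isIrrCharacter χ.2)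
  have h1 := isCharacter_comp (K := NB Q H) (MonoidHom.fst (Q → H) (UU Q × (Q →* ℂˣ))) h0
  have h2 := isCharacter_of_hom (G := NB Q H) (((rootsOfUnity (Nat.card Q) ℂ).subtype).comp
    ((MonoidHom.fst (UU Q) (Q →* ℂˣ)).comp (MonoidHom.snd (Q → H) (UU Q × (Q →* ℂˣ)))))
  exact isCharacter_mul h1 h2

theorem Th_Phi (χ : IrrCharacter H) (q : Q) (n : NB Q H) :
    Th χ (Phi H q n) = Th χ n * ((n.2.2 q : ℂˣ) : ℂ) := by
  rw [Th_apply, Th_apply, Phi_apply]
  simp only
  rw [tens_shift, Subgroup.coe_mul, Units.val_mul, pair_coe]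
  ring

theorem normSq_uu (u : UU Q) : Complex.normSq (((u : UU Q) : ℂˣ) : ℂ) = 1 := by
  rw [Complex.normSq_eq_norm_sq, Complex.norm_eq_one_of_mem_rootsOfUnity u.2]
  simp

/-- Sums over the dual group. -/
theorem sum_dual (hcomm : ∀ a b : Q, a * b = b * a) [Fintype (Q →* ℂˣ)] (q : Q) :
    ∑ ν : Q →* ℂˣ, ((ν q : ℂˣ) : ℂ) = if q = 1 then (Fintype.card (Q →* ℂˣ) : ℂ) else 0 := by
  classical
  split_ifs with hq
  · subst hq
    simp
  · have h := Cfsg.Agent.H32.sum_dual_eq_zero hcomm (⊥ : Subgroup Q) (x := q)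
      (by rwa [Subgroup.mem_bot])
    rw [Finset.filter_true_of_mem] at h
    · exact h
    · intro φ _ y hy
      rw [Subgroup.mem_bot] at hy
      rw [hy, map_one]

theorem sum_hom (ν : Q →* ℂˣ) [DecidableEq (Q →* ℂˣ)] :
    ∑ q : Q, ((ν q : ℂˣ) : ℂ) = if ν = 1 then (Fintype.card Q : ℂ) else 0 := by
  split_ifs with h
  · subst h
    simp
  · exact Cfsg.Agent.H80.sum_apply_hom_eq_zero ν h

/-- The norm of the big character is one. -/
theorem classInner_chiBig (hcomm : ∀ a b : Q, a * b = b * a) [Fintype (Q →* ℂˣ)]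
    (χ : IrrCharacter H) :
    classInner (ind (SemidirectProduct.inl : NB Q H →* XX Q H) (Th χ))
      (ind (SemidirectProduct.inl : NB Q H →* XX Q H) (Th χ)) = 1 := by
  classical
  have hcl : IsClassFunction (NB Q H) (Th (Q := Q) χ) :=
    isClassFunction_of_isCharacter (isCharacter_Th χ)
  rw [classInner_ind_inl _ _ hcl]
  have hten : ∑ x : Q → H, tens (fun _ : Q => χ.1) x * conj (tens (fun _ : Q => χ.1) x) =
      (Nat.card (Q → H) : ℂ) := by
    have h1 := classInner_tensIrr (fun _ : Q => χ) (fun _ : Q => χ)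
    rw [if_pos rfl] at h1
    unfold classInner at h1
    have hN : (Nat.card (Q → H) : ℂ) ≠ 0 := (neZero_card_complex (Q → H)).out
    have h2 := congrArg (fun z => (Nat.card (Q → H) : ℂ) * z) h1
    simp only [← mul_assoc, mul_inv_cancel₀ hN, one_mul, mul_one] at h2
    exact h2
  have hterm : ∀ q : Q, classInner (Th (Q := Q) χ) (fun n => Th χ (Phi H q n)) =
      if q = 1 then 1 else 0 := by
    intro q
    unfold classInner
    have h1 : ∑ n : NB Q H, Th χ n * conj (Th χ (Phi H q n)) =
        (∑ x : Q → H, tens (fun _ : Q => χ.1) x * conj (tens (fun _ : Q => χ.1) x)) *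
          ((∑ u : UU Q, (1 : ℂ)) * ∑ ν : Q →* ℂˣ, conj ((ν q : ℂˣ) : ℂ)) := by
      rw [Fintype.sum_prod_type, Finset.sum_mul]
      refine Finset.sum_congr rfl fun x _ => ?_
      rw [Fintype.sum_prod_type, Finset.sum_mul, Finset.mul_sum]
      refine Finset.sum_congr rfl fun u _ => ?_
      rw [Finset.mul_sum, Finset.mul_sum]
      refine Finset.sum_congr rfl fun ν _ => ?_
      rw [Th_Phi, Th_apply]
      simp only [map_mul]
      have hu : (((u : UU Q) : ℂˣ) : ℂ) * conj (((u : UU Q) : ℂˣ) : ℂ) = 1 := by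
        rw [Complex.mul_conj, normSq_uu]
        simp
      linear_combination (tens (fun _ : Q => χ.1) x * conj (tens (fun _ : Q => χ.1) x) *
        conj ((ν q : ℂˣ) : ℂ)) * hu
    have h2 : ∑ ν : Q →* ℂˣ, conj ((ν q : ℂˣ) : ℂ) =
        if q = 1 then (Fintype.card (Q →* ℂˣ) : ℂ) else 0 := by
      rw [← map_sum, sum_dual hcomm]
      split_ifs <;> simp
    rw [h1, hten, h2]
    have hN : (Nat.card (NB Q H) : ℂ) =
        (Nat.card (Q → H) : ℂ) * ((Fintype.card (UU Q) : ℂ) * (Fintype.card (Q →* ℂˣ) : ℂ)) := by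
      rw [Nat.card_prod, Nat.card_prod, Nat.card_eq_fintype_card (α := UU Q),
        Nat.card_eq_fintype_card (α := (Q →* ℂˣ))]
      push_cast
      ring
    have h0 : (Nat.card (NB Q H) : ℂ) ≠ 0 := (neZero_card_complex _).out
    split_ifs with hq
    · rw [Finset.sum_const, Finset.card_univ, nsmul_eq_mul, mul_one, ← hN]
      exact inv_mul_cancel₀ h0
    · simp
  simp only [hterm]
  rw [Finset.sum_ite_eq' Finset.univ 1 (fun _ => (1 : ℂ)), if_pos (Finset.mem_univ _)]

/-- The big character. -/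
noncomputable def chiBig (hcomm : ∀ a b : Q, a * b = b * a) [Fintype (Q →* ℂˣ)]
    (χ : IrrCharacter H) : IrrCharacter (XX Q H) :=
  ⟨ind (SemidirectProduct.inl : NB Q H →* XX Q H) (Th χ),
    isIrrCharacter_of_norm_one
      (isCharacter_ind SemidirectProduct.inl_injective (isCharacter_Th χ))
      (classInner_chiBig hcomm χ)⟩

theorem chiBig_inl (hcomm : ∀ a b : Q, a * b = b * a) [Fintype (Q →* ℂˣ)]
    [DecidableEq (Q →* ℂˣ)] (χ : IrrCharacter H) (n : NB Q H) :
    (chiBig hcomm χ).1 (SemidirectProduct.inl n) =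
      if n.2.2 = 1 then Th χ n * (Fintype.card Q : ℂ) else 0 := by
  have hcl : IsClassFunction (NB Q H) (Th (Q := Q) χ) :=
    isClassFunction_of_isCharacter (isCharacter_Th χ)
  change ind (SemidirectProduct.inl : NB Q H →* XX Q H) (Th χ) (SemidirectProduct.inl n) = _
  rw [ind_inl_inl_gen _ _ hcl]
  simp only [Th_Phi]
  rw [← Finset.mul_sum, sum_hom]
  split_ifs <;> simp

theorem chiBig_of_right_ne_one (hcomm : ∀ a b : Q, a * b = b * a) [Fintype (Q →* ℂˣ)]
    (χ : IrrCharacter H) {w : XX Q H} (hw : w.right ≠ 1) : (chiBig hcomm χ).1 w = 0 :=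
  ind_inl_of_right_ne_one _ _ hw

end Build

section Center

variable {Q : Type u} [Group Q] [Fintype Q] [DecidableEq Q] {H : Type u} [Group H] [Fintype H]
  (hcomm : ∀ a b : Q, a * b = b * a) [Fintype (Q →* ℂˣ)] [DecidableEq (Q →* ℂˣ)]
  (χ : IrrCharacter H) (hf : ∀ h : H, χ.1 h = χ.1 1 → h = 1)
  (hsq : charDegree χ.1 ^ 2 = (Subgroup.center H).index)

include hf in
theorem chi_center {z : H} (hz : z ∈ Subgroup.center H) :
    Complex.normSq (χ.1 z) = Complex.normSq (χ.1 1) := by
  rw [← irrCen_eq_center_of_faithful χ hf] at hz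
  have h1 := irrCen_norm_sq χ hz
  rw [Complex.mul_conj] at h1
  rw [irr_one_eq_charDegree, Complex.normSq_natCast]
  have h2 : ((Complex.normSq (χ.1 z) : ℝ) : ℂ) = (((charDegree χ.1 : ℝ) * (charDegree χ.1 : ℝ) : ℝ) : ℂ) := by
    rw [h1]; push_cast; ring
  exact_mod_cast h2

include hf hsq in
theorem chi_off_center {h : H} (hh : h ∉ Subgroup.center H) : χ.1 h = 0 := by
  apply vanish_off_irrCen_of_sq_eq χ
  · rw [irrCen_eq_center_of_faithful χ hf]; exact hsq
  · rw [irrCen_eq_center_of_faithful χ hf]; exact hh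

theorem inl_left_of_right {w : XX Q H} (hw : w.right = 1) :
    w = SemidirectProduct.inl w.left := by
  apply SemidirectProduct.ext
  · simp
  · simp [hw]

include hf in
theorem normSq_chiBig_inl (n : NB Q H) (hν : n.2.2 = 1)
    (hc : ∀ q, n.1 q ∈ Subgroup.center H) :
    Complex.normSq ((chiBig hcomm χ).1 (SemidirectProduct.inl n)) =
      Complex.normSq (χ.1 1) ^ Fintype.card Q * (Fintype.card Q : ℝ) ^ 2 := by
  rw [chiBig_inl, if_pos hν, Th_apply, map_mul, map_mul, normSq_uu, mul_one,
    Complex.normSq_natCast, tens_apply, map_prod]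
  rw [Finset.prod_congr rfl (fun q _ => chi_center χ hf (hc q)), Finset.prod_const,
    Finset.card_univ]
  ring

include hf hsq in
/-- The centre of the big character. -/
theorem mem_irrCen_chiBig (w : XX Q H) :
    w ∈ irrCen (chiBig hcomm χ) ↔
      w.right = 1 ∧ w.left.2.2 = 1 ∧ ∀ q, w.left.1 q ∈ Subgroup.center H := by
  constructor
  · intro hw
    have hne : (chiBig hcomm χ).1 w ≠ 0 := by
      intro h0
      have h1 := irrCen_norm_sq (chiBig hcomm χ) hw
      rw [h0, zero_mul] at h1
      have hpos := charDegree_pos (chiBig hcomm χ)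
      have : ((charDegree (chiBig hcomm χ).1 : ℂ)) ^ 2 ≠ 0 := by
        apply pow_ne_zero
        exact_mod_cast hpos.ne'
      exact this h1.symm
    have hr : w.right = 1 := by
      by_contra hr
      exact hne (chiBig_of_right_ne_one hcomm χ hr)
    rw [inl_left_of_right hr, chiBig_inl] at hne
    have hν : w.left.2.2 = 1 := by
      by_contra hν
      rw [if_neg hν] at hne
      exact hne rfl
    refine ⟨hr, hν, fun q => ?_⟩
    rw [if_pos hν, Th_apply, tens_apply] at hne
    have h2 : ∏ q, χ.1 (w.left.1 q) ≠ 0 := by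
      intro h0
      rw [h0] at hne
      simp at hne
    have h3 := (Finset.prod_ne_zero_iff.mp h2) q (Finset.mem_univ q)
    by_contra hq
    exact h3 (chi_off_center χ hf hsq hq)
  · rintro ⟨hr, hν, hc⟩
    apply mem_irrCen_of_normSq
    rw [inl_left_of_right hr, normSq_chiBig_inl hcomm χ hf _ hν hc]
    have h1 : (1 : XX Q H) = SemidirectProduct.inl (1 : NB Q H) := by simp
    rw [h1, normSq_chiBig_inl hcomm χ hf _ rfl (fun q => Subgroup.one_mem _)]

include hf hsq in
theorem chiBig_vanish {w : XX Q H} (hw : w ∉ irrCen (chiBig hcomm χ)) :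
    (chiBig hcomm χ).1 w = 0 := by
  rw [mem_irrCen_chiBig hcomm χ hf hsq] at hw
  by_cases hr : w.right = 1
  · rw [inl_left_of_right hr, chiBig_inl]
    by_cases hν : w.left.2.2 = 1
    · rw [if_pos hν, Th_apply, tens_apply]
      have : ¬ ∀ q, w.left.1 q ∈ Subgroup.center H := fun h => hw ⟨hr, hν, h⟩
      push Not at this
      obtain ⟨q, hq⟩ := this
      rw [Finset.prod_eq_zero (Finset.mem_univ q) (chi_off_center χ hf hsq hq)]
      simp
    · rw [if_neg hν]
  · exact chiBig_of_right_ne_one hcomm χ hr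

include hf hsq in
theorem chiBig_sq : charDegree (chiBig hcomm χ).1 ^ 2 = (irrCen (chiBig hcomm χ)).index := by
  have h1 := irrCen_card_mul_sq_eq (chiBig hcomm χ)
    (fun g hg => chiBig_vanish hcomm χ hf hsq hg)
  rw [← Subgroup.card_mul_index (irrCen (chiBig hcomm χ))] at h1
  exact Nat.eq_of_mul_eq_mul_left Nat.card_pos h1

end Center

end Cfsg.Agent.H81.Gag
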