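import Mathlib
import Cfsg.Prelude.Def_Blocks
import Cfsg.Agent.H81.GagMain
import Cfsg.Agent.H1.Basic

set_option autoImplicit false
set_option linter.unusedSectionVars false
set_option linter.style.haveILetI false

/-!
# Gagola's theorem: the final group and the embedding
-/

namespace Cfsg.Agent.H81.Gag

open Cfsg Cfsg.Agent.H4 Cfsg.Agent.H82 Cfsg.Agent.H16 Cfsg.Agent.H81.Dade
open scoped ComplexConjugate

universe u

section Generic

theorem deflate_faithful {X : Type*} [Group X] [Finite X] (χb : IrrCharacter X)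
    (χ' : IrrCharacter (X ⧸ irrKer χb)) (h : inflate (irrKer χb) χ' = χb) :
    ∀ y : X ⧸ irrKer χb, χ'.1 y = χ'.1 1 → y = 1 := by
  intro y hy
  obtain ⟨w, rfl⟩ := QuotientGroup.mk_surjective y
  rw [QuotientGroup.eq_one_iff, mem_irrKer, ← h, inflate_apply, inflate_apply,
    QuotientGroup.mk_one]
  exact hy

theorem index_center_quot {X : Type*} [Group X] [Finite X] (χb : IrrCharacter X) :
    (Subgroup.center (X ⧸ irrKer χb)).index = (irrCen χb).index := by
  unfold irrCen
  rw [Subgroup.index_comap_of_surjective _ (QuotientGroup.mk'_surjective _)]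

theorem card_dvd_center_of_injective {A X : Type*} [Group A] [Group X] [Finite X] (f : A →* X)
    (hf : Function.Injective f) (hc : ∀ a, f a ∈ Subgroup.center X) :
    Nat.card A ∣ Nat.card (Subgroup.center X) := by
  rw [Nat.card_congr (MonoidHom.ofInjective hf).toEquiv]
  apply Subgroup.card_dvd_of_le
  rintro _ ⟨a, rfl⟩
  exact hc a

theorem squarefree_lcm_prime {a p : ℕ} (ha : Squarefree a) (hp : p.Prime) :
    Squarefree (Nat.lcm a p) := by
  by_cases h : p ∣ a
  · rw [Nat.lcm_eq_left h]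
    exact ha
  · have hc : Nat.Coprime a p := ((Nat.Prime.coprime_iff_not_dvd hp).mpr h).symm
    rw [hc.lcm_eq_mul]
    exact (Nat.squarefree_mul hc).mpr ⟨ha, hp.prime.squarefree⟩

end Generic

section Final

variable {Q : Type u} [Group Q] [Fintype Q] [DecidableEq Q] {H : Type u} [Group H] [Fintype H]
  (hcomm : ∀ a b : Q, a * b = b * a) [Fintype (Q →* ℂˣ)] [DecidableEq (Q →* ℂˣ)]
  (χ : IrrCharacter H) (hf : ∀ h : H, χ.1 h = χ.1 1 → h = 1)
  (hsq : charDegree χ.1 ^ 2 = (Subgroup.center H).index)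

/-- The final group. -/
abbrev Xb := XX Q H ⧸ irrKer (chiBig hcomm χ)

/-- The projection onto the central quotient of the final group. -/
noncomputable def proj : XX Q H →* Xb hcomm χ ⧸ Subgroup.center (Xb hcomm χ) :=
  (QuotientGroup.mk' (Subgroup.center (Xb hcomm χ))).comp
    (QuotientGroup.mk' (irrKer (chiBig hcomm χ)))

theorem proj_eq_one_iff (w : XX Q H) : proj hcomm χ w = 1 ↔ w ∈ irrCen (chiBig hcomm χ) := by
  unfold proj irrCen
  rw [MonoidHom.comp_apply, QuotientGroup.mk'_apply, QuotientGroup.eq_one_iff,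
    Subgroup.mem_comap]

theorem Th_one : Th χ (1 : NB Q H) = χ.1 1 ^ Fintype.card Q := by
  rw [Th_apply, tens_apply]
  simp [Finset.prod_const, Finset.card_univ]

theorem mk_inl_eq_one_iff (n : NB Q H) (hν : n.2.2 = 1) :
    (QuotientGroup.mk (SemidirectProduct.inl n) : Xb hcomm χ) = 1 ↔
      Th χ n = Th χ (1 : NB Q H) := by
  rw [QuotientGroup.eq_one_iff, mem_irrKer]
  have h1 : (1 : XX Q H) = SemidirectProduct.inl (1 : NB Q H) := by simp
  rw [h1, chiBig_inl, chiBig_inl, if_pos hν, if_pos (show (1 : NB Q H).2.2 = 1 from rfl)]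
  have hQ : (Fintype.card Q : ℂ) ≠ 0 := by exact_mod_cast Fintype.card_ne_zero
  constructor
  · intro h; exact mul_right_cancel₀ hQ h
  · intro h; rw [h]

theorem tens_mulSingle (z : H) :
    tens (fun _ : Q => χ.1) (Pi.mulSingle 1 z) = χ.1 z * χ.1 1 ^ (Fintype.card Q - 1) := by
  rw [tens_apply, ← Finset.mul_prod_erase Finset.univ _ (Finset.mem_univ (1 : Q)),
    Pi.mulSingle_eq_same]
  congr 1
  rw [Finset.prod_congr rfl (fun q hq => by
    rw [Pi.mulSingle_eq_of_ne (Finset.ne_of_mem_erase hq)]), Finset.prod_const,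
    Finset.card_erase_of_mem (Finset.mem_univ _), Finset.card_univ]

/-- The embedding of the centre of `H`. -/
noncomputable def zmap : Subgroup.center H →* Xb hcomm χ :=
  (QuotientGroup.mk' (irrKer (chiBig hcomm χ))).comp
    ((SemidirectProduct.inl : NB Q H →* XX Q H).comp
      ((MonoidHom.inl (Q → H) (UU Q × (Q →* ℂˣ))).comp
        ((MonoidHom.mulSingle (fun _ : Q => H) 1).comp (Subgroup.center H).subtype)))

theorem zmap_apply (z : Subgroup.center H) :
    zmap hcomm χ z =
      QuotientGroup.mk (SemidirectProduct.inl ((Pi.mulSingle 1 (z : H), 1) : NB Q H)) := rfl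

include hf in
theorem zmap_injective : Function.Injective (zmap hcomm χ) := by
  rw [injective_iff_map_eq_one]
  intro z hz
  rw [zmap_apply, mk_inl_eq_one_iff _ _ _ rfl, Th_one, Th_apply] at hz
  simp only [Prod.fst_one, OneMemClass.coe_one, Units.val_one, mul_one] at hz
  rw [tens_mulSingle] at hz
  have h1 : χ.1 1 ≠ 0 := irr_one_ne_zero χ
  have h2 : χ.1 1 ^ Fintype.card Q = χ.1 1 * χ.1 1 ^ (Fintype.card Q - 1) := by
    rw [← pow_succ', Nat.sub_add_cancel Fintype.card_pos]
  rw [h2] at hz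
  exact Subtype.ext (hf _ (mul_right_cancel₀ (pow_ne_zero _ h1) hz))

include hf hsq in
theorem zmap_mem_center (z : Subgroup.center H) :
    zmap hcomm χ z ∈ Subgroup.center (Xb hcomm χ) := by
  have : SemidirectProduct.inl ((Pi.mulSingle 1 (z : H), 1) : NB Q H) ∈
      irrCen (chiBig hcomm χ) := by
    rw [mem_irrCen_chiBig hcomm χ hf hsq]
    refine ⟨rfl, rfl, fun q => ?_⟩
    by_cases hq : q = 1
    · subst hq
      simp only [SemidirectProduct.left_inl]
      rw [Pi.mulSingle_eq_same]
      exact z.2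
    · simp only [SemidirectProduct.left_inl]
      rw [Pi.mulSingle_eq_of_ne hq]
      exact Subgroup.one_mem _
  exact this

/-- The embedding of the roots of unity. -/
noncomputable def umap : UU Q →* Xb hcomm χ :=
  (QuotientGroup.mk' (irrKer (chiBig hcomm χ))).comp
    ((SemidirectProduct.inl : NB Q H →* XX Q H).comp
      ((MonoidHom.inr (Q → H) (UU Q × (Q →* ℂˣ))).comp (MonoidHom.inl (UU Q) (Q →* ℂˣ))))

theorem umap_apply (u : UU Q) :
    umap hcomm χ u =
      QuotientGroup.mk (SemidirectProduct.inl ((1, (u, 1)) : NB Q H)) := rfl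

theorem umap_injective : Function.Injective (umap hcomm χ) := by
  rw [injective_iff_map_eq_one]
  intro u hu
  rw [umap_apply, mk_inl_eq_one_iff _ _ _ rfl, Th_apply, Th_apply] at hu
  have h0 : tens (fun _ : Q => χ.1) (1 : Q → H) ≠ 0 := by
    rw [tens_apply]
    simp only [Pi.one_apply, Finset.prod_const]
    exact pow_ne_zero _ (irr_one_ne_zero χ)
  have h1 := mul_left_cancel₀ h0 hu
  exact Subtype.ext (Units.ext (by simpa using h1))

include hf hsq in
theorem umap_mem_center (u : UU Q) : umap hcomm χ u ∈ Subgroup.center (Xb hcomm χ) := by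
  have : SemidirectProduct.inl ((1, (u, 1)) : NB Q H) ∈ irrCen (chiBig hcomm χ) := by
    rw [mem_irrCen_chiBig hcomm χ hf hsq]
    exact ⟨rfl, rfl, fun q => Subgroup.one_mem _⟩
  exact this

include hf hsq in
theorem center_pow (c : Xb hcomm χ) (hc : c ∈ Subgroup.center (Xb hcomm χ)) :
    c ^ Nat.lcm (Nat.card (Subgroup.center H)) (Nat.card Q) = 1 := by
  obtain ⟨w, rfl⟩ := QuotientGroup.mk_surjective c
  have hw : w ∈ irrCen (chiBig hcomm χ) := hc
  rw [mem_irrCen_chiBig hcomm χ hf hsq] at hw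
  obtain ⟨hr, hν, hz⟩ := hw
  rw [inl_left_of_right hr, ← QuotientGroup.mk_pow, ← map_pow]
  have : w.left ^ Nat.lcm (Nat.card (Subgroup.center H)) (Nat.card Q) = 1 := by
    apply Prod.ext
    · funext q
      rw [Prod.pow_fst, Pi.pow_apply, Prod.fst_one, Pi.one_apply]
      obtain ⟨k, hk⟩ := Nat.dvd_lcm_left (Nat.card (Subgroup.center H)) (Nat.card Q)
      rw [hk, pow_mul]
      have h1 : (⟨w.left.1 q, hz q⟩ : Subgroup.center H) ^ Nat.card (Subgroup.center H) = 1 :=
        pow_card_eq_one'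
      have h2 := congrArg Subtype.val h1
      rw [SubmonoidClass.coe_pow] at h2
      simp only [OneMemClass.coe_one] at h2
      rw [h2, one_pow]
    · apply Prod.ext
      · rw [Prod.pow_snd, Prod.pow_fst]
        obtain ⟨k, hk⟩ := Nat.dvd_lcm_right (Nat.card (Subgroup.center H)) (Nat.card Q)
        rw [hk, pow_mul]
        have h1 : w.left.2.1 ^ Nat.card Q = 1 := by
          have h2 := w.left.2.1.2
          rw [mem_rootsOfUnity] at h2
          exact Subtype.ext (by rw [SubmonoidClass.coe_pow]; exact h2)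
        rw [h1]
        exact one_pow _
      · rw [Prod.pow_snd, Prod.pow_snd, hν]
        exact one_pow (M := Q →* ℂˣ) _
  rw [this, map_one, QuotientGroup.mk_one]

include hf hsq in
theorem card_center_dvd (χ' : IrrCharacter (Xb hcomm χ)) (hχ' : irrKer χ' = ⊥) :
    Nat.card (Subgroup.center (Xb hcomm χ)) ∣
      Nat.lcm (Nat.card (Subgroup.center H)) (Nat.card Q) := by
  haveI := center_cyclic_of_faithful χ' hχ'
  rw [← IsCyclic.exponent_eq_card]
  apply Monoid.exponent_dvd_of_forall_pow_eq_one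
  intro c
  apply Subtype.ext
  rw [SubmonoidClass.coe_pow, OneMemClass.coe_one]
  exact center_pow hcomm χ hf hsq c.1 c.2

include hcomm in
theorem prime_dvd_card_XX {r : ℕ} (hr : r.Prime) (h : r ∣ Nat.card (XX Q H)) :
    r ∣ Nat.card H ∨ r ∣ Nat.card Q := by
  haveI : NeZero (Nat.card Q) := ⟨Nat.card_pos.ne'⟩
  rw [Nat.card_congr SemidirectProduct.equivProd, Nat.card_prod, Nat.card_prod, Nat.card_prod,
    Nat.card_fun, Complex.card_rootsOfUnity, (Cfsg.Agent.H80.card_hom_of_comm Q hcomm).2] at h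
  rcases (Nat.Prime.dvd_mul hr).mp h with h | h
  · rcases (Nat.Prime.dvd_mul hr).mp h with h | h
    · exact Or.inl (hr.dvd_of_dvd_pow h)
    · rcases (Nat.Prime.dvd_mul hr).mp h with h | h
      · exact Or.inr h
      · exact Or.inr h
  · exact Or.inr h

end Final

section Emb

variable {G : Type u} [Group G] (N : Subgroup G) [N.Normal] [Fintype (G ⧸ N)]
  [DecidableEq (G ⧸ N)] {H : Type u} [Group H] [Fintype H]
  (hcomm : ∀ a b : G ⧸ N, a * b = b * a) [Fintype ((G ⧸ N) →* ℂˣ)]
  [DecidableEq ((G ⧸ N) →* ℂˣ)]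
  (χ : IrrCharacter H) (hf : ∀ h : H, χ.1 h = χ.1 1 → h = 1)
  (hsq : charDegree χ.1 ^ 2 = (Subgroup.center H).index)
  (ι : N →* H ⧸ Subgroup.center H)

/-- The lifted cocycle. -/
noncomputable def lft (g : G) : XX (G ⧸ N) H :=
  ⟨(fun q => (ι (coc N g q)).out, 1), (g : G ⧸ N)⟩

theorem lft_mul (g g' : G) :
    lft N ι g * lft N ι g' =
      SemidirectProduct.inl ((fun q => (ι (coc N g q)).out *
        (ι (coc N g' (q * (g : G ⧸ N)))).out * ((ι (coc N (g * g') q)).out)⁻¹, 1) :
          NB (G ⧸ N) H) * lft N ι (g * g') := by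
  apply SemidirectProduct.ext
  · simp only [lft, SemidirectProduct.mul_left, SemidirectProduct.left_inl,
      SemidirectProduct.right_inl, map_one, MulAut.one_apply, Phi_apply]
    apply Prod.ext
    · funext q
      simp [shift_apply]
    · simp [pair_one_left]
  · simp [lft]

include hf hsq in
theorem proj_lft_mul (g g' : G) :
    proj hcomm χ (lft N ι (g * g')) = proj hcomm χ (lft N ι g) * proj hcomm χ (lft N ι g') := by
  rw [← map_mul, lft_mul, map_mul]
  have h1 : proj hcomm χ (SemidirectProduct.inl ((fun q => (ι (coc N g q)).out *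
        (ι (coc N g' (q * (g : G ⧸ N)))).out * ((ι (coc N (g * g') q)).out)⁻¹, 1) :
          NB (G ⧸ N) H)) = 1 := by
    rw [proj_eq_one_iff, mem_irrCen_chiBig hcomm χ hf hsq]
    refine ⟨rfl, rfl, fun q => ?_⟩
    simp only [SemidirectProduct.left_inl]
    rw [← QuotientGroup.eq_one_iff, QuotientGroup.mk_mul, QuotientGroup.mk_mul,
      QuotientGroup.mk_inv, QuotientGroup.out_eq', QuotientGroup.out_eq', QuotientGroup.out_eq',
      coc_mul, map_mul, mul_inv_cancel]
  rw [h1, one_mul]

/-- The embedding of `G`. -/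
noncomputable def gemb : G →* Xb hcomm χ ⧸ Subgroup.center (Xb hcomm χ) :=
  MonoidHom.mk' (fun g => proj hcomm χ (lft N ι g)) (proj_lft_mul N hcomm χ hf hsq ι)

theorem gemb_injective (hι : Function.Injective ι) :
    Function.Injective (gemb N hcomm χ hf hsq ι) := by
  rw [injective_iff_map_eq_one]
  intro g hg
  have h0 : proj hcomm χ (lft N ι g) = 1 := hg
  rw [proj_eq_one_iff, mem_irrCen_chiBig hcomm χ hf hsq] at h0
  obtain ⟨h1, -, h2⟩ := h0
  have h1' : (g : G ⧸ N) = 1 := h1
  have h3 : coc N g 1 = 1 := by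
    apply hι
    rw [map_one, ← QuotientGroup.out_eq' (ι (coc N g 1)), QuotientGroup.eq_one_iff]
    exact h2 1
  have h4 : (1 : G ⧸ N).out * g * ((1 : G ⧸ N) * (g : G ⧸ N)).out⁻¹ = 1 :=
    congrArg Subtype.val h3
  rw [h1', one_mul] at h4
  have h5 : g = (1 : G ⧸ N).out⁻¹ * ((1 : G ⧸ N).out * g * (1 : G ⧸ N).out⁻¹) *
      (1 : G ⧸ N).out := by group
  rw [h5, h4]
  group

end Emb

section Step

/-- The inductive step of Gagola's theorem. -/
theorem step {G : Type u} [Group G] [Finite G] (N : Subgroup G) [N.Normal]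
    (hp : (N.index).Prime)
    (H : Type u) [Group H] [Finite H] (χ : IrrCharacter H)
    (hf : ∀ h : H, χ.1 h = χ.1 1 → h = 1)
    (hsq : charDegree χ.1 ^ 2 = (Subgroup.center H).index)
    (ι : N →* H ⧸ Subgroup.center H) (hι : Function.Injective ι)
    (hpr : ∀ r : ℕ, r.Prime → ((r ∣ Nat.card H ↔ r ∣ Nat.card N) ∧
      (r ∣ Nat.card (Subgroup.center H) ↔ r ∣ Nat.card N)))
    (hsf : Squarefree (Nat.card (Subgroup.center H))) :
    ∃ (H' : Type u) (_ : Group H') (_ : Finite H') (χ' : IrrCharacter H'),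
      (∀ h : H', χ'.1 h = χ'.1 1 → h = 1) ∧
      charDegree χ'.1 ^ 2 = (Subgroup.center H').index ∧
      (∃ f : G →* H' ⧸ Subgroup.center H', Function.Injective f) ∧
      (∀ r : ℕ, r.Prime → ((r ∣ Nat.card H' ↔ r ∣ Nat.card G) ∧
        (r ∣ Nat.card (Subgroup.center H') ↔ r ∣ Nat.card G))) ∧
      Squarefree (Nat.card (Subgroup.center H')) := by
  classical
  letI : Fintype H := Fintype.ofFinite H
  letI : Fintype (G ⧸ N) := Fintype.ofFinite _
  have hcardQ : Nat.card (G ⧸ N) = N.index := (Subgroup.index_eq_card N).symm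
  haveI : Fact (Nat.card (G ⧸ N)).Prime := ⟨by rw [hcardQ]; exact hp⟩
  have hcomm : ∀ a b : G ⧸ N, a * b = b * a := by
    haveI : IsCyclic (G ⧸ N) := isCyclic_of_prime_card (p := Nat.card (G ⧸ N)) rfl
    exact fun a b => isCyclic_comm a b
  haveI := (Cfsg.Agent.H80.card_hom_of_comm (G ⧸ N) hcomm).1
  letI : Fintype ((G ⧸ N) →* ℂˣ) := Fintype.ofFinite _
  obtain ⟨χ', hχ'⟩ := exists_deflate (irrKer (chiBig hcomm χ)) (chiBig hcomm χ)
    (fun x hx => hx)
  have hfaith := deflate_faithful (chiBig hcomm χ) χ' hχ'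
  have hker : irrKer χ' = ⊥ := irrKer_eq_bot_of_faithful χ' hfaith
  have hcen_dvd := card_center_dvd hcomm χ hf hsq χ' hker
  have hZ : Nat.card (Subgroup.center H) ∣ Nat.card (Subgroup.center (Xb hcomm χ)) :=
    card_dvd_center_of_injective (zmap hcomm χ) (zmap_injective hcomm χ hf)
      (zmap_mem_center hcomm χ hf hsq)
  have hU : Nat.card (G ⧸ N) ∣ Nat.card (Subgroup.center (Xb hcomm χ)) := by
    have h := card_dvd_center_of_injective (umap hcomm χ) (umap_injective hcomm χ)
      (umap_mem_center hcomm χ hf hsq)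
    haveI : NeZero (Nat.card (G ⧸ N)) := ⟨Nat.card_pos.ne'⟩
    rwa [Complex.card_rootsOfUnity] at h
  have hG : Nat.card G = Nat.card N * Nat.card (G ⧸ N) := by
    rw [hcardQ, Subgroup.card_mul_index]
  have hcenter : ∀ r : ℕ, r.Prime →
      (r ∣ Nat.card (Subgroup.center (Xb hcomm χ)) ↔ r ∣ Nat.card G) := by
    intro r hr
    constructor
    · intro h
      have h1 := dvd_trans (dvd_trans h hcen_dvd) (Nat.lcm_dvd_mul _ _)
      rw [hG]
      rcases (Nat.Prime.dvd_mul hr).mp h1 with h2 | h2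
      · exact dvd_mul_of_dvd_left ((hpr r hr).2.mp h2) _
      · exact dvd_mul_of_dvd_right h2 _
    · intro h
      rw [hG] at h
      rcases (Nat.Prime.dvd_mul hr).mp h with h2 | h2
      · exact dvd_trans ((hpr r hr).2.mpr h2) hZ
      · exact dvd_trans h2 hU
  have hdeg : charDegree χ'.1 = charDegree (chiBig hcomm χ).1 := by
    rw [← charDegree_inflate (irrKer (chiBig hcomm χ)) χ', hχ']
  refine ⟨Xb hcomm χ, inferInstance, inferInstance, χ', hfaith, ?_,
    ⟨gemb N hcomm χ hf hsq ι, gemb_injective N hcomm χ hf hsq ι hι⟩, ?_, ?_⟩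
  · rw [index_center_quot, ← chiBig_sq hcomm χ hf hsq, hdeg]
  · intro r hr
    refine ⟨⟨fun h => ?_, fun h => ?_⟩, hcenter r hr⟩
    · have h1 : r ∣ Nat.card (XX (G ⧸ N) H) :=
        dvd_trans h (Subgroup.card_quotient_dvd_card _)
      rw [hG]
      rcases prime_dvd_card_XX hcomm hr h1 with h2 | h2
      · exact dvd_mul_of_dvd_left ((hpr r hr).1.mp h2) _
      · exact dvd_mul_of_dvd_right h2 _
    · exact dvd_trans ((hcenter r hr).mpr h) (Subgroup.card_subgroup_dvd_card _)
  · exact Squarefree.squarefree_of_dvd hcen_dvd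
      (squarefree_lcm_prime hsf (by rw [hcardQ]; exact hp))

/-- Gagola's theorem, by induction on the order. -/
theorem exists_central_type (n : ℕ) : ∀ (G : Type u) [Group G] [Finite G],
    Group.IsSolvable G → Nat.card G = n →
    ∃ (H : Type u) (_ : Group H) (_ : Finite H) (χ : IrrCharacter H),
      (∀ h : H, χ.1 h = χ.1 1 → h = 1) ∧
      charDegree χ.1 ^ 2 = (Subgroup.center H).index ∧
      (∃ f : G →* H ⧸ Subgroup.center H, Function.Injective f) ∧
      (∀ r : ℕ, r.Prime → ((r ∣ Nat.card H ↔ r ∣ Nat.card G) ∧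
        (r ∣ Nat.card (Subgroup.center H) ↔ r ∣ Nat.card G))) ∧
      Squarefree (Nat.card (Subgroup.center H)) := by
  induction n using Nat.strong_induction_on with
  | _ n ih =>
    intro G _ _ hsolv hcard
    by_cases htriv : Subsingleton G
    · haveI : Subsingleton (Subgroup.center G) :=
        ⟨fun a b => Subtype.ext (Subsingleton.elim _ _)⟩
      have h1 : Nat.card G = 1 := Nat.card_of_subsingleton (1 : G)
      have h2 : Nat.card (Subgroup.center G) = 1 := Nat.card_of_subsingleton 1
      refine ⟨G, inferInstance, inferInstance, linChar (1 : G →* ℂˣ),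
        fun h _ => Subsingleton.elim _ _, ?_,
        ⟨QuotientGroup.mk' _, Function.injective_of_subsingleton _⟩, ?_, ?_⟩
      · have h3 : (Subgroup.center G).index = 1 := by
          have := Subgroup.index_dvd_card (Subgroup.center G)
          rw [h1] at this
          exact Nat.dvd_one.mp this
        rw [h3]
        change ⌊((linChar (1 : G →* ℂˣ)).1 1).re⌋₊ ^ 2 = 1
        rw [linChar_one]
        simp
      · intro r _
        refine ⟨Iff.rfl, ?_⟩
        rw [h1, h2]
      · rw [h2]
        exact squarefree_one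
    · haveI : Nontrivial G := not_subsingleton_iff_nontrivial.mp htriv
      haveI := hsolv
      obtain ⟨N, hN, hp⟩ := Cfsg.Agent.H1.exists_normal_prime_index G
      haveI := hN
      have hNcard : Nat.card N < n := by
        have h1 := Subgroup.card_mul_index N
        have h2 := hp.two_le
        rw [hcard] at h1
        have hpos : 0 < Nat.card N := Nat.card_pos
        nlinarith
      obtain ⟨H, iH, fH, χ, hf, hsq, ⟨ι, hι⟩, hpr, hsf⟩ :=
        ih (Nat.card N) hNcard N inferInstance rfl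
      letI := iH
      haveI := fH
      exact step N hp H χ hf hsq ι hι hpr hsf

end Step

end Cfsg.Agent.H81.Gag
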