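import Cfsg.Agent.S4502
import Cfsg.Agent.H82.P1M
import Cfsg.Agent.H84.PrincipalPairs
import Cfsg.Agent.H81.Proj

set_option autoImplicit false
set_option linter.style.haveILetI false
set_option linter.unusedSectionVars false

/-!
# The Gram matrix of the non-exceptional characters on `p`-regular elements (Sylow of order `p`)
-/

open Cfsg

universe u

namespace Cfsg.Agent.H81.K0

open Cfsg.Agent.H82 Cfsg.Agent.H82.BL Cfsg.Agent.H82.P1 Cfsg.Agent.H4
open scoped ComplexConjugate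

/-- The number of `p`-singular elements of `C`, for a setup with `P` of order `p`. -/
theorem sing_count_C {G : Type u} [Group G] [Fintype G] {p : ℕ} {N C P : Subgroup G}
    [Fintype C] (S : Setup p N C P) (hP : Nat.card P = p) :
    (∑ c : C, if p ∣ orderOf (c : G) then (1 : ℂ) else 0) * (p : ℂ) =
      (Nat.card C : ℂ) * ((p : ℂ) - 1) := by
  classical
  have hsurj : Function.Surjective S.ρ := fun x => ⟨(x : C), S.hρ x⟩
  have hcard : Nat.card S.ρ.ker * p = Nat.card C := by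
    have h1 := Subgroup.card_mul_index S.ρ.ker
    rw [Subgroup.index_ker, MonoidHom.range_eq_top.mpr hsurj, Subgroup.card_top,
      Nat.card_congr (Subgroup.subgroupOfEquivOfLe S.hPC).toEquiv, hP] at h1
    exact h1
  have hsum : (∑ c : C, if p ∣ orderOf (c : G) then (1 : ℂ) else 0) =
      (Nat.card C : ℂ) - (Nat.card S.ρ.ker : ℂ) := by
    have h1 : ∀ c : C, (if p ∣ orderOf (c : G) then (1 : ℂ) else 0) =
        1 - (if c ∈ S.ρ.ker then (1 : ℂ) else 0) := by
      intro c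
      by_cases hc : p ∣ orderOf (c : G)
      · have : c ∉ S.ρ.ker := fun h => ((S.hreg c).mpr (MonoidHom.mem_ker.mp h)) hc
        rw [if_pos hc, if_neg this, sub_zero]
      · have : c ∈ S.ρ.ker := MonoidHom.mem_ker.mpr ((S.hreg c).mp hc)
        rw [if_neg hc, if_pos this, sub_self]
    rw [Finset.sum_congr rfl (fun c _ => h1 c), Finset.sum_sub_distrib, Finset.sum_const,
      Finset.card_univ, nsmul_eq_mul, mul_one, ← Nat.card_eq_fintype_card]
    congr 1
    rw [Finset.sum_ite, Finset.sum_const_zero, add_zero, Finset.sum_const, nsmul_eq_mul, mul_one,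
      Nat.card_eq_fintype_card, Fintype.card_subtype]
  rw [hsum, ← hcard]
  push_cast
  ring

theorem gram_sylow_p {G : Type u} [Group G] [Fintype G] (p : ℕ) [Fact p.Prime] (M : Ideal AlgInt)
    (hM : IsPModular p M) (hodd : p ≠ 2) (P : Sylow p G) (hP : Nat.card P = p) :
    ∃ (w : IrrCharacter G → ℤ) (X : Finset (IrrCharacter G)) (e t : ℕ) (σ : ℤ),
      e * t + 1 = p ∧ 1 ≤ t ∧ X.card = e ∧ (∀ χ ∈ X, w χ = 1 ∨ w χ = -1) ∧ (σ = 1 ∨ σ = -1) ∧
      (∀ ψ ∈ principalBlock M G, ψ ∈ X ∨ ∀ g : G, ¬ p ∣ orderOf g →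
        (σ : ℂ) * (ψ : G → ℂ) g = ∑ χ ∈ X, (w χ : ℂ) * (χ : G → ℂ) g) ∧
      (∀ χ ∈ X, ∀ χ' ∈ X, (p : ℂ) * classInner (pRegularPart p (χ : G → ℂ)) (χ' : G → ℂ) =
        (if χ = χ' then (p : ℂ) else 0) - (t : ℂ) * (w χ : ℂ) * (w χ' : ℂ)) := by
  classical
  have hp : p.Prime := Fact.out
  obtain ⟨S⟩ := exists_setup_of_card P hP
  letI : Fintype ↥(NN P) := Fintype.ofFinite _
  letI : Fintype ↥(CC P) := Fintype.ofFinite _
  letI : Fintype (IrrCharacter G) := Cfsg.Agent.H4.fintypeIrr G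
  letI : Fintype (IrrCharacter ↥(NN P)) := Cfsg.Agent.H4.fintypeIrr _
  letI : Fintype (IrrCharacter ↥(CC P)) := Cfsg.Agent.H4.fintypeIrr _
  letI : Fintype ↥((P : Subgroup G).subgroupOf (CC P)) := Fintype.ofFinite _
  have hcomm : ∀ a b : ↥((P : Subgroup G).subgroupOf (CC P)), a * b = b * a := by
    intro a b
    apply Subtype.ext
    apply Subtype.ext
    have := S.cent (a : G) (Subgroup.mem_subgroupOf.mp a.2) (b : G) (b : ↥(CC P)).2
    simpa using this
  haveI : Finite (↥((P : Subgroup G).subgroupOf (CC P)) →* ℂˣ) := (card_hom_units hcomm).1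
  letI : Fintype (↥((P : Subgroup G).subgroupOf (CC P)) →* ℂˣ) := Fintype.ofFinite _
  have hP' : Nat.card ↥(P : Subgroup G) = p := hP
  have hdiv : p ∣ Nat.card G := by
    rw [Cfsg.Agent.H82.Md.sylp_card P hP]
    exact dvd_mul_right _ _
  have hsq : ¬ p ^ 2 ∣ Nat.card G := by
    rw [Cfsg.Agent.H82.Md.sylp_card P hP, pow_two]
    intro h
    exact Cfsg.Agent.H82.Md.sylp_not_dvd_index P hP ((Nat.mul_dvd_mul_iff_left hp.pos).mp h)
  have hcount := Cfsg.Agent.S4502.result p hdiv hsq P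
  have heq : Fintype.card (IrrCharacter ↥(NN P)) ≤
      (Finset.univ.filter fun χ : IrrCharacter G =>
        ¬ Nat.card ↥(P : Subgroup G) ∣ charDegree χ.1).card := by
    rw [hP']
    have h := hcount
    rw [← Cfsg.Agent.H4.card_irr_eq_card_conjClasses, Nat.card_eq_fintype_card,
      Nat.card_eq_fintype_card, Fintype.card_subtype] at h
    exact h.symm.le
  obtain ⟨w, Y, s, hw, hwc, hY0, hYcard, hs, hreg, hsing, hregid⟩ :=
    principal_structure S hp hP' (isCyclic_norm_mod_cent P hP S) heq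
  have het : ind S * Y.card = p - 1 := by rw [mul_comm]; exact hYcard
  -- the count of singular elements
  have hcl : IsClassFunction G (fun _ : G => (1 : ℂ)) := fun _ _ => rfl
  have hsing1 := sum_sing S hcl
  have hsingC := sing_count_C S hP'
  have hG0 : (Nat.card G : ℂ) ≠ 0 := by
    have : 0 < Nat.card G := Nat.card_pos
    exact_mod_cast this.ne'
  have hC0 : (Nat.card ↥(CC P) : ℂ) ≠ 0 := cardC_ne_zero (CC P)
  have he0 : (ind S : ℂ) ≠ 0 := by
    have := ind_pos S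
    exact_mod_cast this.ne'
  have hpc : ((p : ℂ) - 1) = (ind S : ℂ) * (Y.card : ℂ) := by
    have h1 : ((p - 1 : ℕ) : ℂ) = (p : ℂ) - 1 := by
      rw [Nat.cast_sub hp.one_lt.le, Nat.cast_one]
    rw [← h1, ← het]
    push_cast
    ring
  have hcnt : (∑ g : G, if p ∣ orderOf g then (1 : ℂ) else 0) * (p : ℂ) =
      (Nat.card G : ℂ) * (Y.card : ℂ) := by
    rw [cardN_cast S] at hsing1
    have h2 : (∑ g : G, if p ∣ orderOf g then (1 : ℂ) else 0) * (p : ℂ) *
        ((ind S : ℂ) * (Nat.card ↥(CC P) : ℂ)) =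
        (Nat.card G : ℂ) * (Y.card : ℂ) * ((ind S : ℂ) * (Nat.card ↥(CC P) : ℂ)) := by
      calc (∑ g : G, if p ∣ orderOf g then (1 : ℂ) else 0) * (p : ℂ) *
            ((ind S : ℂ) * (Nat.card ↥(CC P) : ℂ))
          = ((∑ g : G, if p ∣ orderOf g then (1 : ℂ) else 0) *
              ((ind S : ℂ) * (Nat.card ↥(CC P) : ℂ))) * (p : ℂ) := by ring
        _ = (Nat.card G : ℂ) *
              ((∑ c : ↥(CC P), if p ∣ orderOf (c : G) then (1 : ℂ) else 0) * (p : ℂ)) := by
            rw [hsing1]; ring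
        _ = (Nat.card G : ℂ) * (Y.card : ℂ) * ((ind S : ℂ) * (Nat.card ↥(CC P) : ℂ)) := by
            rw [hsingC, hpc]; ring
    exact mul_right_cancel₀ (mul_ne_zero he0 hC0) h2
  -- values on singular elements
  have hval : ∀ χ : IrrCharacter G, w χ ≠ 0 → ∀ g : G, p ∣ orderOf g → χ.1 g = (w χ : ℂ) := by
    intro χ hχ g hg
    obtain ⟨h, hh⟩ := S.conjIn g hg
    have h1 : p ∣ orderOf (h * g * h⁻¹) := by
      have : orderOf (h * g * h⁻¹) = orderOf g := (MulAut.conj h).orderOf_eq g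
      rw [this]; exact hg
    have h2 := hsing χ hχ ⟨h * g * h⁻¹, hh⟩ h1
    have h3 : χ.1 (h * g * h⁻¹) = χ.1 g :=
      isClassFunction_of_isCharacter (isCharacter_of_isIrrCharacter χ.2) g h
    rw [← h3]
    exact h2
  refine ⟨w, Finset.univ.filter (fun χ => w χ ≠ 0), ind S, Y.card, s, ?_, ?_, hwc, ?_, hs, ?_, ?_⟩
  · rw [het]
    exact Nat.sub_add_cancel hp.one_lt.le
  · by_contra h
    have h0 : Y.card = 0 := by omega
    rw [h0, mul_zero] at het
    have := hp.two_le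
    omega
  · intro χ hχ
    have hχ' : w χ ≠ 0 := (Finset.mem_filter.mp hχ).2
    rcases hw χ with h | h | h
    · exact absurd h hχ'
    · exact Or.inl h
    · exact Or.inr h
  · intro ψ hψ
    rw [Cfsg.Agent.H84.mem_principalBlock_iff_regSum hM ψ] at hψ
    have e1 : Cfsg.Agent.H84.regSum p ψ.1 = ∑ g : G, if p ∣ orderOf g then 0 else ψ.1 g := by
      unfold Cfsg.Agent.H84.regSum
      refine Finset.sum_congr rfl fun g _ => ?_
      by_cases hg : p ∣ orderOf g
      · rw [if_pos hg, Cfsg.Agent.H81.pRegularPart_of_dvd p _ hg]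
      · rw [if_neg hg, Cfsg.Agent.H81.pRegularPart_of_not_dvd p _ hg]
    rw [e1, hreg ψ] at hψ
    rcases hψ with h | h
    · exact Or.inl (Finset.mem_filter.mpr ⟨Finset.mem_univ _, h⟩)
    · right
      intro g hg
      rw [hregid ψ h g hg]
      symm
      apply Finset.sum_filter_of_ne
      intro χ _ hne h0
      apply hne
      rw [h0]
      simp
  · intro χ hχ χ' hχ'
    have hwχ : w χ ≠ 0 := (Finset.mem_filter.mp hχ).2
    have hwχ' : w χ' ≠ 0 := (Finset.mem_filter.mp hχ').2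
    have hterm : ∀ g : G, pRegularPart p χ.1 g * conj (χ'.1 g) =
        χ.1 g * conj (χ'.1 g) -
          (w χ : ℂ) * (w χ' : ℂ) * (if p ∣ orderOf g then (1 : ℂ) else 0) := by
      intro g
      by_cases hg : p ∣ orderOf g
      · rw [Cfsg.Agent.H81.pRegularPart_of_dvd p _ hg, if_pos hg, hval χ hwχ g hg,
          hval χ' hwχ' g hg, map_intCast]
        ring
      · rw [Cfsg.Agent.H81.pRegularPart_of_not_dvd p _ hg, if_neg hg]
        ring
    have horth := irr_inner χ χ'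
    unfold classInner at horth ⊢
    rw [Finset.sum_congr rfl (fun g _ => hterm g), Finset.sum_sub_distrib, ← Finset.mul_sum,
      mul_sub, mul_sub, horth]
    have h3 : (p : ℂ) * ((Nat.card G : ℂ)⁻¹ * ((w χ : ℂ) * (w χ' : ℂ) *
        ∑ g : G, if p ∣ orderOf g then (1 : ℂ) else 0)) =
        (Y.card : ℂ) * (w χ : ℂ) * (w χ' : ℂ) := by
      calc (p : ℂ) * ((Nat.card G : ℂ)⁻¹ * ((w χ : ℂ) * (w χ' : ℂ) *
            ∑ g : G, if p ∣ orderOf g then (1 : ℂ) else 0))
          = (Nat.card G : ℂ)⁻¹ * ((w χ : ℂ) * (w χ' : ℂ)) *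
              ((∑ g : G, if p ∣ orderOf g then (1 : ℂ) else 0) * (p : ℂ)) := by ring
        _ = (Y.card : ℂ) * (w χ : ℂ) * (w χ' : ℂ) := by
            rw [hcnt]
            field_simp
    rw [h3]
    split_ifs <;> simp

end Cfsg.Agent.H81.K0

section Check
open Cfsg

example {G : Type u} [Group G] [Fintype G] (p : ℕ) [Fact p.Prime] (M : Ideal AlgInt)
    (hM : IsPModular p M) (hodd : p ≠ 2) (P : Sylow p G) (hP : Nat.card P = p) :
    ∃ (w : IrrCharacter G → ℤ) (X : Finset (IrrCharacter G)) (e t : ℕ) (σ : ℤ),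
      e * t + 1 = p ∧ 1 ≤ t ∧ X.card = e ∧ (∀ χ ∈ X, w χ = 1 ∨ w χ = -1) ∧ (σ = 1 ∨ σ = -1) ∧
      (∀ ψ ∈ principalBlock M G, ψ ∈ X ∨ ∀ g : G, ¬ p ∣ orderOf g →
        (σ : ℂ) * (ψ : G → ℂ) g = ∑ χ ∈ X, (w χ : ℂ) * (χ : G → ℂ) g) ∧
      (∀ χ ∈ X, ∀ χ' ∈ X, (p : ℂ) * classInner (pRegularPart p (χ : G → ℂ)) (χ' : G → ℂ) =
        (if χ = χ' then (p : ℂ) else 0) - (t : ℂ) * (w χ : ℂ) * (w χ' : ℂ)) :=
  Cfsg.Agent.H81.K0.gram_sylow_p p M hM hodd P hP

end Check
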