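import Mathlib
import Cfsg.Agent.H97.Sp4Defs

set_option autoImplicit false
set_option linter.style.haveILetI false

/-!
# S2460 piece K1B: the Pfaffian of the Gram matrix of `v, g v, g² v, g³ v`
-/

namespace Cfsg.Agent.H81.Sp4

open Matrix Cfsg.Agent.H97.Sp4

variable {F : Type*} [Field F] {V : Type*} [AddCommGroup V] [Module F V]

theorem sp_skew {B : LinearMap.BilinForm F V} {g : Module.End F V} (h : SpData B g) (x y : V) :
    B y x = - B x y := by
  have h1 := h.alt (x + y)
  simp only [map_add, LinearMap.add_apply, h.alt x, h.alt y] at h1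
  linear_combination h1

/-- a vector orthogonal (on the right) to a spanning family is zero -/
theorem sp_eq_zero_of_orth {B : LinearMap.BilinForm F V} {g : Module.End F V} (h : SpData B g)
    (x : Fin 4 → V) (hx : LinearIndependent F x) (w : V) (hw : ∀ i, B (x i) w = 0) : w = 0 := by
  haveI : Module.Finite F V := Module.finite_of_finrank_pos (by rw [h.dim]; norm_num)
  have hspan : Submodule.span F (Set.range x) = ⊤ :=
    hx.span_eq_top_of_card_eq_finrank' (by rw [h.dim]; simp)
  apply h.nondeg.2
  intro u
  have hu : u ∈ Submodule.span F (Set.range x) := by rw [hspan]; trivial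
  induction hu using Submodule.span_induction with
  | mem y hy =>
    obtain ⟨i, rfl⟩ := hy
    exact hw i
  | zero => simp
  | add y z _ _ hy hz => rw [map_add, LinearMap.add_apply, hy, hz, add_zero]
  | smul a y _ hy => rw [map_smul, LinearMap.smul_apply, hy, smul_zero]

theorem disc_ne_zero {B : LinearMap.BilinForm F V} {g : Module.End F V} (h : SpData B g) (v : V)
    (hv : LinearIndependent F ![v, g v, g (g v), g (g (g v))]) :
    B v (g v) * (B v (g v) + B v (g (g (g v)))) - B v (g (g v)) ^ 2 ≠ 0 := by
  intro hD
  set a : V := v with ha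
  set b : V := g v with hb
  set c : V := g (g v) with hc
  set d : V := g (g (g v)) with hd
  set m1 : F := B a b with hm1
  set m2 : F := B a c with hm2
  set m3 : F := B a d with hm3
  have hbc : B b c = m1 := by rw [hb, hc, h.isom]
  have hbd : B b d = m2 := by rw [hb, hd, h.isom]
  have hcd : B c d = m1 := by rw [hc, hd, h.isom, h.isom]
  have hba : B b a = -m1 := sp_skew h a b
  have hca : B c a = -m2 := sp_skew h a c
  have hda : B d a = -m3 := sp_skew h a d
  have hcb : B c b = -m1 := by rw [sp_skew h b c, hbc]
  have hdb : B d b = -m2 := by rw [sp_skew h b d, hbd]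
  have hdc : B d c = -m1 := by rw [sp_skew h c d, hcd]
  -- the vector w
  have hw : (-m1) • b + m2 • c + (-m1) • d = 0 := by
    apply sp_eq_zero_of_orth h _ hv
    intro i
    fin_cases i
    · simp only [Fin.zero_eta, Matrix.cons_val_zero, map_add, map_smul, smul_eq_mul]
      rw [← hm1, ← hm2, ← hm3]
      linear_combination -hD
    · simp only [Fin.mk_one, Matrix.cons_val_one, Matrix.cons_val_zero, map_add, map_smul,
        smul_eq_mul]
      rw [h.alt b, hbc, hbd]
      ring
    · show B c ((-m1) • b + m2 • c + (-m1) • d) = 0
      simp only [map_add, map_smul, smul_eq_mul]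
      rw [h.alt c, hcb, hcd]
      ring
    · show B d ((-m1) • b + m2 • c + (-m1) • d) = 0
      simp only [map_add, map_smul, smul_eq_mul]
      rw [h.alt d, hdb, hdc]
      ring
  have hli := Fintype.linearIndependent_iff.mp hv ![0, -m1, m2, -m1] (by
    simp only [Fin.sum_univ_four, Matrix.cons_val_zero, Matrix.cons_val_one]
    show (0 : F) • a + (-m1) • b + m2 • c + (-m1) • d = 0
    rw [zero_smul, zero_add]
    exact hw)
  have h1 : m1 = 0 := by
    have := hli 1
    simpa using this
  have h2 : m2 = 0 := by
    have := hli 2
    simpa using this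
  -- now b is orthogonal to everything
  have hb0 : b = 0 := by
    apply sp_eq_zero_of_orth h _ hv
    intro i
    fin_cases i
    · show B a b = 0
      rw [← hm1, h1]
    · show B b b = 0
      exact h.alt b
    · show B c b = 0
      rw [hcb, h1, neg_zero]
    · show B d b = 0
      rw [hdb, h2, neg_zero]
  exact hv.ne_zero 1 hb0

end Cfsg.Agent.H81.Sp4

section Check
open Matrix Cfsg.Agent.H97.Sp4
variable {F : Type*} [Field F] {V : Type*} [AddCommGroup V] [Module F V]

example {B : LinearMap.BilinForm F V} {g : Module.End F V} (h : SpData B g) (v : V)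
    (hv : LinearIndependent F ![v, g v, g (g v), g (g (g v))]) :
    B v (g v) * (B v (g v) + B v (g (g (g v)))) - B v (g (g v)) ^ 2 ≠ 0 :=
  Cfsg.Agent.H81.Sp4.disc_ne_zero h v hv
end Check
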