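import Mathlib
import Cfsg.Agent.H97.Sp4Defs

set_option autoImplicit false
set_option linter.style.haveILetI false

/-!
# S2460 piece K3: trichotomy from a cubic relation for an isometry of a symplectic 4-space
-/

namespace Cfsg.Agent.H81.Sp4

open Matrix Cfsg.Agent.H97.Sp4

variable {F : Type*} [Field F] {V : Type*} [AddCommGroup V] [Module F V]

theorem sp_injective {B : LinearMap.BilinForm F V} {g : Module.End F V} (h : SpData B g) :
    Function.Injective g := by
  rw [← LinearMap.ker_eq_bot, LinearMap.ker_eq_bot']
  intro u hu
  apply h.nondeg.1
  intro v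
  rw [← h.isom u v, hu]
  simp

/-- reversal of a cubic relation -/
theorem sp_rev3 {B : LinearMap.BilinForm F V} {g : Module.End F V} (h : SpData B g)
    (a0 a1 a2 a3 : F)
    (hrel : a0 • (1 : Module.End F V) + a1 • g + a2 • (g * g) + a3 • (g * g * g) = 0) :
    a3 • (1 : Module.End F V) + a2 • g + a1 • (g * g) + a0 • (g * g * g) = 0 := by
  apply LinearMap.ext
  intro v
  rw [LinearMap.zero_apply]
  apply h.nondeg.2
  intro u
  have h1 := congrArg (fun f : Module.End F V => B (f u) (g (g (g v)))) hrel
  simp only [LinearMap.add_apply, LinearMap.smul_apply, Module.End.mul_apply,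
    Module.End.one_apply, LinearMap.zero_apply, map_add, map_smul, smul_eq_mul, h.isom,
    map_zero] at h1
  simp only [LinearMap.add_apply, LinearMap.smul_apply, Module.End.mul_apply,
    Module.End.one_apply, map_add, map_smul, smul_eq_mul]
  linear_combination h1

/-- reversal of a quadratic relation -/
theorem sp_rev2 {B : LinearMap.BilinForm F V} {g : Module.End F V} (h : SpData B g)
    (a0 a1 a2 : F)
    (hrel : a0 • (1 : Module.End F V) + a1 • g + a2 • (g * g) = 0) :
    a2 • (1 : Module.End F V) + a1 • g + a0 • (g * g) = 0 := by
  apply LinearMap.ext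
  intro v
  rw [LinearMap.zero_apply]
  apply h.nondeg.2
  intro u
  have h1 := congrArg (fun f : Module.End F V => B (f u) (g (g v))) hrel
  simp only [LinearMap.add_apply, LinearMap.smul_apply, Module.End.mul_apply,
    Module.End.one_apply, LinearMap.zero_apply, map_add, map_smul, smul_eq_mul, h.isom,
    map_zero] at h1
  simp only [LinearMap.add_apply, LinearMap.smul_apply, Module.End.mul_apply,
    Module.End.one_apply, map_add, map_smul, smul_eq_mul]
  linear_combination h1

theorem sp_nontrivial {B : LinearMap.BilinForm F V} {g : Module.End F V} (h : SpData B g) :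
    Nontrivial V := by
  apply Module.nontrivial_of_finrank_pos (R := F)
  rw [h.dim]; norm_num

/-- a scalar isometry squares to one -/
theorem sp_scalar {B : LinearMap.BilinForm F V} {g : Module.End F V} (h : SpData B g)
    (c : F) (hg : g = c • (1 : Module.End F V)) : g * g = 1 := by
  haveI := sp_nontrivial h
  obtain ⟨u, hu⟩ := exists_ne (0 : V)
  have hex : ∃ v, B u v ≠ 0 := by
    by_contra hcon
    push Not at hcon
    exact hu (h.nondeg.1 u hcon)
  obtain ⟨v, hv⟩ := hex
  have h1 := h.isom u v
  rw [hg] at h1
  simp only [LinearMap.smul_apply, Module.End.one_apply, map_smul, smul_eq_mul] at h1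
  have hc : c * c = 1 := by
    have h2 : (c * c - 1) * B u v = 0 := by linear_combination h1
    rcases mul_eq_zero.mp h2 with h3 | h3
    · linear_combination h3
    · exact absurd h3 hv
  rw [hg, smul_mul_smul_comm, mul_one, hc, one_smul]

/-- a linear relation with nonzero leading coefficient makes `g` scalar -/
theorem sp_lin {B : LinearMap.BilinForm F V} {g : Module.End F V} (h : SpData B g)
    (a b : F) (ha : a ≠ 0) (hrel : a • g + b • (1 : Module.End F V) = 0) : g * g = 1 := by
  apply sp_scalar h (-b / a)
  have h1 : a • g = a • ((-b / a) • (1 : Module.End F V)) := by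
    rw [smul_smul, mul_div_cancel₀ _ ha]
    have : a • g = -(b • (1 : Module.End F V)) := eq_neg_of_add_eq_zero_left hrel
    rw [this, neg_smul]
  exact smul_right_injective _ ha h1

theorem sp_one_ne_zero {B : LinearMap.BilinForm F V} {g : Module.End F V} (h : SpData B g)
    (a : F) (ha : a • (1 : Module.End F V) = 0) : a = 0 := by
  haveI := sp_nontrivial h
  obtain ⟨u, hu⟩ := exists_ne (0 : V)
  have h1 := congrArg (fun f : Module.End F V => f u) ha
  simp only [LinearMap.smul_apply, Module.End.one_apply, LinearMap.zero_apply] at h1
  rcases smul_eq_zero.mp h1 with h2 | h2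
  · exact h2
  · exact absurd h2 hu

theorem trichotomy {B : LinearMap.BilinForm F V} {g : Module.End F V} (h : SpData B g)
    (p q r : F) (hrel : g * g * g + p • (g * g) + q • g + r • 1 = 0) :
    g * g = 1 ∨ (∃ c : F, g * g - c • g + 1 = 0) ∨
      ∃ κ c : F, κ * κ = 1 ∧ (g - κ • 1) * (g * g - c • g + 1) = 0 := by
  have hP : r • (1 : Module.End F V) + q • g + p • (g * g) + (1 : F) • (g * g * g) = 0 := by
    rw [one_smul]; rw [← hrel]; abel
  have hR := sp_rev3 h r q p 1 hP
  -- (*) : (q - r p) g² + (p - r q) g + (1 - r²) = 0
  have hstar : (q - r * p) • (g * g) + (p - r * q) • g + (1 - r * r) • (1 : Module.End F V) = 0 := by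
    have e : (q - r * p) • (g * g) + (p - r * q) • g + (1 - r * r) • (1 : Module.End F V)
        = ((1 : F) • (1 : Module.End F V) + p • g + q • (g * g) + r • (g * g * g))
          - r • (r • (1 : Module.End F V) + q • g + p • (g * g) + (1 : F) • (g * g * g)) := by
      module
    rw [e, hR, hP]; simp
  by_cases hr : r * r = 1
  · -- r² = 1
    by_cases hq : q = r * p
    · right; right
      refine ⟨-r, r - p, by linear_combination hr, ?_⟩
      have e : (g - (-r) • (1 : Module.End F V)) * (g * g - (r - p) • g + 1)
          = (g * g * g + p • (g * g) + q • g + r • 1) + (1 - r * r) • g := by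
        rw [hq]
        apply LinearMap.ext
        intro v
        simp only [LinearMap.add_apply, LinearMap.sub_apply, LinearMap.smul_apply,
          Module.End.mul_apply, Module.End.one_apply, map_add, map_sub, map_smul]
        module
      rw [e, hrel, hr]; simp
    · left
      have hq' : q - r * p ≠ 0 := sub_ne_zero.mpr hq
      have h1 : (q - r * p) • (g * g) = (q - r * p) • (r • g) := by
        have e : (q - r * p) • (g * g) - (q - r * p) • (r • g)
            = (q - r * p) • (g * g) + (p - r * q) • g + (1 - r * r) • (1 : Module.End F V)
              + ((r * r - 1) * p) • g + (r * r - 1) • (1 : Module.End F V) := by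
          module
        have : (q - r * p) • (g * g) - (q - r * p) • (r • g) = 0 := by
          rw [e, hstar, hr]; simp
        exact sub_eq_zero.mp this
      have h2 : g * g = r • g := smul_right_injective _ hq' h1
      apply sp_scalar h r
      apply LinearMap.ext
      intro v
      apply sp_injective h
      have h3 := congrArg (fun f : Module.End F V => f v) h2
      simp only [Module.End.mul_apply, LinearMap.smul_apply] at h3
      simp only [LinearMap.smul_apply, Module.End.one_apply, map_smul]
      exact h3
  · -- r² ≠ 1
    have hr' : 1 - r * r ≠ 0 := by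
      intro h0; apply hr; linear_combination -h0
    by_cases hq : q - r * p = 0
    · left
      by_cases hp : p - r * q = 0
      · exfalso
        rw [hq, hp] at hstar
        simp only [zero_smul, zero_add] at hstar
        exact hr' (sp_one_ne_zero h _ hstar)
      · apply sp_lin h (p - r * q) (1 - r * r) hp
        rw [hq] at hstar
        simpa using hstar
    · -- monic quadratic
      set a : F := (p - r * q) / (q - r * p) with ha
      set b : F := (1 - r * r) / (q - r * p) with hb
      have hb0 : b ≠ 0 := div_ne_zero hr' hq
      have hquad : b • (1 : Module.End F V) + a • g + (1 : F) • (g * g) = 0 := by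
        have e : (q - r * p) • (b • (1 : Module.End F V) + a • g + (1 : F) • (g * g))
            = (q - r * p) • (g * g) + (p - r * q) • g + (1 - r * r) • (1 : Module.End F V) := by
          simp only [smul_add, smul_smul, ha, hb, mul_div_cancel₀ _ hq, mul_one]
          abel
        have : (q - r * p) • (b • (1 : Module.End F V) + a • g + (1 : F) • (g * g)) = 0 := by
          rw [e, hstar]
        rcases smul_eq_zero.mp this with h0 | h0
        · exact absurd h0 hq
        · exact h0
      have hquadR := sp_rev2 h b a 1 hquad
      have hlin : (a * (1 - b)) • g + (1 - b * b) • (1 : Module.End F V) = 0 := by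
        have e : (a * (1 - b)) • g + (1 - b * b) • (1 : Module.End F V)
            = ((1 : F) • (1 : Module.End F V) + a • g + b • (g * g))
              - b • (b • (1 : Module.End F V) + a • g + (1 : F) • (g * g)) := by
          module
        rw [e, hquadR, hquad]; simp
      by_cases hab : a * (1 - b) = 0
      · rw [hab, zero_smul, zero_add] at hlin
        have hbb : 1 - b * b = 0 := sp_one_ne_zero h _ hlin
        by_cases hb1 : b = 1
        · right; left
          refine ⟨-a, ?_⟩
          have e : g * g - (-a) • g + 1 = b • (1 : Module.End F V) + a • g + (1 : F) • (g * g) := by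
            rw [hb1]; simp only [neg_smul, sub_neg_eq_add, one_smul]; abel
          rw [e, hquad]
        · left
          have ha0 : a = 0 := by
            rcases mul_eq_zero.mp hab with h0 | h0
            · exact h0
            · exfalso; apply hb1; linear_combination -h0
          have hbm : b = -1 := by
            have h2 : (b - 1) * (b + 1) = 0 := by linear_combination -hbb
            rcases mul_eq_zero.mp h2 with h0 | h0
            · exfalso; apply hb1; linear_combination h0
            · linear_combination h0
          rw [ha0, hbm] at hquad
          simp only [neg_smul, one_smul, zero_smul, add_zero] at hquad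
          have : g * g = 1 := by
            have h3 : g * g - 1 = 0 := by rw [← hquad]; abel
            exact sub_eq_zero.mp h3
          exact this
      · left
        exact sp_lin h _ _ hab hlin

end Cfsg.Agent.H81.Sp4

section Check
open Matrix Cfsg.Agent.H97.Sp4
variable {F : Type*} [Field F] {V : Type*} [AddCommGroup V] [Module F V]

example {B : LinearMap.BilinForm F V} {g : Module.End F V} (h : SpData B g)
    (p q r : F) (hrel : g * g * g + p • (g * g) + q • g + r • 1 = 0) :
    g * g = 1 ∨ (∃ c : F, g * g - c • g + 1 = 0) ∨
      ∃ κ c : F, κ * κ = 1 ∧ (g - κ • 1) * (g * g - c • g + 1) = 0 :=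
  Cfsg.Agent.H81.Sp4.trichotomy h p q r hrel
end Check
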